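import Mathlib.GroupTheory.QuotientGroup.Basic
import Mathlib.GroupTheory.PGroup
import Mathlib.GroupTheory.Subgroup.Centralizer
import Mathlib.Tactic

/-!
# A 2-group of exponent 4 extended by a fixed-point-free dihedral group of order `2n`, `n` odd

If `y` of odd order acts without fixed points on the 2-group `F`, the involution `s` inverts `y` and normalises `F`,
and `(s f)^4 = 1`, `f^4 = 1` for all `f ∈ F`, then `F` has exponent two.
-/

set_option autoImplicit false
set_option linter.unusedSectionVars false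

namespace Cfsg.Agent.SmallOrder.Spec5

open Subgroup

universe u

variable {G : Type u} [Group G]

/-- The product of the `⟨y⟩`-conjugates of `x`. -/
def orbitProd (y x : G) (n : ℕ) : G := ((List.range n).map fun j => y ^ j * x * (y ^ j)⁻¹).prod

theorem conj_orbitProd (y x : G) (n : ℕ) :
    y * orbitProd y x n * y⁻¹ = x⁻¹ * orbitProd y x (n + 1) := by
  have h : ∀ l : List G, y * l.prod * y⁻¹ = (l.map fun z => y * z * y⁻¹).prod := by
    intro l
    induction l with
    | nil => simp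
    | cons a l ih => rw [List.map_cons, List.prod_cons, List.prod_cons, ← ih]; group
  rw [orbitProd, orbitProd, h, List.map_map, List.range_succ_eq_map, List.map_cons, List.prod_cons, List.map_map]
  simp only [pow_zero, one_mul, inv_one, mul_one, inv_mul_cancel_left]
  congr 1
  refine List.map_congr_left fun j _ => ?_
  simp [pow_succ', mul_assoc]

theorem orbitProd_succ (y x : G) (n : ℕ) : orbitProd y x (n + 1) = orbitProd y x n * (y ^ n * x * (y ^ n)⁻¹) := by
  simp [orbitProd, List.range_succ]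

theorem exists_nontrivial_center [Finite G] {F : Subgroup G} (hF : IsPGroup 2 F) (hne : F ≠ ⊥) :
    ∃ z ∈ F, z ≠ 1 ∧ z * z = 1 ∧ ∀ f ∈ F, f * z = z * f := by
  haveI : Fact (Nat.Prime 2) := ⟨Nat.prime_two⟩
  haveI : Nontrivial F := (Subgroup.nontrivial_iff_ne_bot F).2 hne
  haveI := hF.center_nontrivial
  obtain ⟨k, hk⟩ := IsPGroup.iff_card.1 ((hF.to_subgroup (Subgroup.center F)))
  have hk0 : k ≠ 0 := fun e => by
    have := Finite.one_lt_card (α := Subgroup.center F)
    rw [hk, e, pow_zero] at this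
    omega
  obtain ⟨z, hz⟩ := exists_prime_orderOf_dvd_card' (G := Subgroup.center F) 2 (hk ▸ dvd_pow_self 2 hk0)
  refine ⟨((z : F) : G), (z : F).2, ?_, ?_, fun f hf => ?_⟩
  · intro e
    rw [show z = 1 from Subtype.ext (Subtype.ext e), orderOf_one] at hz
    omega
  · have := congrArg (fun w : Subgroup.center F => ((w : F) : G)) (hz ▸ pow_orderOf_eq_one z : z ^ 2 = 1)
    simpa [pow_two] using this
  · exact congrArg Subtype.val (Subgroup.mem_center_iff.1 z.2 ⟨f, hf⟩)

theorem exists_central_omega (F : Subgroup G) (hF : F.Normal) :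
    ∃ W : Subgroup G, W.Normal ∧ ∀ z, z ∈ W ↔ (z ∈ F ∧ (∀ f ∈ F, f * z = z * f) ∧ z * z = 1) := by
  let W : Subgroup G :=
    { carrier := {z | z ∈ F ∧ (∀ f ∈ F, f * z = z * f) ∧ z * z = 1}
      one_mem' := ⟨F.one_mem, fun f _ => by simp, mul_one 1⟩
      mul_mem' := by
        rintro a b ⟨ha, hac, ha2⟩ ⟨hb, hbc, hb2⟩
        refine ⟨F.mul_mem ha hb, fun f hf => ?_, ?_⟩
        · exact (Commute.mul_right (hac f hf) (hbc f hf)).eq
        · rw [(show Commute b a from (hbc a ha).symm).mul_mul_mul_comm, ha2, hb2, one_mul]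
      inv_mem' := by
        rintro a ⟨ha, hac, ha2⟩
        refine ⟨F.inv_mem ha, fun f hf => (Commute.inv_right (hac f hf)).eq, ?_⟩
        rw [← mul_inv_rev, ha2, inv_one] }
  refine ⟨W, ⟨?_⟩, fun z => Iff.rfl⟩
  rintro z ⟨hz, hzc, hz2⟩ g
  refine ⟨hF.conj_mem z hz g, fun f hf => ?_, ?_⟩
  · have := hzc (g⁻¹ * f * g) (by simpa using hF.conj_mem f hf g⁻¹)
    calc f * (g * z * g⁻¹) = g * ((g⁻¹ * f * g) * z) * g⁻¹ := by group
      _ = g * (z * (g⁻¹ * f * g)) * g⁻¹ := by rw [this]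
      _ = g * z * g⁻¹ * f := by group
  · rw [show g * z * g⁻¹ * (g * z * g⁻¹) = g * (z * z) * g⁻¹ by group, hz2, mul_one, mul_inv_cancel]

theorem sq_eq_one_normal (k : ℕ) : ∀ {G : Type u} [Group G] [Finite G] (F : Subgroup G) [F.Normal],
    Nat.card F ≤ k → IsPGroup 2 F → ∀ (y s : G) (n : ℕ), Odd n → y ^ n = 1 → s * s = 1 → s * y * s = y⁻¹ →
    (∀ f ∈ F, f * y = y * f → f = 1) → (∀ f ∈ F, (s * f) ^ 4 = 1) → (∀ f ∈ F, f ^ 4 = 1) →
    ∀ f ∈ F, f * f = 1 := by
  induction k with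
  | zero => intro G _ _ F _ h; exact absurd h (by simp [Nat.card_pos.ne'])
  | succ k ih =>
    intro G _ _ F hFn hk hF y s n hn hyn hs hsy hfpf hsf hf4 f hf
    by_cases hne : F = ⊥
    · rw [hne, Subgroup.mem_bot] at hf
      rw [hf, mul_one]
    obtain ⟨W, hWn, hW⟩ := exists_central_omega F hFn
    haveI := hWn
    obtain ⟨z, hzF, hz1, hz2, hzc⟩ := exists_nontrivial_center hF hne
    have hzW : z ∈ W := (hW z).2 ⟨hzF, hzc, hz2⟩
    -- fixed points modulo `W`
    have hmodW : ∀ g ∈ F, y * g * y⁻¹ * g⁻¹ ∈ W → g ∈ W := by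
      intro g hg hgw
      let φ : W → W := fun v => ⟨(v : G)⁻¹ * (y * v * y⁻¹), W.mul_mem (W.inv_mem v.2) (hWn.conj_mem v v.2 y)⟩
      have hφ : Function.Injective φ := by
        intro u v e
        have e' : (u : G)⁻¹ * (y * u * y⁻¹) = (v : G)⁻¹ * (y * v * y⁻¹) := congrArg Subtype.val e
        have hvu : (v : G) * (u : G)⁻¹ ∈ F := F.mul_mem ((hW v).1 v.2).1 (F.inv_mem ((hW u).1 u.2).1)
        have hfix : y * ((v : G) * (u : G)⁻¹) * y⁻¹ = (v : G) * (u : G)⁻¹ := by
          calc y * ((v : G) * (u : G)⁻¹) * y⁻¹ = (v : G) * ((v : G)⁻¹ * (y * v * y⁻¹)) * (y * u * y⁻¹)⁻¹ := by group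
            _ = (v : G) * ((u : G)⁻¹ * (y * u * y⁻¹)) * (y * u * y⁻¹)⁻¹ := by rw [e']
            _ = (v : G) * (u : G)⁻¹ := by group
        have := hfpf _ hvu (mul_inv_eq_iff_eq_mul.1 hfix).symm
        exact Subtype.ext (mul_inv_eq_one.1 this).symm
      obtain ⟨v, hv⟩ := (Finite.injective_iff_surjective.1 hφ) ⟨_, W.inv_mem hgw⟩
      have hv' : (v : G)⁻¹ * (y * v * y⁻¹) = (y * g * y⁻¹ * g⁻¹)⁻¹ := congrArg Subtype.val hv
      have hgv : g * v ∈ F := F.mul_mem hg ((hW v).1 v.2).1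
      have hcent := ((hW _).1 hgw).2.1 g hg
      have hfix : y * (g * v) * y⁻¹ = g * v := by
        have e1 : y * (v : G) * y⁻¹ = (v : G) * (y * g * y⁻¹ * g⁻¹)⁻¹ := by rw [← hv', mul_inv_cancel_left]
        calc y * (g * v) * y⁻¹ = (y * g * y⁻¹ * g⁻¹) * g * (y * v * y⁻¹) := by group
          _ = (y * g * y⁻¹ * g⁻¹) * g * ((v : G) * (y * g * y⁻¹ * g⁻¹)⁻¹) := by rw [e1]
          _ = g * (y * g * y⁻¹ * g⁻¹) * ((v : G) * (y * g * y⁻¹ * g⁻¹)⁻¹) := by rw [hcent]
          _ = g * ((y * g * y⁻¹ * g⁻¹) * (v : G)) * (y * g * y⁻¹ * g⁻¹)⁻¹ := by group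
          _ = g * ((v : G) * (y * g * y⁻¹ * g⁻¹)) * (y * g * y⁻¹ * g⁻¹)⁻¹ := by rw [((hW v).1 v.2).2.1 _ ((hW _).1 hgw).1]
          _ = g * v := by group
      have := hfpf _ hgv (mul_inv_eq_iff_eq_mul.1 hfix).symm
      exact (eq_inv_of_mul_eq_one_left this) ▸ W.inv_mem v.2
    -- squares lie in `W`
    have hsq : ∀ g ∈ F, g * g ∈ W := by
      intro g hg
      set π := QuotientGroup.mk' W
      haveI : (F.map π).Normal := hFn.map π (QuotientGroup.mk'_surjective W)
      have hlt : Nat.card (F.map π) ≤ k := by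
        by_contra hgt
        push Not at hgt
        have hsurj : Function.Surjective (fun x : F => (⟨π x, x, x.2, rfl⟩ : F.map π)) := by
          rintro ⟨_, x, hx, rfl⟩; exact ⟨⟨x, hx⟩, rfl⟩
        have hinj : Function.Injective (fun x : F => (⟨π x, x, x.2, rfl⟩ : F.map π)) :=
          (Nat.bijective_iff_surjective_and_card _).2 ⟨hsurj,
            le_antisymm (hk.trans hgt) (Nat.card_le_card_of_surjective _ hsurj)⟩ |>.1
        have := hinj (a₁ := ⟨z, hzF⟩) (a₂ := 1) (Subtype.ext (by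
          show π z = π 1
          rw [map_one]; exact (QuotientGroup.eq_one_iff z).2 hzW))
        exact hz1 (congrArg Subtype.val this)
      have hres := ih (F.map π) hlt (hF.map π) (π y) (π s) n hn (by rw [← map_pow, hyn, map_one])
        (by rw [← map_mul, hs, map_one]) (by rw [← map_mul, ← map_mul, hsy, map_inv])
        (by
          rintro _ ⟨x, hx, rfl⟩ hxy
          refine (QuotientGroup.eq_one_iff x).2 (hmodW x hx ?_)
          rw [← QuotientGroup.eq_one_iff (N := W)]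
          show π (y * x * y⁻¹ * x⁻¹) = 1
          rw [map_mul, map_mul, map_mul, map_inv, map_inv, ← hxy, mul_inv_cancel_right, mul_inv_cancel])
        (by rintro _ ⟨x, hx, rfl⟩; rw [← map_mul, ← map_pow, hsf x hx, map_one])
        (by rintro _ ⟨x, hx, rfl⟩; rw [← map_pow, hf4 x hx, map_one])
        (π g) ⟨g, hg, rfl⟩
      rw [← map_mul] at hres
      exact (QuotientGroup.eq_one_iff _).1 hres
    have hcen : ∀ w ∈ W, ∀ g ∈ F, g * w = w * g := fun w hw g hg => ((hW w).1 hw).2.1 g hg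
    have hcomm : ∀ a ∈ F, ∀ c ∈ F, a⁻¹ * c * a * c⁻¹ ∈ W := by
      intro a ha c hc
      have e : a⁻¹ * c * a * c⁻¹ = (a * a)⁻¹ * ((a * c) * (a * c)) * (c * c)⁻¹ := by group
      rw [e]
      exact W.mul_mem (W.mul_mem (W.inv_mem (hsq a ha)) (hsq _ (F.mul_mem ha hc))) (W.inv_mem (hsq c hc))
    have hpow : ∀ j : ℕ, ∀ x ∈ F, y ^ j * x * (y ^ j)⁻¹ ∈ F := fun j x hx => hFn.conj_mem x hx _
    have hPmem : ∀ x ∈ F, orbitProd y x n ∈ F := fun x hx => F.list_prod_mem (by
      intro t ht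
      obtain ⟨j, -, rfl⟩ := List.mem_map.1 ht
      exact hpow j x hx)
    have hPfix : ∀ x : G, y * orbitProd y x n * y⁻¹ = x⁻¹ * orbitProd y x n * x := fun x => by
      rw [conj_orbitProd, orbitProd_succ, hyn, one_mul, inv_one, mul_one, mul_assoc]
    have hPW : ∀ x ∈ F, orbitProd y x n ∈ W := by
      intro x hx
      refine hmodW _ (hPmem x hx) ?_
      rw [hPfix]
      exact hcomm x hx _ (hPmem x hx)
    have hP1 : ∀ w ∈ W, orbitProd y w n = 1 := by
      intro w hw
      have hwF := ((hW w).1 hw).1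
      refine hfpf _ (hPmem w hwF) ?_
      have := hPfix w
      rw [mul_assoc w⁻¹, hcen w hw _ (hPmem w hwF), ← mul_assoc w⁻¹, inv_mul_cancel, one_mul] at this
      exact (mul_inv_eq_iff_eq_mul.1 this).symm
    -- the relations
    have hgW : f * f ∈ W := hsq f hf
    have hsinv : s⁻¹ = s := inv_eq_of_mul_eq_one_right hs
    set d := s * f * s with hd
    have hdF : d ∈ F := by have := hFn.conj_mem f hf s; rwa [hsinv] at this
    let β : F →* G :=
      { toFun := fun x => (x : G)⁻¹ * f * x * f⁻¹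
        map_one' := by simp
        map_mul' := fun a c => by
          show ((a : G) * c)⁻¹ * f * ((a : G) * c) * f⁻¹ = _
          calc ((a : G) * c)⁻¹ * f * ((a : G) * c) * f⁻¹
              = (c : G)⁻¹ * (((a : G)⁻¹ * f * a * f⁻¹) * (f * c)) * f⁻¹ := by group
            _ = (c : G)⁻¹ * ((f * c) * ((a : G)⁻¹ * f * a * f⁻¹)) * f⁻¹ := by
                rw [hcen _ (hcomm a a.2 f hf) (f * c) (F.mul_mem hf c.2)]
            _ = ((c : G)⁻¹ * f * c) * (((a : G)⁻¹ * f * a * f⁻¹) * f⁻¹) := by group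
            _ = ((c : G)⁻¹ * f * c) * (f⁻¹ * ((a : G)⁻¹ * f * a * f⁻¹)) := by
                rw [← hcen _ (hcomm a a.2 f hf) f⁻¹ (F.inv_mem hf)]
            _ = ((c : G)⁻¹ * f * c * f⁻¹) * ((a : G)⁻¹ * f * a * f⁻¹) := by group
            _ = _ := hcen _ (hcomm a a.2 f hf) _ (((hW _).1 (hcomm c c.2 f hf)).1) }
    have key : ∀ j : ℕ, (y ^ j * d * (y ^ j)⁻¹ * (y ^ j * d * (y ^ j)⁻¹)) * (f * f) *
        β ⟨y ^ j * d * (y ^ j)⁻¹, hpow j d hdF⟩ = 1 := by
      intro j
      obtain ⟨i, hi⟩ : ∃ i : ℕ, y ^ (i + i) = y ^ j := by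
        obtain ⟨r, hr⟩ := hn
        refine ⟨(r + 1) * j, ?_⟩
        rw [show (r + 1) * j + (r + 1) * j = n * j + j by rw [hr]; ring, pow_add, pow_mul, hyn, one_pow, one_mul]
      set g := (y ^ i)⁻¹ * f * y ^ i with hg
      have hgF : g ∈ F := by simpa [hg] using hFn.conj_mem f hf (y ^ i)⁻¹
      have h4 : (s * g * s * g) * (s * g * s * g) = 1 := by
        have := hsf g hgF
        rw [show (s * g) ^ 4 = (s * g * s * g) * (s * g * s * g) by
          rw [show (4 : ℕ) = 2 + 2 from rfl, pow_add, pow_two]; group] at this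
        exact this
      have hsys : s * y ^ i * s = (y ^ i)⁻¹ := by
        have := conj_pow (a := s) (b := y) (i := i)
        rw [hsinv, hsy, inv_pow] at this
        exact this.symm
      have hsys' : s * (y ^ i)⁻¹ * s = y ^ i := by
        calc s * (y ^ i)⁻¹ * s = (s * y ^ i * s)⁻¹ := by rw [mul_inv_rev, mul_inv_rev, hsinv, mul_assoc]
          _ = y ^ i := by rw [hsys, inv_inv]
      have e1 : s * g * s = y ^ i * d * (y ^ i)⁻¹ := by
        calc s * g * s = s * (y ^ i)⁻¹ * (s * s) * f * (s * s) * y ^ i * s := by rw [hs, hg]; group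
          _ = (s * (y ^ i)⁻¹ * s) * (s * f * s) * (s * y ^ i * s) := by group
          _ = _ := by rw [hsys, hsys', hd]
      have e2 : s * g * s * g = (y ^ i)⁻¹ * (y ^ j * d * (y ^ j)⁻¹ * f) * y ^ i := by
        rw [e1, ← hi, hg, pow_add]; group
      rw [e2] at h4
      have h5 : (y ^ j * d * (y ^ j)⁻¹ * f) * (y ^ j * d * (y ^ j)⁻¹ * f) = 1 := by
        calc _ = y ^ i * (((y ^ i)⁻¹ * (y ^ j * d * (y ^ j)⁻¹ * f) * y ^ i) *
              ((y ^ i)⁻¹ * (y ^ j * d * (y ^ j)⁻¹ * f) * y ^ i)) * (y ^ i)⁻¹ := by group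
          _ = 1 := by rw [h4, mul_one, mul_inv_cancel]
      set e := y ^ j * d * (y ^ j)⁻¹ with he
      have heF : e ∈ F := hpow j d hdF
      show e * e * (f * f) * (e⁻¹ * f * e * f⁻¹) = 1
      rw [mul_assoc, hcen _ (hcomm e heF f hf) (f * f) (F.mul_mem hf hf), ← h5]
      group
    -- multiply over `j`
    have hmul : ∀ l : List ℕ, ((l.map fun j => y ^ j * (d * d) * (y ^ j)⁻¹).prod) * (f * f) ^ l.length *
        ((l.map fun j => β ⟨y ^ j * d * (y ^ j)⁻¹, hpow j d hdF⟩).prod) = 1 := by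
      intro l
      induction l with
      | nil => simp
      | cons j l ihl =>
        rw [List.map_cons, List.prod_cons, List.map_cons, List.prod_cons, List.length_cons, pow_succ']
        set A := (l.map fun j => y ^ j * (d * d) * (y ^ j)⁻¹).prod with hA
        set Bp := (l.map fun j => β ⟨y ^ j * d * (y ^ j)⁻¹, hpow j d hdF⟩).prod
        have hsqj : y ^ j * (d * d) * (y ^ j)⁻¹ = y ^ j * d * (y ^ j)⁻¹ * (y ^ j * d * (y ^ j)⁻¹) := by group
        set bj := β ⟨y ^ j * d * (y ^ j)⁻¹, hpow j d hdF⟩ with hbj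
        have hAW : A ∈ W := W.list_prod_mem (by
          intro t ht
          obtain ⟨i, -, rfl⟩ := List.mem_map.1 ht
          exact hWn.conj_mem _ (hsq d hdF) _)
        have hbW : bj ∈ W := hcomm _ (hpow j d hdF) f hf
        have hffn : (f * f) ^ l.length ∈ W := W.pow_mem hgW _
        have c1 : f * f * A = A * (f * f) := hcen A hAW _ (F.mul_mem hf hf)
        have c2 : bj * (A * (f * f) ^ l.length) = (A * (f * f) ^ l.length) * bj :=
          (hcen bj hbW _ ((hW _).1 (W.mul_mem hAW hffn)).1).symm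
        generalize (f * f) ^ l.length = U at ihl c2 ⊢
        calc y ^ j * (d * d) * (y ^ j)⁻¹ * A * ((f * f) * U) * (bj * Bp)
            = y ^ j * (d * d) * (y ^ j)⁻¹ * (A * (f * f)) * (U * bj) * Bp := by group
          _ = y ^ j * (d * d) * (y ^ j)⁻¹ * (f * f) * ((A * U) * bj) * Bp := by rw [← c1]; group
          _ = (y ^ j * (d * d) * (y ^ j)⁻¹ * (f * f) * bj) * ((A * U) * Bp) := by rw [← c2]; group
          _ = 1 := by rw [hsqj, hbj, key j, one_mul, ihl]
    have hall := hmul (List.range n)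
    rw [List.length_range] at hall
    have h1 : (((List.range n).map fun j => y ^ j * (d * d) * (y ^ j)⁻¹)).prod = 1 := hP1 _ (hsq d hdF)
    have h2 : (((List.range n).map fun j => β ⟨y ^ j * d * (y ^ j)⁻¹, hpow j d hdF⟩)).prod = 1 := by
      have e : ((List.range n).map fun j => β ⟨y ^ j * d * (y ^ j)⁻¹, hpow j d hdF⟩) =
          (((List.range n).map fun j => (⟨y ^ j * d * (y ^ j)⁻¹, hpow j d hdF⟩ : F))).map β := by
        rw [List.map_map]; rfl
      rw [e, ← map_list_prod]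
      set P := (((List.range n).map fun j => (⟨y ^ j * d * (y ^ j)⁻¹, hpow j d hdF⟩ : F))).prod with hP
      have hPG : (P : G) = orbitProd y d n := by
        rw [hP, Subgroup.val_list_prod, List.map_map]; rfl
      show (P : G)⁻¹ * f * P * f⁻¹ = 1
      rw [hPG, mul_assoc _ f, hcen _ (hPW d hdF) f hf]
      group
    rw [h1, h2, one_mul, mul_one] at hall
    obtain ⟨r, hr⟩ := hn
    have hff2 : (f * f) ^ 2 = 1 := by rw [pow_two, ((hW _).1 hgW).2.2]
    rw [hr, pow_succ, pow_mul, hff2, one_pow, one_mul] at hall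
    exact hall

/-- The 2-group has exponent two. -/
theorem sq_eq_one [Finite G] (F : Subgroup G) (hF : IsPGroup 2 F) (y s : G) (n : ℕ) (hn : Odd n) (hyn : y ^ n = 1)
    (hs : s * s = 1) (hsy : s * y * s = y⁻¹) (hy : y ∈ normalizer (F : Set G)) (hsN : s ∈ normalizer (F : Set G))
    (hfpf : ∀ f ∈ F, f * y = y * f → f = 1) (hsf : ∀ f ∈ F, (s * f) ^ 4 = 1) (hf4 : ∀ f ∈ F, f ^ 4 = 1) :
    ∀ f ∈ F, f * f = 1 := by
  intro f hf
  set H := normalizer (F : Set G)
  set F' := F.subgroupOf H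
  haveI : F'.Normal := ⟨fun x hx g => mem_subgroupOf.2 ((mem_normalizer_iff.1 g.2 (x : G)).1 (mem_subgroupOf.1 hx))⟩
  have := sq_eq_one_normal (Nat.card F') F' le_rfl (hF.comap_of_injective _ H.subtype_injective) ⟨y, hy⟩ ⟨s, hsN⟩ n hn
    (Subtype.ext hyn) (Subtype.ext hs) (Subtype.ext hsy)
    (fun x hx e => Subtype.ext (hfpf x (mem_subgroupOf.1 hx) (congrArg Subtype.val e)))
    (fun x hx => Subtype.ext (hsf x (mem_subgroupOf.1 hx))) (fun x hx => Subtype.ext (hf4 x (mem_subgroupOf.1 hx)))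
    ⟨f, le_normalizer hf⟩ (mem_subgroupOf.2 hf)
  exact congrArg Subtype.val this

end Cfsg.Agent.SmallOrder.Spec5
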