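import Mathlib.GroupTheory.Sylow
import Mathlib.Tactic
import Cfsg.Agent.FGS2.Order7920
import Cfsg.Agent.Coprime.Generation
import Cfsg.Agent.Components.BaerSuzuki
import Cfsg.Agent.SmallOrder.Spec5.Elementary

/-!
# Finite groups all of whose elements have order at most five
-/

set_option autoImplicit false
set_option linter.unusedSectionVars false

namespace Cfsg.Agent.SmallOrder.Spec5

open Subgroup

/-- All element orders are at most five. -/
def Spec5 (G : Type*) [Group G] : Prop := ∀ x : G, orderOf x ≤ 5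

theorem Spec5.of_injective {G H : Type*} [Group G] [Group H] (f : H →* G) (hf : Function.Injective f) (h : Spec5 G) :
    Spec5 H := fun x => by rw [← orderOf_injective f hf]; exact h _

theorem Spec5.of_surjective {G H : Type*} [Group G] [Finite G] [Group H] (f : G →* H) (hf : Function.Surjective f)
    (h : Spec5 G) : Spec5 H := fun x => by
  obtain ⟨g, rfl⟩ := hf x
  exact (Nat.le_of_dvd (orderOf_pos g) (orderOf_map_dvd f g)).trans (h g)

variable {G : Type*} [Group G] [Finite G]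

theorem conj_ord (g x : G) : orderOf (g * x * g⁻¹) = orderOf x := by
  simpa using orderOf_injective (MulAut.conj g).toMonoidHom (MulEquiv.injective _) x

theorem conj_comm_iff (g x y : G) :
    (g * x * g⁻¹) * (g * y * g⁻¹) = (g * y * g⁻¹) * (g * x * g⁻¹) ↔ x * y = y * x := by
  constructor <;> intro e
  · have := congrArg (fun z => g⁻¹ * z * g) e
    simpa [mul_assoc] using this
  · rw [show (g * x * g⁻¹) * (g * y * g⁻¹) = g * (x * y) * g⁻¹ by group, e]; group

theorem mem_pgroup_order {r : ℕ} [Fact r.Prime] {P : Subgroup G} (hP : IsPGroup r P) {x : G} (hx : x ∈ P) :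
    ∃ k, orderOf x = r ^ k := by
  obtain ⟨k, hk⟩ := hP ⟨x, hx⟩
  obtain ⟨i, -, hi⟩ := (Nat.dvd_prime_pow (Fact.out : r.Prime)).1
    (orderOf_dvd_of_pow_eq_one (congrArg Subtype.val hk : x ^ r ^ k = 1))
  exact ⟨i, hi⟩

namespace Spec5

variable (h : Spec5 G)
include h

/-- Commuting elements of coprime orders are not both non-trivial. -/
theorem comm_false {x y : G} (hxy : x * y = y * x) (hx : x ≠ 1) (hy : y ≠ 1)
    (hc : (orderOf x).Coprime (orderOf y)) : False := by
  have h1 := h (x * y)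
  rw [(show Commute x y from hxy).orderOf_mul_eq_mul_orderOf_of_coprime hc] at h1
  have hx2 : 2 ≤ orderOf x := by
    have := orderOf_pos x
    have : orderOf x ≠ 1 := fun e => hx (orderOf_eq_one_iff.1 e)
    omega
  have hy2 : 2 ≤ orderOf y := by
    have := orderOf_pos y
    have : orderOf y ≠ 1 := fun e => hy (orderOf_eq_one_iff.1 e)
    omega
  rcases Nat.lt_or_ge (orderOf x) 3 with h2 | h2
  · rcases Nat.lt_or_ge (orderOf y) 3 with h3 | h3
    · rw [show orderOf x = 2 by omega, show orderOf y = 2 by omega] at hc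
      norm_num at hc
    · nlinarith
  · nlinarith

theorem prime_cases {r : ℕ} (hr : r.Prime) (hd : r ∣ Nat.card G) : r = 2 ∨ r = 3 ∨ r = 5 := by
  haveI := Fact.mk hr
  obtain ⟨x, hx⟩ := exists_prime_orderOf_dvd_card' r hd
  have := h x
  rw [hx] at this
  have := hr.two_le
  interval_cases r <;> first | omega | (exfalso; revert hr; norm_num)

theorem pow_four {P : Subgroup G} (hP : IsPGroup 2 P) {x : G} (hx : x ∈ P) : x ^ 4 = 1 := by
  haveI : Fact (Nat.Prime 2) := ⟨Nat.prime_two⟩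
  obtain ⟨k, hk⟩ := mem_pgroup_order hP hx
  have := h x
  rw [hk] at this
  rw [← orderOf_dvd_iff_pow_eq_one, hk]
  have hk2 : k ≤ 2 := by
    by_contra hk3
    have : 2 ^ 3 ≤ 2 ^ k := Nat.pow_le_pow_right two_pos (by omega)
    omega
  exact (pow_dvd_pow 2 hk2).trans (by norm_num)

theorem pow_prime {r : ℕ} [Fact r.Prime] (hr : r ≠ 2) {P : Subgroup G} (hP : IsPGroup r P) {x : G} (hx : x ∈ P) :
    x ^ r = 1 := by
  obtain ⟨k, hk⟩ := mem_pgroup_order hP hx
  have := h x
  rw [hk] at this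
  rw [← orderOf_dvd_iff_pow_eq_one, hk]
  have hk2 : k ≤ 1 := by
    by_contra hk3
    have h3 : 3 ≤ r := by have := (Fact.out : r.Prime).two_le; omega
    have h4 : 3 ^ 2 ≤ r ^ k := (Nat.pow_le_pow_left h3 2).trans (Nat.pow_le_pow_right (by omega) (by omega))
    omega
  exact (pow_dvd_pow r hk2).trans (by norm_num)

theorem cent_isPGroup {x : G} {r : ℕ} [Fact r.Prime] (hx : ∃ k, orderOf x = r ^ k) (hx1 : x ≠ 1) :
    IsPGroup r (centralizer ({x} : Set G)) := by
  obtain ⟨k, hk⟩ := hx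
  refine IsPGroup.of_card (n := _) (Nat.eq_prime_pow_of_unique_prime_dvd Nat.card_pos.ne' fun {d} hd hdd => ?_)
  by_contra hne
  haveI := Fact.mk hd
  obtain ⟨y, hy⟩ := exists_prime_orderOf_dvd_card' (G := centralizer ({x} : Set G)) d hdd
  refine h.comm_false (mem_centralizer_singleton_iff.1 y.2).symm hx1 ?_ ?_
  · intro e; rw [← orderOf_coe, e, orderOf_one] at hy; exact hd.ne_one hy.symm
  · rw [hk, orderOf_coe, hy]; exact ((Nat.coprime_primes Fact.out hd).2 (Ne.symm hne)).pow_left k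

/-- An odd element centralises no non-trivial 2-element. -/
theorem fpf {D : Subgroup G} (hD : IsPGroup 2 D) {y : G} (hy : y ≠ 1) (hyo : Odd (orderOf y)) :
    ∀ f ∈ D, f * y = y * f → f = 1 := by
  intro f hf e
  by_contra hf1
  haveI : Fact (Nat.Prime 2) := ⟨Nat.prime_two⟩
  obtain ⟨k, hk⟩ := mem_pgroup_order hD hf
  exact h.comm_false e hf1 hy (hk ▸ (Nat.coprime_two_left.2 hyo).pow_left k)

theorem exists_half {D : Subgroup G} (hD : IsPGroup 2 D) {y : G} (hy : y ≠ 1) (hyo : Odd (orderOf y))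
    (hyN : y ∈ normalizer (D : Set G)) {d : G} (hd : d ∈ D) : ∃ v ∈ D, v * y * v⁻¹ = y * d := by
  have hmem : ∀ v : D, y⁻¹ * ((v : G) * y * (v : G)⁻¹) ∈ D := fun v => by
    have := (mem_normalizer_iff''.1 hyN v).1 v.2
    rw [show y⁻¹ * ((v : G) * y * (v : G)⁻¹) = (y⁻¹ * v * y) * (v : G)⁻¹ by group]
    exact D.mul_mem this (D.inv_mem v.2)
  let φ : D → D := fun v => ⟨_, hmem v⟩
  have hφ : Function.Injective φ := by
    intro u v e
    have e' : (u : G) * y * (u : G)⁻¹ = (v : G) * y * (v : G)⁻¹ := mul_left_cancel (congrArg Subtype.val e)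
    have := h.fpf hD hy hyo ((v : G)⁻¹ * u) (D.mul_mem (D.inv_mem v.2) u.2) (by
      calc (v : G)⁻¹ * u * y = (v : G)⁻¹ * ((u : G) * y * (u : G)⁻¹) * u := by group
        _ = (v : G)⁻¹ * ((v : G) * y * (v : G)⁻¹) * u := by rw [e']
        _ = y * ((v : G)⁻¹ * u) := by group)
    exact Subtype.ext (inv_mul_eq_one.1 this).symm
  obtain ⟨v, hv⟩ := Finite.injective_iff_surjective.1 hφ ⟨d, hd⟩
  refine ⟨v, v.2, ?_⟩
  have := congrArg Subtype.val hv
  exact inv_mul_eq_iff_eq_mul.1 this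

/-- Make an element inverting `y` modulo `D` into an involution inverting `y`. -/
theorem exists_inverting {D : Subgroup G} (hD : IsPGroup 2 D) {y u : G} (hy : y ≠ 1) (hyo : Odd (orderOf y))
    (hyN : y ∈ normalizer (D : Set G)) (huN : u ∈ normalizer (D : Set G)) (hu2 : u * u ∈ D)
    (hinv : y * (u * y * u⁻¹) ∈ D) :
    ∃ s, s * s = 1 ∧ s * y * s = y⁻¹ ∧ ∃ v ∈ D, s = v * u := by
  have hyN' : y⁻¹ ∈ normalizer (D : Set G) := inv_mem hyN
  obtain ⟨v, hv, hvy⟩ := h.exists_half hD (inv_ne_one.2 hy) (by rwa [orderOf_inv]) hyN' hinv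
  refine ⟨v⁻¹ * u, ?_, ?_, v⁻¹, D.inv_mem hv, rfl⟩
  all_goals
    have e1 : v⁻¹ * u * y * (v⁻¹ * u)⁻¹ = y⁻¹ := by
      rw [show v⁻¹ * u * y * (v⁻¹ * u)⁻¹ = v⁻¹ * (u * y * u⁻¹) * v by group,
        show u * y * u⁻¹ = y⁻¹ * (y * (u * y * u⁻¹)) by group, ← hvy]
      group
    have e2 : v⁻¹ * u * (v⁻¹ * u) = 1 := by
      refine h.fpf hD hy hyo _ ?_ ?_
      · rw [show v⁻¹ * u * (v⁻¹ * u) = v⁻¹ * (u * v⁻¹ * u⁻¹) * (u * u) by group]
        exact D.mul_mem (D.mul_mem (D.inv_mem hv) ((mem_normalizer_iff.1 huN _).1 (D.inv_mem hv))) hu2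
      · have e3 : v⁻¹ * u * y⁻¹ * (v⁻¹ * u)⁻¹ = y := by
          rw [show v⁻¹ * u * y⁻¹ * (v⁻¹ * u)⁻¹ = (v⁻¹ * u * y * (v⁻¹ * u)⁻¹)⁻¹ by group, e1, inv_inv]
        calc v⁻¹ * u * (v⁻¹ * u) * y = v⁻¹ * u * (v⁻¹ * u * y * (v⁻¹ * u)⁻¹) * (v⁻¹ * u) := by group
          _ = (v⁻¹ * u * y⁻¹ * (v⁻¹ * u)⁻¹) * (v⁻¹ * u * (v⁻¹ * u)) := by rw [e1]; group
          _ = y * (v⁻¹ * u * (v⁻¹ * u)) := by rw [e3]
  · exact e2
  · rw [inv_eq_of_mul_eq_one_right e2] at e1
    exact e1

/-- An odd subgroup of prime power order normalising a non-trivial 2-group is of order at most that prime. -/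
theorem card_dvd_prime {D : Subgroup G} (hD : IsPGroup 2 D) (hne : D ≠ ⊥) {r : ℕ} [Fact r.Prime] (hr : r ≠ 2)
    {Q : Subgroup G} (hQ : IsPGroup r Q) (hQN : Q ≤ normalizer (D : Set G)) : Nat.card Q ∣ r := by
  haveI : Fact (Nat.Prime 2) := ⟨Nat.prime_two⟩
  obtain ⟨k, hk⟩ := IsPGroup.iff_card.1 hQ
  by_contra hnd
  have hk2 : 2 ≤ k := by
    by_contra hlt
    exact hnd (hk ▸ (pow_dvd_pow r (show k ≤ 1 by omega)).trans (by norm_num))
  obtain ⟨E, hE⟩ := Sylow.exists_subgroup_card_pow_prime (G := Q) r (n := 2) (hk ▸ pow_dvd_pow r hk2)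
  set E' := E.map Q.subtype with hE'
  have hE'c : Nat.card E' = r ^ 2 := by rw [hE', Subgroup.card_map_of_injective Q.subtype_injective, hE]
  have hE'Q : E' ≤ Q := map_subtype_le _
  haveI : IsMulCommutative E' := ⟨⟨fun x y => IsPGroup.commutative_of_card_eq_prime_sq hE'c x y⟩⟩
  have hnc : ¬ IsCyclic E' := fun hc => by
    obtain ⟨x, hx⟩ := IsCyclic.exists_ofOrder_eq_natCard (α := E')
    have h1 := orderOf_dvd_of_pow_eq_one (h.pow_prime hr hQ (hE'Q x.2))
    rw [orderOf_coe, hx, hE'c] at h1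
    have := Nat.le_of_dvd (Fact.out : r.Prime).pos h1
    have := (Fact.out : r.Prime).two_le
    nlinarith
  obtain ⟨j, hj⟩ := IsPGroup.iff_card.1 hD
  have hcop : (Nat.card E').Coprime (Nat.card D) := by
    rw [hE'c, hj]; exact ((Nat.coprime_primes Fact.out Nat.prime_two).2 hr).pow _ _
  have hjoin := Cfsg.Agent.Coprime.eq_centralizerJoin (N := D) hnc (hE'Q.trans hQN) hcop
  apply hne
  refine le_bot_iff.1 (hjoin ▸ iSup_le fun e v hv => Subgroup.mem_bot.2 ?_)
  obtain ⟨i, hi⟩ := mem_pgroup_order (hQ.to_le hE'Q) e.2.1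
  have hro : Odd r := (Fact.out : r.Prime).odd_of_ne_two hr
  exact h.fpf hD e.2.2 (hi ▸ hro.pow) v hv.1 (mem_centralizer_singleton_iff.1 hv.2)

/-- The odd part of a subgroup normalising a non-trivial 2-group divides 15. -/
theorem dvd_fifteen {D : Subgroup G} (hD : IsPGroup 2 D) (hne : D ≠ ⊥) {H : Subgroup G}
    (hH : H ≤ normalizer (D : Set G)) {d : ℕ} (hd : d ∣ Nat.card H) (hodd : Odd d) : d ∣ 15 := by
  rw [Nat.dvd_iff_prime_pow_dvd_dvd]
  intro r k hr hrk
  haveI := Fact.mk hr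
  rcases Nat.eq_zero_or_pos k with rfl | hk
  · simp
  have hr2 : r ≠ 2 := fun e => by
    subst e
    exact (Nat.not_even_iff_odd.2 hodd) (even_iff_two_dvd.2 ((dvd_pow_self 2 hk.ne').trans hrk))
  have hrG : r ∣ Nat.card G :=
    ((dvd_pow_self r hk.ne').trans (hrk.trans hd)).trans (Subgroup.card_subgroup_dvd_card H)
  obtain ⟨Q, hQ⟩ := Sylow.exists_subgroup_card_pow_prime (G := H) r (n := k) (hrk.trans hd)
  have := h.card_dvd_prime hD hne hr2 ((IsPGroup.of_card hQ).map H.subtype) ((map_subtype_le Q).trans hH)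
  rw [Subgroup.card_map_of_injective H.subtype_injective, hQ] at this
  refine this.trans ?_
  rcases h.prime_cases hr hrG with rfl | rfl | rfl
  · exact absurd rfl hr2
  all_goals norm_num

/-- Baer–Suzuki: an involution modulo `D` outside the core inverts an element of order 3 or 5. -/
theorem exists_inverted {D : Subgroup G} (hD : IsPGroup 2 D) {H : Subgroup G} (hDH : D ≤ H)
    (hH : H ≤ normalizer (D : Set G))
    (hcore : ∀ P : Subgroup G, P ≤ H → IsPGroup 2 P → (∀ x ∈ H, ∀ z ∈ P, x * z * x⁻¹ ∈ P) → P ≤ D)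
    {u : G} (hu : u ∈ H) (huD : u ∉ D) (hu2 : u * u ∈ D) :
    ∃ y ∈ H, ∃ s ∈ H, (orderOf y = 3 ∨ orderOf y = 5) ∧ s * s = 1 ∧ s * y * s = y⁻¹ ∧ ∃ v ∈ D, s = v * u := by
  haveI : Fact (Nat.Prime 2) := ⟨Nat.prime_two⟩
  set D' := D.subgroupOf H with hD'
  haveI : D'.Normal := ⟨fun x hx g =>
    mem_subgroupOf.2 ((mem_normalizer_iff.1 (hH g.2) (x : G)).1 (mem_subgroupOf.1 hx))⟩
  let π : H →* H ⧸ D' := QuotientGroup.mk' D'
  set ub := π ⟨u, hu⟩ with hub
  have hub2 : ub * ub = 1 := by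
    rw [hub, ← map_mul]
    exact (QuotientGroup.eq_one_iff _).2 (mem_subgroupOf.2 hu2)
  have hub1 : ub ≠ 1 := fun e => huD (mem_subgroupOf.1 ((QuotientGroup.eq_one_iff _).1 e))
  have hX : IsPGroup 2 (zpowers ub) := IsPGroup.of_card (n := 1)
    (by rw [Nat.card_zpowers, orderOf_eq_prime (by rw [pow_two]; exact hub2) hub1, pow_one])
  obtain ⟨g, hg⟩ : ∃ g, ¬ IsPGroup 2 (zpowers ub ⊔ (zpowers ub).map (MulAut.conj g).toMonoidHom :
      Subgroup (H ⧸ D')) := by
    by_contra hcon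
    push Not at hcon
    obtain ⟨N, hN, hNp, hXN⟩ := Cfsg.Agent.Components.baer_suzuki (p := 2) (zpowers ub) hcon
    apply huD
    have hD'p : IsPGroup 2 π.ker := by
      rw [QuotientGroup.ker_mk']; exact hD.comap_of_injective _ H.subtype_injective
    have hP : IsPGroup 2 ((N.comap π).map H.subtype) := (hNp.comap_of_ker_isPGroup π hD'p).map _
    refine hcore _ (map_subtype_le _) hP ?_ ⟨⟨u, hu⟩, hXN (mem_zpowers ub), rfl⟩
    rintro x hx _ ⟨z, hz, rfl⟩
    exact ⟨⟨x, hx⟩ * z * ⟨x, hx⟩⁻¹, (hN.comap π).conj_mem z hz _, rfl⟩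
  set w := g * ub * g⁻¹ with hw
  set z := ub * w with hz
  have hw2 : w * w = 1 := by
    rw [hw, show g * ub * g⁻¹ * (g * ub * g⁻¹) = g * (ub * ub) * g⁻¹ by group, hub2, mul_one, mul_inv_cancel]
  have hzinv : ub * z * ub⁻¹ = z⁻¹ := by
    rw [hz, mul_inv_rev, inv_eq_of_mul_eq_one_right hub2, inv_eq_of_mul_eq_one_right hw2,
      show ub * (ub * w) * ub = (ub * ub) * w * ub by group, hub2, one_mul]
  obtain ⟨r, hr, hr2, hrz⟩ : ∃ r, r.Prime ∧ r ≠ 2 ∧ r ∣ orderOf z := by
    by_contra hcon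
    push Not at hcon
    apply hg
    have hzp : IsPGroup 2 (zpowers z) := IsPGroup.of_card (n := _) (by
      rw [Nat.card_zpowers]
      exact Nat.eq_prime_pow_of_unique_prime_dvd (orderOf_pos z).ne'
        (fun {d} hd hdd => by_contra fun hne => hcon d hd hne hdd))
    have hnorm : zpowers ub ≤ normalizer (zpowers z : Set (H ⧸ D')) := by
      rw [zpowers_le]
      have h1 : ∀ x ∈ zpowers z, ub * x * ub⁻¹ ∈ zpowers z := by
        rintro _ ⟨i, rfl⟩
        show ub * z ^ i * ub⁻¹ ∈ zpowers z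
        rw [← conj_zpow, hzinv]
        exact zpow_mem (inv_mem (mem_zpowers z)) i
      exact mem_normalizer_iff.2 fun x => ⟨h1 x, fun hx => by
        have := h1 _ hx
        rwa [show ub * (ub * x * ub⁻¹) * ub⁻¹ = (ub * ub) * x * (ub * ub)⁻¹ by group, hub2, one_mul, inv_one,
          mul_one] at this⟩
    refine (IsPGroup.to_sup_of_normal_right' hX hzp hnorm).to_le ?_
    refine sup_le le_sup_left ?_
    rw [MonoidHom.map_zpowers, zpowers_le]
    show g * ub * g⁻¹ ∈ _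
    rw [← hw, show w = ub⁻¹ * z by rw [hz, inv_mul_cancel_left]]
    exact mul_mem (mem_sup_left (inv_mem (mem_zpowers ub))) (mem_sup_right (mem_zpowers z))
  obtain ⟨x, hx⟩ := QuotientGroup.mk'_surjective D' (z ^ (orderOf z / r))
  have hxr : orderOf x = r := by
    have h1 : r ∣ orderOf x := by
      have h2 := orderOf_map_dvd π x
      rwa [show π x = _ from hx, orderOf_pow_orderOf_div (orderOf_pos z).ne' hrz] at h2
    obtain ⟨c, hc⟩ := h1
    have h3 := h (x : G)
    rw [orderOf_coe, hc] at h3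
    have h4 := orderOf_pos x
    rw [hc] at h4
    have := hr.two_le
    have : 3 ≤ r := by omega
    rcases c with _ | _ | c
    · omega
    · simpa using hc
    · nlinarith
  have hxN := hH x.2
  have hxo : Odd (orderOf (x : G)) := by rw [orderOf_coe, hxr]; exact hr.odd_of_ne_two hr2
  have hx1 : (x : G) ≠ 1 := fun e => hr.ne_one (by rw [← hxr, ← orderOf_coe, e, orderOf_one])
  have hinv : (x : G) * (u * x * u⁻¹) ∈ D := by
    have : π (x * (⟨u, hu⟩ * x * ⟨u, hu⟩⁻¹)) = 1 := by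
      rw [map_mul, map_mul, map_mul, map_inv, ← hub, show π x = _ from hx, ← conj_pow, hzinv, inv_pow,
        mul_inv_cancel]
    exact mem_subgroupOf.1 ((QuotientGroup.eq_one_iff _).1 this)
  obtain ⟨s, hs, hsy, v, hv, hsv⟩ := h.exists_inverting hD hx1 hxo hxN (hH hu) hu2 hinv
  refine ⟨x, x.2, s, hsv ▸ H.mul_mem (hDH hv) hu, ?_, hs, hsy, v, hv, hsv⟩
  have := h (x : G)
  rw [orderOf_coe, hxr] at this ⊢
  have := hr.two_le
  interval_cases r <;> first | omega | (exfalso; revert hr; norm_num)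

end Spec5

/-- Sylow subgroups meeting pairwise inside a normal `r`-subgroup: congruence for their number. -/
theorem sylow_mod {H : Type*} [Group H] [Finite H] {r : ℕ} [Fact r.Prime] (D : Subgroup H)
    (P : Sylow r H) (hDle : ∀ Q : Sylow r H, D ≤ Q) (hTI : ∀ Q : Sylow r H, Q ≠ P → (P : Subgroup H) ⊓ Q ≤ D) :
    D.relIndex P ∣ Nat.card (Sylow r H) - 1 := by
  classical
  letI : MulAction (P : Subgroup H) {Q : Sylow r H // Q ≠ P} :=
    { smul := fun x Q => ⟨(x : H) • Q.1, fun e => Q.2 (by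
        have hP : (x : H) • P = P := Sylow.smul_eq_iff_mem_normalizer.2 (le_normalizer x.2)
        exact smul_left_cancel (x : H) (e.trans hP.symm))⟩
      one_smul := fun Q => Subtype.ext (one_smul H Q.1)
      mul_smul := fun x y Q => Subtype.ext (mul_smul (x : H) (y : H) Q.1) }
  have hstab : ∀ Q : {Q : Sylow r H // Q ≠ P}, MulAction.stabilizer (P : Subgroup H) Q = D.subgroupOf P := by
    rintro ⟨Q, hQ⟩
    ext x
    constructor
    · intro hx
      have hx' : (x : H) • Q = Q := congrArg Subtype.val hx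
      have h1 : (x : H) ∈ (P : Subgroup H) ⊓ normalizer (Q : Set H) := ⟨x.2, Sylow.smul_eq_iff_mem_normalizer.1 hx'⟩
      rw [IsPGroup.inf_normalizer_sylow P.2] at h1
      exact mem_subgroupOf.2 (hTI Q hQ h1)
    · intro hx
      exact Subtype.ext (Sylow.smul_eq_iff_mem_normalizer.2 (le_normalizer (hDle Q (mem_subgroupOf.1 hx))))
  haveI := Fintype.ofFinite (MulAction.orbitRel.Quotient (P : Subgroup H) {Q : Sylow r H // Q ≠ P})
  have hcard : Nat.card {Q : Sylow r H // Q ≠ P} = Nat.card (Sylow r H) - 1 := by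
    haveI := Fintype.ofFinite (Sylow r H)
    rw [Nat.card_eq_fintype_card, Nat.card_eq_fintype_card, Fintype.card_subtype_compl, Fintype.card_subtype_eq]
  rw [← hcard, Nat.card_congr (MulAction.selfEquivSigmaOrbits (P : Subgroup H) {Q : Sylow r H // Q ≠ P}), Nat.card_sigma]
  refine Finset.dvd_sum fun ω _ => ?_
  rw [Nat.card_congr (MulAction.orbitEquivQuotientStabilizer (P : Subgroup H) ω.out), hstab, ← Subgroup.index_eq_card]
  exact dvd_rfl

end Cfsg.Agent.SmallOrder.Spec5
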