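import Mathlib.GroupTheory.Nilpotent
import Cfsg.Agent.SmallOrder.Spec5.Basic

/-!
# Maximal intersections of Sylow 2-subgroups when all element orders are at most five
-/

set_option autoImplicit false
set_option linter.unusedSectionVars false

namespace Cfsg.Agent.SmallOrder.Spec5

open Subgroup

variable {G : Type*} [Group G] [Finite G]

/-- Normalisers grow inside a `p`-group. -/
theorem exists_mem_normalizer_notMem {p : ℕ} [Fact p.Prime] {P D : Subgroup G} (hP : IsPGroup p P) (hDP : D ≤ P)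
    (hne : D ≠ P) : ∃ x ∈ P, x ∈ normalizer (D : Set G) ∧ x ∉ D := by
  haveI := hP.isNilpotent
  have hlt : D.subgroupOf P < ⊤ := lt_top_iff_ne_top.2 fun e => hne (le_antisymm hDP (subgroupOf_eq_top.1 e))
  obtain ⟨x, hx, hxn⟩ := SetLike.exists_of_lt (Group.normalizerCondition_of_isNilpotent (G := P) _ hlt)
  refine ⟨x, x.2, ?_, fun e => hxn (mem_subgroupOf.2 e)⟩
  rw [mem_normalizer_iff] at hx ⊢
  intro z
  constructor
  · intro hz
    exact mem_subgroupOf.1 ((hx ⟨z, hDP hz⟩).1 (mem_subgroupOf.2 hz))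
  · intro hz
    have hzP : z ∈ P := by
      have := mul_mem (mul_mem (inv_mem x.2) (hDP hz)) x.2
      rwa [show (x : G)⁻¹ * ((x : G) * z * (x : G)⁻¹) * x = z by group] at this
    exact mem_subgroupOf.1 ((hx ⟨z, hzP⟩).2 (mem_subgroupOf.2 hz))

/-- The normaliser of a maximal intersection of two Sylow 2-subgroups. -/
theorem exists_maximal (hTI : ¬ ∀ P Q : Sylow 2 G, P ≠ Q → (P : Subgroup G) ⊓ Q = ⊥) :
    ∃ D : Subgroup G, D ≠ ⊥ ∧ IsPGroup 2 D ∧ ∀ T : Sylow 2 (normalizer (D : Set G)),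
      D.subgroupOf (normalizer (D : Set G)) ≤ T ∧ D.subgroupOf (normalizer (D : Set G)) ≠ T ∧
      (∀ T' : Sylow 2 (normalizer (D : Set G)), T' ≠ T →
        (T : Subgroup (normalizer (D : Set G))) ⊓ T' ≤ D.subgroupOf (normalizer (D : Set G))) ∧
      ∃ T' : Sylow 2 (normalizer (D : Set G)), T' ≠ T := by
  classical
  haveI : Fact (Nat.Prime 2) := ⟨Nat.prime_two⟩
  push Not at hTI
  obtain ⟨P₀, Q₀, hne₀, hbot₀⟩ := hTI
  obtain ⟨⟨P, Q⟩, hPQ, hmax⟩ := Set.exists_max_image {z : Sylow 2 G × Sylow 2 G | z.1 ≠ z.2}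
    (fun z => Nat.card ((z.1 : Subgroup G) ⊓ z.2 : Subgroup G)) (Set.toFinite _) ⟨(P₀, Q₀), hne₀⟩
  set D := (P : Subgroup G) ⊓ Q with hD
  have hPQ' : P ≠ Q := hPQ
  have hmax' : ∀ R R' : Sylow 2 G, D ≤ (R : Subgroup G) ⊓ R' → ∀ x ∈ (R : Subgroup G) ⊓ R', x ∉ D → R = R' := by
    intro R R' hle x hx hxD
    by_contra hne
    have h1 := hmax (R, R') hne
    have h2 := Subgroup.eq_of_le_of_card_ge hle h1
    exact hxD (h2 ▸ hx)
  have hDne : D ≠ ⊥ := fun e => by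
    apply hbot₀
    have h1 := hmax (P₀, Q₀) hne₀
    simp only [← hD, e, Subgroup.card_bot] at h1
    exact Subgroup.card_eq_one.1 (le_antisymm h1 Nat.card_pos)
  refine ⟨D, hDne, P.2.to_le inf_le_left, ?_⟩
  set N := normalizer (D : Set G) with hN
  haveI hDn : (D.subgroupOf N).Normal :=
    ⟨fun x hx g => mem_subgroupOf.2 ((mem_normalizer_iff.1 g.2 (x : G)).1 (mem_subgroupOf.1 hx))⟩
  have hDle : ∀ T : Sylow 2 N, D.subgroupOf N ≤ T := fun T =>
    have hDp' : IsPGroup 2 (D.subgroupOf N) :=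
      (P.2.to_le inf_le_left : IsPGroup 2 D).comap_of_injective _ N.subtype_injective
    hDp'.le_sylow_of_normal T
  have hinter : ∀ T T' : Sylow 2 N, T' ≠ T → (T : Subgroup N) ⊓ T' ≤ D.subgroupOf N := by
    intro T T' hne x hx
    by_contra hxD
    obtain ⟨R, hR⟩ := (T.2.map N.subtype).exists_le_sylow
    obtain ⟨R', hR'⟩ := (T'.2.map N.subtype).exists_le_sylow
    have hle : D ≤ (R : Subgroup G) ⊓ R' := fun d hd =>
      ⟨hR ⟨⟨d, le_normalizer hd⟩, hDle T (mem_subgroupOf.2 hd), rfl⟩,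
        hR' ⟨⟨d, le_normalizer hd⟩, hDle T' (mem_subgroupOf.2 hd), rfl⟩⟩
    have e := hmax' R R' hle x ⟨hR ⟨x, hx.1, rfl⟩, hR' ⟨x, hx.2, rfl⟩⟩ (fun e => hxD (mem_subgroupOf.2 e))
    have hU : IsPGroup 2 ((R : Subgroup G).subgroupOf N) := R.2.comap_of_injective _ N.subtype_injective
    have hT : (T : Subgroup N) ≤ (R : Subgroup G).subgroupOf N := fun z hz => hR ⟨z, hz, rfl⟩
    have hT' : (T' : Subgroup N) ≤ (R : Subgroup G).subgroupOf N := fun z hz => e.symm ▸ hR' ⟨z, hz, rfl⟩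
    exact hne (Sylow.ext ((T'.3 hU hT').symm.trans (T.3 hU hT)))
  obtain ⟨xP, hxP, hxPN, hxPD⟩ := exists_mem_normalizer_notMem P.2 (D := D) inf_le_left (fun e => by
    have hle : (P : Subgroup G) ≤ Q := e ▸ inf_le_right
    exact hPQ' (Sylow.ext (P.3 Q.2 hle).symm))
  obtain ⟨xQ, hxQ, hxQN, hxQD⟩ := exists_mem_normalizer_notMem Q.2 (D := D) inf_le_right (fun e => by
    have hle : (Q : Subgroup G) ≤ P := e ▸ inf_le_left
    exact hPQ' (Sylow.ext (Q.3 P.2 hle)))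
  obtain ⟨TP, hTP⟩ := ((P.2.comap_of_injective _ N.subtype_injective) : IsPGroup 2 ((P : Subgroup G).subgroupOf N)).exists_le_sylow
  obtain ⟨TQ, hTQ⟩ := ((Q.2.comap_of_injective _ N.subtype_injective) : IsPGroup 2 ((Q : Subgroup G).subgroupOf N)).exists_le_sylow
  have hPQT : TP ≠ TQ := by
    intro e
    obtain ⟨R, hR⟩ := (TP.2.map N.subtype).exists_le_sylow
    have h1 : xP ∈ (R : Subgroup G) := hR ⟨⟨xP, hxPN⟩, hTP (mem_subgroupOf.2 hxP), rfl⟩
    have h2 : xQ ∈ (R : Subgroup G) := hR ⟨⟨xQ, hxQN⟩, e ▸ hTQ (mem_subgroupOf.2 hxQ), rfl⟩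
    have hDR : D ≤ (R : Subgroup G) := fun d hd => hR ⟨⟨d, le_normalizer hd⟩, hDle TP (mem_subgroupOf.2 hd), rfl⟩
    have e1 := hmax' P R (le_inf inf_le_left hDR) xP ⟨hxP, h1⟩ hxPD
    have e2 := hmax' Q R (le_inf inf_le_right hDR) xQ ⟨hxQ, h2⟩ hxQD
    exact hPQ' (e1.trans e2.symm)
  intro T
  obtain ⟨T', hT'⟩ : ∃ T' : Sylow 2 N, T' ≠ T := by
    by_contra hcon
    push Not at hcon
    exact hPQT ((hcon TP).trans (hcon TQ).symm)
  refine ⟨hDle T, fun e => ?_, fun T' hne => hinter T T' hne, T', hT'⟩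
  have hle : (T : Subgroup N) ≤ T' := e ▸ hDle T'
  exact hT' (Sylow.ext (T.3 T'.2 hle))

end Cfsg.Agent.SmallOrder.Spec5
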