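import Cfsg.Agent.SmallOrder.Spec5.Basic

/-!
# Real elements of order 3 and 5
-/

set_option autoImplicit false
set_option linter.unusedSectionVars false

namespace Cfsg.Agent.SmallOrder.Spec5

open Subgroup

variable {G : Type*} [Group G] [Finite G]

namespace Spec5

variable (h : Spec5 G)
include h

/-- An involution normalising an odd prime-power group inverts it. -/
theorem inverts {r : ℕ} [Fact r.Prime] (hr : r ≠ 2) {Q : Subgroup G} (hQ : IsPGroup r Q) {s : G}
    (hs : s * s = 1) (hs1 : s ≠ 1) (hsN : ∀ z ∈ Q, s * z * s ∈ Q) : ∀ z ∈ Q, s * z * s = z⁻¹ := by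
  let φ : Q → Q := fun y => ⟨(y : G)⁻¹ * (s * y * s), Q.mul_mem (Q.inv_mem y.2) (hsN y y.2)⟩
  have hso : orderOf s = 2 := orderOf_eq_prime (by rw [pow_two, hs]) hs1
  have hφ : Function.Injective φ := by
    intro a c e
    have e' : (a : G)⁻¹ * (s * a * s) = (c : G)⁻¹ * (s * c * s) := congrArg Subtype.val e
    by_contra hne
    set v := (c : G) * (a : G)⁻¹ with hv
    have hfix : s * v * s = v := by
      calc s * v * s = s * c * s * (s * a * s)⁻¹ := by
            rw [hv, mul_inv_rev, mul_inv_rev, inv_eq_of_mul_eq_one_right hs,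
              show s * (c : G) * s * (s * ((a : G)⁻¹ * s)) = s * c * (s * s) * (a : G)⁻¹ * s by group, hs]
            group
        _ = (c : G) * ((c : G)⁻¹ * (s * c * s)) * ((a : G) * ((a : G)⁻¹ * (s * a * s)))⁻¹ := by group
        _ = v := by rw [e', hv]; group
    have hvs : v * s = s * v := by
      calc v * s = (s * v * s) * s := by rw [hfix]
        _ = s * v := by rw [mul_assoc, hs, mul_one]
    obtain ⟨k, hk⟩ := mem_pgroup_order hQ (Q.mul_mem c.2 (Q.inv_mem a.2))
    refine h.comm_false hvs (fun e1 => hne (Subtype.ext (mul_inv_eq_one.1 e1).symm)) hs1 ?_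
    rw [hso, hk]
    exact ((Nat.coprime_primes Fact.out Nat.prime_two).2 hr).pow_left k
  intro z hz
  obtain ⟨y, hy⟩ := Finite.injective_iff_surjective.1 hφ ⟨z, hz⟩
  have hy' : (y : G)⁻¹ * (s * y * s) = z := congrArg Subtype.val hy
  rw [← hy']
  have hsi : s⁻¹ = s := inv_eq_of_mul_eq_one_right hs
  rw [mul_inv_rev, mul_inv_rev, mul_inv_rev, inv_inv, hsi]
  simp [mul_assoc, hs]

/-- The centraliser of a real element of order `r` is an abelian, self-centralising TI Sylow subgroup. -/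
theorem real_cent {r : ℕ} [Fact r.Prime] (hr : r ≠ 2) {x s : G} (hx : orderOf x = r)
    (hs : s * s = 1) (hsx : s * x * s = x⁻¹) :
    ∃ P : Sylow r G, (P : Subgroup G) = centralizer ({x} : Set G) ∧ s ∈ normalizer ((P : Subgroup G) : Set G) ∧
      s ∉ (P : Subgroup G) ∧
      ∀ z ∈ (P : Subgroup G), z ≠ 1 → centralizer ({z} : Set G) = (P : Subgroup G) ∧ s * z * s = z⁻¹ := by
  have hr' : r.Prime := Fact.out
  have hx1 : x ≠ 1 := fun e => hr'.ne_one (by rw [← hx, e, orderOf_one])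
  have hs1 : s ≠ 1 := by
    intro e
    rw [e, one_mul, mul_one, eq_inv_iff_mul_eq_one, ← pow_two, ← orderOf_dvd_iff_pow_eq_one, hx] at hsx
    exact hr ((Nat.prime_dvd_prime_iff_eq hr' Nat.prime_two).1 hsx)
  have hsi : s⁻¹ = s := inv_eq_of_mul_eq_one_right hs
  set Q := centralizer ({x} : Set G) with hQdef
  have hQ : IsPGroup r Q := h.cent_isPGroup ⟨1, by rw [hx, pow_one]⟩ hx1
  have hQinv : ∀ z ∈ Q, s * z * s ∈ Q := fun z hz => by
    rw [hQdef, mem_centralizer_singleton_iff] at hz ⊢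
    have e : x = (s * x * s)⁻¹ := by rw [hsx, inv_inv]
    conv_lhs => rw [e, mul_inv_rev, mul_inv_rev, hsi]
    conv_rhs => rw [e, mul_inv_rev, mul_inv_rev, hsi]
    calc s * z * s * (s * (x⁻¹ * s)) = s * (z * (s * s) * x⁻¹) * s := by group
      _ = s * (x⁻¹ * (s * s) * z) * s := by
          rw [hs, mul_one, mul_one, (show Commute z x from hz).inv_right.eq]
      _ = s * (x⁻¹ * s) * (s * z * s) := by group
  have hinv := h.inverts hr hQ hs hs1 hQinv
  have hcomm : ∀ a ∈ Q, ∀ c ∈ Q, a * c = c * a := fun a ha c hc => by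
    have h1 := hinv _ (Q.mul_mem ha hc)
    rw [show s * (a * c) * s = (s * a * s) * (s * c * s) by
      rw [show s * a * s * (s * c * s) = s * a * (s * s) * c * s by group, hs, mul_one]; group,
      hinv a ha, hinv c hc, ← mul_inv_rev] at h1
    exact (inv_inj.1 h1).symm
  have hC : ∀ z ∈ Q, z ≠ 1 → centralizer ({z} : Set G) = Q := by
    intro z hz hz1
    refine le_antisymm ?_ (fun a ha => mem_centralizer_singleton_iff.2 (hcomm a ha z hz))
    have hpz := h.cent_isPGroup (r := r) (mem_pgroup_order hQ hz) hz1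
    have hzinv : ∀ a ∈ centralizer ({z} : Set G), s * a * s ∈ centralizer ({z} : Set G) := fun a ha => by
      rw [mem_centralizer_singleton_iff] at ha ⊢
      have e : z = (s * z * s)⁻¹ := by rw [hinv z hz, inv_inv]
      conv_lhs => rw [e, mul_inv_rev, mul_inv_rev, hsi]
      conv_rhs => rw [e, mul_inv_rev, mul_inv_rev, hsi]
      calc s * a * s * (s * (z⁻¹ * s)) = s * (a * (s * s) * z⁻¹) * s := by group
        _ = s * (z⁻¹ * (s * s) * a) * s := by
            rw [hs, mul_one, mul_one, (show Commute a z from ha).inv_right.eq]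
        _ = s * (z⁻¹ * s) * (s * a * s) := by group
    have hzi := h.inverts hr hpz hs hs1 hzinv
    intro a ha
    rw [hQdef, mem_centralizer_singleton_iff]
    have hxz : x ∈ centralizer ({z} : Set G) := mem_centralizer_singleton_iff.2
      ((mem_centralizer_singleton_iff.1 hz).symm)
    have h1 := hzi _ (mul_mem ha hxz)
    rw [show s * (a * x) * s = (s * a * s) * (s * x * s) by
      rw [show s * a * s * (s * x * s) = s * a * (s * s) * x * s by group, hs, mul_one]; group,
      hzi a ha, hsx, ← mul_inv_rev] at h1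
    exact (inv_inj.1 h1).symm
  obtain ⟨P, hP⟩ := hQ.exists_le_sylow
  have hPQ : (P : Subgroup G) ≤ Q := by
    have hPne : (P : Subgroup G) ≠ ⊥ := fun e => hx1 (by
      have h1 : x ∈ (P : Subgroup G) := hP (mem_centralizer_singleton_iff.2 rfl)
      rw [e, Subgroup.mem_bot] at h1
      exact h1)
    haveI : Nontrivial (P : Subgroup G) := (nontrivial_iff_ne_bot _).2 hPne
    haveI := P.2.center_nontrivial
    obtain ⟨zc, hzc⟩ := exists_ne (1 : Subgroup.center (P : Subgroup G))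
    have hz1 : ((zc : (P : Subgroup G)) : G) ≠ 1 := fun e => hzc (Subtype.ext (Subtype.ext e))
    have hcp : ∀ a ∈ (P : Subgroup G), a * ((zc : (P : Subgroup G)) : G) = ((zc : (P : Subgroup G)) : G) * a :=
      fun a ha => congrArg Subtype.val (Subgroup.mem_center_iff.1 zc.2 ⟨a, ha⟩)
    have hzQ : ((zc : (P : Subgroup G)) : G) ∈ Q :=
      mem_centralizer_singleton_iff.2 (hcp x (hP (mem_centralizer_singleton_iff.2 rfl))).symm
    rw [← hC _ hzQ hz1]
    exact fun a ha => mem_centralizer_singleton_iff.2 (hcp a ha)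
  have hPe : (P : Subgroup G) = Q := le_antisymm hPQ hP
  refine ⟨P, hPe, ?_, ?_, fun z hz hz1 => ?_⟩
  · rw [hPe, mem_normalizer_iff]
    intro z
    rw [hsi]
    refine ⟨hQinv z, fun hz => ?_⟩
    have := hQinv _ hz
    rwa [show s * (s * z * s) * s = (s * s) * z * (s * s) by group, hs, one_mul, mul_one] at this
  · rw [hPe]
    intro hsQ
    obtain ⟨k, hk⟩ := mem_pgroup_order hQ hsQ
    have h2 : r ∣ 2 := by
      rw [orderOf_eq_prime (by rw [pow_two, hs]) hs1] at hk
      rcases Nat.eq_zero_or_pos k with rfl | hk0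
      · simp at hk
      · exact hk ▸ dvd_pow_self r hk0.ne'
    exact hr ((Nat.prime_dvd_prime_iff_eq hr' Nat.prime_two).1 h2)
  · rw [hPe] at hz
    exact ⟨(hC z hz hz1).trans hPe.symm, hinv z hz⟩

/-- The numerical consequences for a real element. -/
theorem real_count {r : ℕ} [Fact r.Prime] (hr : r ≠ 2) {x s : G} (hx : orderOf x = r)
    (hs : s * s = 1) (hsx : s * x * s = x⁻¹) :
    ∃ i j N : ℕ, 1 ≤ i ∧ 1 ≤ j ∧ i = (Nat.card G).factorization r ∧ 2 ^ j ∣ r ^ i - 1 ∧
      N * (r ^ i * 2 ^ j) = Nat.card G ∧ r ^ i ∣ N - 1 := by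
  haveI : Fact (Nat.Prime 2) := ⟨Nat.prime_two⟩
  have hr' : r.Prime := Fact.out
  obtain ⟨P, hPe, hsN, hsP, hC⟩ := h.real_cent hr hx hs hsx
  set H := normalizer ((P : Subgroup G) : Set G) with hH
  set i := (Nat.card G).factorization r with hi
  have hPc : Nat.card (P : Subgroup G) = r ^ i := P.card_eq_multiplicity
  have hi1 : 1 ≤ i := by
    by_contra h0
    push Not at h0
    have : Nat.card (P : Subgroup G) = 1 := by rw [hPc, show i = 0 by omega, pow_zero]
    rw [Subgroup.card_eq_one] at this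
    have hxP : x ∈ (P : Subgroup G) := hPe ▸ mem_centralizer_singleton_iff.2 rfl
    rw [this, Subgroup.mem_bot] at hxP
    exact hr'.ne_one (by rw [← hx, hxP, orderOf_one])
  have hPH : (P : Subgroup G) ≤ H := le_normalizer
  have hPp : IsPGroup r (P : Subgroup G) := P.2
  have hs1 : s ≠ 1 := fun e => hsP (e ▸ one_mem _)
  -- `|H|` has no other odd prime
  have hother : ∀ d : ℕ, d.Prime → d ∣ Nat.card H → d = 2 ∨ d = r := by
    intro d hd hdH
    by_contra hne
    push Not at hne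
    haveI := Fact.mk hd
    obtain ⟨y, hy⟩ := exists_prime_orderOf_dvd_card' (G := H) d hdH
    have hyo : orderOf (y : G) = d := by rw [orderOf_coe, hy]
    have hy1 : (y : G) ≠ 1 := fun e => hd.ne_one (by rw [← hyo, e, orderOf_one])
    have hsy : ∀ z ∈ (P : Subgroup G), z ≠ 1 → s * y * s * (y : G)⁻¹ ∈ centralizer ({z} : Set G) := by
      intro z hz hz1
      have hz' : (y : G)⁻¹ * z * y ∈ (P : Subgroup G) := (mem_normalizer_iff''.1 y.2 z).1 hz
      rw [mem_centralizer_singleton_iff, ← mul_inv_eq_iff_eq_mul]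
      have h1 := (hC z hz hz1).2
      have h2 : s * ((y : G)⁻¹ * z * y) * s = ((y : G)⁻¹ * z * y)⁻¹ :=
        (hC _ hz' (fun e => hz1 (by
          rw [show z = (y : G) * ((y : G)⁻¹ * z * y) * (y : G)⁻¹ by group, e, mul_one, mul_inv_cancel]))).2
      calc s * y * s * (y : G)⁻¹ * z * (s * y * s * (y : G)⁻¹)⁻¹
          = s * y * (s * ((y : G)⁻¹ * z * y) * s⁻¹) * (y : G)⁻¹ * s⁻¹ := by group
        _ = s * y * ((y : G)⁻¹ * z * y)⁻¹ * (y : G)⁻¹ * s⁻¹ := by rw [inv_eq_of_mul_eq_one_right hs, h2]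
        _ = (s * z * s⁻¹)⁻¹ := by group
        _ = z := by rw [inv_eq_of_mul_eq_one_right hs, h1, inv_inv]
    have hxP : x ∈ (P : Subgroup G) := hPe ▸ mem_centralizer_singleton_iff.2 rfl
    have hc := hsy x hxP (fun e => hr'.ne_one (by rw [← hx, e, orderOf_one]))
    rw [← hPe] at hc
    -- move `s` inside `sP` to commute with `y`
    have hmem : ∀ v : (P : Subgroup G), (y : G)⁻¹ * ((v : G) * y * (v : G)⁻¹) ∈ (P : Subgroup G) := fun v => by
      have := (mem_normalizer_iff''.1 y.2 v).1 v.2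
      rw [show (y : G)⁻¹ * ((v : G) * y * (v : G)⁻¹) = ((y : G)⁻¹ * v * y) * (v : G)⁻¹ by group]
      exact mul_mem this (inv_mem v.2)
    have hpy : ∀ v ∈ (P : Subgroup G), v * y = y * v → v = 1 := fun v hv e => by
      by_contra hv1
      obtain ⟨k, hk⟩ := mem_pgroup_order hPp hv
      exact h.comm_false e hv1 hy1 (by rw [hk, hyo]; exact ((Nat.coprime_primes hr' hd).2 (Ne.symm hne.2)).pow_left k)
    let φ : ↥(P : Subgroup G) → ↥(P : Subgroup G) := fun v => ⟨_, hmem v⟩
    have hφ : Function.Injective φ := by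
      intro a c e
      have e' : (a : G) * y * (a : G)⁻¹ = (c : G) * y * (c : G)⁻¹ := mul_left_cancel (congrArg Subtype.val e)
      have := hpy ((c : G)⁻¹ * a) (mul_mem (inv_mem c.2) a.2) (by
        calc (c : G)⁻¹ * a * y = (c : G)⁻¹ * ((a : G) * y * (a : G)⁻¹) * a := by group
          _ = (c : G)⁻¹ * ((c : G) * y * (c : G)⁻¹) * a := by rw [e']
          _ = y * ((c : G)⁻¹ * a) := by group)
      exact Subtype.ext (inv_mul_eq_one.1 this).symm
    obtain ⟨v, hv⟩ := Finite.injective_iff_surjective.1 hφ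
      ⟨(y : G)⁻¹ * (s * y * s), by
        have h1 := (mem_normalizer_iff''.1 y.2 _).1 hc
        rwa [show (y : G)⁻¹ * (s * y * s * (y : G)⁻¹) * y = (y : G)⁻¹ * (s * y * s) by group] at h1⟩
    have hv' : (v : G) * y * (v : G)⁻¹ = s * y * s := mul_left_cancel (congrArg Subtype.val hv)
    set t := (v : G)⁻¹ * s with ht
    have hty : t * y = y * t := by
      calc t * y = (v : G)⁻¹ * (s * y * s) * (s⁻¹ * s) * s⁻¹ * (s * s) := by rw [ht, hs]; group
        _ = (v : G)⁻¹ * ((v : G) * y * (v : G)⁻¹) * s := by rw [hv', inv_eq_of_mul_eq_one_right hs, hs]; group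
        _ = y * t := by rw [ht]; group
    have hts : s * (v : G)⁻¹ * s = v := by
      by_cases hv1 : (v : G) = 1
      · rw [hv1, inv_one, mul_one, hs]
      · have := (hC _ (inv_mem v.2) (inv_ne_one.2 hv1)).2
        rwa [inv_inv] at this
    have ht2 : t * t = 1 := by
      rw [ht, show (v : G)⁻¹ * s * ((v : G)⁻¹ * s) = (v : G)⁻¹ * (s * (v : G)⁻¹ * s) by group, hts, inv_mul_cancel]
    have ht1 : t ≠ 1 := fun e => hsP (by
      rw [ht, inv_mul_eq_one] at e
      exact e ▸ v.2)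
    exact h.comm_false hty ht1 hy1 (by
      rw [orderOf_eq_prime (by rw [pow_two, ht2]) ht1, hyo]
      exact (Nat.coprime_primes Nat.prime_two hd).2 (Ne.symm hne.1))
  obtain ⟨S⟩ := (inferInstance : Nonempty (Sylow 2 H))
  set j := (Nat.card H).factorization 2 with hj
  have hSc : Nat.card (S : Subgroup H) = 2 ^ j := S.card_eq_multiplicity
  set S' := (S : Subgroup H).map H.subtype with hS'
  have hS'c : Nat.card S' = 2 ^ j := by rw [hS', Subgroup.card_map_of_injective H.subtype_injective, hSc]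
  have hfree := Cfsg.Agent.FGS2.Order7920.free_dvd S' (P : Subgroup G) (map_subtype_le _) (fun a ha ha1 z hz hz1 haz => by
    obtain ⟨k, hk⟩ := mem_pgroup_order ((S.2.map H.subtype)) ha
    obtain ⟨l, hl⟩ := mem_pgroup_order hPp hz
    exact h.comm_false haz.eq ha1 hz1 (by
      rw [hk, hl]; exact (Nat.coprime_primes Nat.prime_two hr').2 (Ne.symm hr) |>.pow _ _))
  rw [hS'c, hPc] at hfree
  have hj1 : 1 ≤ j := Nat.prime_two.factorization_pos_of_dvd Nat.card_pos.ne' (by
    have := orderOf_dvd_natCard (⟨s, hsN⟩ : H)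
    rwa [orderOf_mk, orderOf_eq_prime (by rw [pow_two, hs]) hs1] at this)
  have hir : (Nat.card H).factorization r = i := by
    refine le_antisymm ?_ ((hr'.pow_dvd_iff_le_factorization Nat.card_pos.ne').1
      (hPc ▸ Subgroup.card_dvd_of_le hPH))
    exact (hr'.pow_dvd_iff_le_factorization Nat.card_pos.ne').1
      ((Nat.ordProj_dvd _ _).trans (Subgroup.card_subgroup_dvd_card H))
  have hHc : Nat.card H = r ^ i * 2 ^ j := by
    refine Nat.eq_of_factorization_eq Nat.card_pos.ne' (mul_ne_zero (pow_ne_zero _ hr'.ne_zero) (by positivity)) fun d => ?_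
    rw [Nat.factorization_mul (pow_ne_zero _ hr'.ne_zero) (by positivity), hr'.factorization_pow,
      Nat.prime_two.factorization_pow, Finsupp.add_apply]
    by_cases hdr : d = r
    · subst hdr; simp [hir, Ne.symm hr]
    by_cases hd2 : d = 2
    · subst hd2; simp [hr, ← hj]
    simp only [Finsupp.single_apply, if_neg (Ne.symm hdr), if_neg (Ne.symm hd2), add_zero]
    by_cases hd : d.Prime
    · exact Nat.factorization_eq_zero_of_not_dvd fun hdd => (hother d hd hdd).elim hd2 hdr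
    · exact Nat.factorization_eq_zero_of_not_prime _ hd
  refine ⟨i, j, Nat.card (Sylow r G), hi1, hj1, rfl, hfree, ?_, ?_⟩
  · rw [Sylow.card_eq_index_normalizer P, ← hHc]
    exact Subgroup.index_mul_card H
  · have := sylow_mod (⊥ : Subgroup G) P (fun _ => bot_le) (fun Q hQ z hz => by
      rw [Subgroup.mem_bot]
      by_contra hz1
      have h1 : (Q : Subgroup G) ≤ centralizer ({z} : Set G) → False := fun hle => by
        rw [(hC z hz.1 hz1).1] at hle
        exact hQ (Sylow.ext (Q.3 P.2 hle).symm)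
      by_cases hQc : ∀ c ∈ (Q : Subgroup G), c * z = z * c
      · exact h1 (fun c hc => mem_centralizer_singleton_iff.2 (hQc c hc))
      · -- `Q` is abelian as a conjugate of `P`
        obtain ⟨g, hg⟩ := MulAction.exists_smul_eq G P Q
        apply hQc
        intro c hc
        have hc' := hc
        have hz' := hz.2
        rw [← hg, Sylow.coe_subgroup_smul] at hc' hz'
        obtain ⟨c0, hc0, rfl⟩ := hc'
        obtain ⟨z0, hz0, hz0e⟩ := hz'
        replace hz0e : g * z0 * g⁻¹ = z := hz0e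
        rw [← hz0e]
        have hz01 : z0 ≠ 1 := fun e => hz1 (by rw [← hz0e, e, mul_one, mul_inv_cancel])
        have hcm : c0 * z0 = z0 * c0 := by
          have := (hC z0 hz0 hz01).1
          rw [← this] at hc0
          exact mem_centralizer_singleton_iff.1 hc0
        show (g * c0 * g⁻¹) * (g * z0 * g⁻¹) = (g * z0 * g⁻¹) * (g * c0 * g⁻¹)
        exact (conj_comm_iff g _ _).2 hcm)
    rwa [Subgroup.relIndex_bot_left, hPc] at this

end Spec5

/-- The only solution of the two congruences. -/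
theorem enumeration {i l j k : ℕ} (hi : 1 ≤ i) (hl : 1 ≤ l) (hj : 1 ≤ j) (hk : 1 ≤ k) (hj6 : j ≤ 6) (hk6 : k ≤ 6)
    (h3 : 2 ^ j ∣ 3 ^ i - 1) (h5 : 2 ^ k ∣ 5 ^ l - 1)
    (c3 : 3 ^ i ∣ 2 ^ (6 - j) * 5 ^ l - 1) (c5 : 5 ^ l ∣ 2 ^ (6 - k) * 3 ^ i - 1) : i = 1 ∧ l = 1 := by
  set a := 3 ^ i with ha
  set b := 5 ^ l with hb
  have ha3 : 3 ≤ a := Nat.le_self_pow (by omega) 3
  have hb5 : 5 ≤ b := Nat.le_self_pow (by omega) 5
  have e1 : 2 ^ (6 - j) ≤ 32 := Nat.pow_le_pow_right two_pos (show 6 - j ≤ 5 by omega)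
  have e2 : 2 ^ (6 - k) ≤ 32 := Nat.pow_le_pow_right two_pos (show 6 - k ≤ 5 by omega)
  have e3 : 1 ≤ 2 ^ (6 - j) := Nat.one_le_two_pow
  have e4 : 1 ≤ 2 ^ (6 - k) := Nat.one_le_two_pow
  have hcop : Nat.Coprime a b := Nat.Coprime.pow i l (by norm_num)
  set N := 2 ^ (6 - j) * b + 2 ^ (6 - k) * a - 1 with hN
  have hb1 : 1 ≤ 2 ^ (6 - j) * b := Nat.one_le_iff_ne_zero.2 (by positivity)
  have ha1 : 1 ≤ 2 ^ (6 - k) * a := Nat.one_le_iff_ne_zero.2 (by positivity)
  have hNa : a ∣ N := by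
    rw [hN, show 2 ^ (6 - j) * b + 2 ^ (6 - k) * a - 1 = (2 ^ (6 - j) * b - 1) + 2 ^ (6 - k) * a by omega]
    exact dvd_add c3 (dvd_mul_left _ _)
  have hNb : b ∣ N := by
    rw [hN, show 2 ^ (6 - j) * b + 2 ^ (6 - k) * a - 1 = 2 ^ (6 - j) * b + (2 ^ (6 - k) * a - 1) by omega]
    exact dvd_add (dvd_mul_left _ _) c5
  have hle : a * b ≤ N := Nat.le_of_dvd (by omega) (Nat.Coprime.mul_dvd_of_dvd_of_dvd hcop hNa hNb)
  have hbound : a * b ≤ 32 * (a + b) := by
    have := Nat.mul_le_mul e1 (le_refl b)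
    have := Nat.mul_le_mul e2 (le_refl a)
    omega
  -- small exponent on one side
  have hsmall : i ≤ 3 ∨ l ≤ 2 := by
    by_contra hcon
    push Not at hcon
    have h81 : 81 ≤ a := (show 81 = 3 ^ 4 by norm_num) ▸ Nat.pow_le_pow_right (by norm_num) hcon.1
    have h125 : 125 ≤ b := (show 125 = 5 ^ 3 by norm_num) ▸ Nat.pow_le_pow_right (by norm_num) hcon.2
    nlinarith
  have hi6 : i ≤ 7 ∧ l ≤ 5 := by
    rcases hsmall with hs | hs
    · refine ⟨by omega, ?_⟩
      by_contra hl5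
      have : 5 ^ 6 ≤ b := Nat.pow_le_pow_right (by norm_num) (by omega)
      have : a ≤ 27 := (show 27 = 3 ^ 3 by norm_num) ▸ Nat.pow_le_pow_right (by norm_num) hs
      have h1 := Nat.le_of_dvd (by have := Nat.mul_le_mul e4 ha3; omega) c5
      have := Nat.mul_le_mul e2 this
      omega
    · refine ⟨?_, by omega⟩
      by_contra hi7
      have : 3 ^ 8 ≤ a := Nat.pow_le_pow_right (by norm_num) (by omega)
      have : b ≤ 25 := (show 25 = 5 ^ 2 by norm_num) ▸ Nat.pow_le_pow_right (by norm_num) hs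
      have h1 := Nat.le_of_dvd (by have := Nat.mul_le_mul e3 hb5; omega) c3
      have := Nat.mul_le_mul e1 this
      omega
  have key : ∀ i : Fin 8, ∀ l : Fin 6, ∀ j : Fin 7, ∀ k : Fin 7,
      (1 ≤ i.val ∧ 1 ≤ l.val ∧ 1 ≤ j.val ∧ 1 ≤ k.val ∧
        (3 ^ i.val - 1) % 2 ^ j.val = 0 ∧ (5 ^ l.val - 1) % 2 ^ k.val = 0 ∧
        (2 ^ (6 - j.val) * 5 ^ l.val - 1) % 3 ^ i.val = 0 ∧ (2 ^ (6 - k.val) * 3 ^ i.val - 1) % 5 ^ l.val = 0) →
        i.val = 1 ∧ l.val = 1 := by
    decide +kernel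
  exact key ⟨i, by omega⟩ ⟨l, by omega⟩ ⟨j, by omega⟩ ⟨k, by omega⟩ ⟨hi, hl, hj, hk, Nat.mod_eq_zero_of_dvd h3,
    Nat.mod_eq_zero_of_dvd h5, Nat.mod_eq_zero_of_dvd c3, Nat.mod_eq_zero_of_dvd c5⟩

end Cfsg.Agent.SmallOrder.Spec5
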