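import Mathlib.GroupTheory.Subgroup.Simple
import Cfsg.Agent.SmallOrder.PSL2Spec.Basic
import Cfsg.Agent.SmallOrder.PSL2Spec.Transfer
import Cfsg.Agent.SmallOrder.Spec5.Real

/-!
# A simple group with element orders at most five and TI Sylow 2-subgroups has order 60
-/

set_option autoImplicit false
set_option linter.unusedSectionVars false
set_option maxHeartbeats 1000000

namespace Cfsg.Agent.SmallOrder.Spec5

open Subgroup

variable {G : Type*} [Group G] [Finite G]

theorem isConj_of_odd_orderOf_mul {t u : G} (ht : t * t = 1) (hu : u * u = 1) (hodd : Odd (orderOf (t * u))) :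
    IsConj t u := by
  obtain ⟨k, hk⟩ := hodd
  have hti : t⁻¹ = t := inv_eq_of_mul_eq_one_right ht
  have hui : u⁻¹ = u := inv_eq_of_mul_eq_one_right hu
  have hzi : t * (t * u) * t = (t * u)⁻¹ := by
    rw [mul_inv_rev, hti, hui, ← mul_assoc t t, ht, one_mul]
  have hzk : t * (t * u) ^ k * t = ((t * u) ^ k)⁻¹ := by
    have := conj_pow (a := t) (b := t * u) (i := k)
    rw [hti, hzi, inv_pow] at this
    exact this.symm
  set w := (t * u) ^ k with hw
  have hwt : w⁻¹ * t = t * w := by rw [← hzk, mul_assoc (t * w) t t, ht, mul_one]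
  have hw2 : w * w * (t * u) = 1 := by
    rw [hw, ← pow_add, ← pow_succ, show k + k + 1 = orderOf (t * u) by rw [hk]; ring, pow_orderOf_eq_one]
  have hconj : w⁻¹ * t * w = t * u * t := by
    rw [hwt, mul_assoc t w w, eq_inv_of_mul_eq_one_left hw2, mul_inv_rev, hui, hti, ← mul_assoc]
  exact (isConj_iff.2 ⟨w⁻¹, by rw [inv_inv]⟩ : IsConj t (w⁻¹ * t * w)).trans
    (isConj_iff.2 ⟨t⁻¹, by rw [hconj, hti, show t * (t * u * t) * t⁻¹ = (t * t) * u * (t * t⁻¹) by group, ht]; group⟩)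

namespace Spec5

variable (h : Spec5 G)
include h

theorem two_ne_top [IsSimpleGroup G] (hG : ¬ IsMulCommutative G) {r : ℕ} [Fact r.Prime] (S : Subgroup G)
    (hS : IsPGroup r S) (hSn : S.Normal) : S = ⊥ := by
  rcases hSn.eq_bot_or_eq_top with e | e
  · exact e
  exfalso
  haveI : Nontrivial G := IsSimpleGroup.toNontrivial
  have hp : IsPGroup r G := fun g => by
    obtain ⟨k, hk⟩ := hS ⟨g, e ▸ mem_top g⟩
    exact ⟨k, congrArg Subtype.val hk⟩
  haveI := hp.center_nontrivial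
  rcases (inferInstance : (Subgroup.center G).Normal).eq_bot_or_eq_top with e' | e'
  · exact (Subgroup.nontrivial_iff_ne_bot _).1 inferInstance e'
  · exact hG ⟨⟨fun a b => (Subgroup.mem_center_iff.1 (e' ▸ mem_top b) a)⟩⟩

/-- The TI case. -/
theorem ti_case [IsSimpleGroup G] (hG : ¬ IsMulCommutative G) (h2 : 2 ∣ Nat.card G)
    (hTI : ∀ P Q : Sylow 2 G, P ≠ Q → (P : Subgroup G) ⊓ Q = ⊥) : Nat.card G = 60 := by
  classical
  haveI : Fact (Nat.Prime 2) := ⟨Nat.prime_two⟩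
  haveI : Fact (Nat.Prime 3) := ⟨Nat.prime_three⟩
  haveI : Nontrivial G := IsSimpleGroup.toNontrivial
  obtain ⟨S⟩ := (inferInstance : Nonempty (Sylow 2 G))
  have hSp : IsPGroup 2 (S : Subgroup G) := S.2
  have hSne : (S : Subgroup G) ≠ ⊥ := S.ne_bot_of_dvd_card h2
  set H := normalizer ((S : Subgroup G) : Set G) with hHdef
  have hSH : (S : Subgroup G) ≤ H := le_normalizer
  have hHtop : H ≠ ⊤ := fun e =>
    hSne (h.two_ne_top hG _ hSp (Subgroup.normalizer_eq_top_iff.1 e))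
  have hmem2 : ∀ x : G, x * x = 1 → ∀ P : Sylow 2 G, x ∈ normalizer ((P : Subgroup G) : Set G) →
      x ∈ (P : Subgroup G) := by
    intro x hx P hxN
    have hxp : IsPGroup 2 (zpowers x) := by
      refine IsPGroup.of_card (n := if x = 1 then 0 else 1) ?_
      rw [Nat.card_zpowers]
      split_ifs with h1
      · rw [h1, orderOf_one, pow_zero]
      · rw [orderOf_eq_prime (by rw [pow_two, hx]) h1, pow_one]
    have : x ∈ zpowers x ⊓ normalizer ((P : Subgroup G) : Set G) := ⟨mem_zpowers x, hxN⟩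
    exact ((hxp.inf_normalizer_sylow P).le this).2
  have hCS : ∀ t ∈ (S : Subgroup G), t ≠ 1 → centralizer ({t} : Set G) ≤ S := by
    intro t ht ht1
    obtain ⟨P, hP⟩ := (h.cent_isPGroup (r := 2) (mem_pgroup_order hSp ht) ht1).exists_le_sylow
    have htP : t ∈ (P : Subgroup G) := hP (mem_centralizer_singleton_iff.2 rfl)
    have hPS : P = S := by
      by_contra hne
      have : t ∈ (P : Subgroup G) ⊓ S := ⟨htP, ht⟩
      rw [hTI P S hne, Subgroup.mem_bot] at this
      exact ht1 this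
    exact hPS ▸ hP
  obtain ⟨z, hzS, hz1, hz2, hzc⟩ := exists_nontrivial_center hSp hSne
  -- one class of involutions
  have hconjz : ∀ u : G, u * u = 1 → u ≠ 1 → u ∉ (S : Subgroup G) → ∀ t ∈ (S : Subgroup G), t * t = 1 → t ≠ 1 →
      IsConj t u := by
    intro u hu hu1 huS t ht ht2 ht1
    by_cases hodd : Odd (orderOf (t * u))
    · exact isConj_of_odd_orderOf_mul ht2 hu hodd
    exfalso
    obtain ⟨i, hi⟩ : 2 ∣ orderOf (t * u) := Nat.even_iff.1 (Nat.not_odd_iff_even.1 hodd) |> Nat.dvd_of_mod_eq_zero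
    have hi0 : i ≠ 0 := fun e => by rw [e, mul_zero] at hi; exact (orderOf_pos (t * u)).ne' hi
    set w := (t * u) ^ i with hw
    have hw2 : orderOf w = 2 := by
      rw [hw, orderOf_pow' _ hi0, hi, Nat.gcd_eq_right (dvd_mul_left i 2), Nat.mul_div_cancel _ (by omega)]
    have hww : w * w = 1 := by rw [← pow_two, ← hw2, pow_orderOf_eq_one]
    have hinv : ∀ v : G, v * v = 1 → v * (t * u) * v = (t * u)⁻¹ → v * w = w * v := by
      intro v hv hvz
      have hvi : v⁻¹ = v := inv_eq_of_mul_eq_one_right hv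
      have := conj_pow (a := v) (b := t * u) (i := i)
      rw [hvi, hvz, inv_pow, ← hw, inv_eq_of_mul_eq_one_right hww] at this
      calc v * w = v * w * v * v := by rw [mul_assoc (v * w) v v, hv, mul_one]
        _ = w * v := by rw [← this]
    have hwt := hinv t ht2 (by
      rw [mul_inv_rev, inv_eq_of_mul_eq_one_right ht2, inv_eq_of_mul_eq_one_right hu, ← mul_assoc t t, ht2, one_mul])
    have hwu := hinv u hu (by
      rw [mul_inv_rev, inv_eq_of_mul_eq_one_right ht2, inv_eq_of_mul_eq_one_right hu, mul_assoc, mul_assoc, hu, mul_one])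
    have hwS : w ∈ (S : Subgroup G) := hCS t ht ht1 (mem_centralizer_singleton_iff.2 hwt.symm)
    exact huS (hCS w hwS (fun e => by rw [e, orderOf_one] at hw2; omega) (mem_centralizer_singleton_iff.2 hwu))
  obtain ⟨u₁, hu₁, hu₁1, hu₁S⟩ : ∃ u : G, u * u = 1 ∧ u ≠ 1 ∧ u ∉ (S : Subgroup G) := by
    by_contra hcon
    push Not at hcon
    have hle : normalClosure ({z} : Set G) ≤ S := by
      rw [normalClosure, closure_le]
      intro x hx
      obtain ⟨y, hy, hxy⟩ := Group.mem_conjugatesOfSet_iff.1 hx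
      obtain ⟨g, rfl⟩ := isConj_iff.1 hxy
      rw [Set.mem_singleton_iff.1 hy]
      refine hcon _ ?_ ?_
      · rw [show g * z * g⁻¹ * (g * z * g⁻¹) = g * (z * z) * g⁻¹ by group, hz2, mul_one, mul_inv_cancel]
      · intro e; rw [mul_inv_eq_one, mul_eq_left] at e; exact hz1 e
    have hne : normalClosure ({z} : Set G) ≠ ⊥ := fun e => hz1 (by
      have := Subgroup.subset_normalClosure (Set.mem_singleton z)
      rw [e] at this
      exact Subgroup.mem_bot.1 this)
    exact hne (h.two_ne_top hG _ (hSp.to_le hle) Subgroup.normalClosure_normal)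
  have hclass : ∀ t : G, t * t = 1 → t ≠ 1 → IsConj z t := fun t ht ht1 => by
    by_cases htS : t ∈ (S : Subgroup G)
    · exact (hconjz u₁ hu₁ hu₁1 hu₁S z hzS hz2 hz1).trans (hconjz u₁ hu₁ hu₁1 hu₁S t htS ht ht1).symm
    · exact hconjz t ht ht1 htS z hzS hz2 hz1
  have hfus : ∀ t ∈ (S : Subgroup G), t * t = 1 → t ≠ 1 → ∃ g ∈ H, g * z * g⁻¹ = t := by
    intro t ht ht2 ht1
    obtain ⟨g, hg⟩ := isConj_iff.1 (hclass t ht2 ht1)
    refine ⟨g, ?_, hg⟩
    by_contra hgH
    have hne : g • S ≠ S := fun e => hgH (Sylow.smul_eq_iff_mem_normalizer.1 e)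
    have h1 : t ∈ ((g • S : Sylow 2 G) : Subgroup G) := by
      rw [Sylow.coe_subgroup_smul]; exact ⟨z, hzS, hg⟩
    have : t ∈ ((g • S : Sylow 2 G) : Subgroup G) ⊓ S := ⟨h1, ht⟩
    rw [hTI _ _ hne, Subgroup.mem_bot] at this
    exact ht1 this
  have hcentral : ∀ t ∈ (S : Subgroup G), t * t = 1 → ∀ f ∈ (S : Subgroup G), f * t = t * f := by
    intro t ht ht2 f hf
    by_cases ht1 : t = 1
    · simp [ht1]
    obtain ⟨g, hg, rfl⟩ := hfus t ht ht2 ht1
    have hf' : g⁻¹ * f * g ∈ (S : Subgroup G) := (mem_normalizer_iff''.1 hg f).1 hf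
    have := (conj_comm_iff g _ _).2 (hzc _ hf')
    rwa [show g * (g⁻¹ * f * g) * g⁻¹ = f by group] at this
  -- the subgroup of involutions
  let W : Subgroup G :=
    { carrier := {x | x ∈ (S : Subgroup G) ∧ x * x = 1}
      one_mem' := ⟨one_mem _, mul_one 1⟩
      mul_mem' := by
        rintro x y ⟨hx, hx2⟩ ⟨hy, hy2⟩
        exact ⟨mul_mem hx hy, by
          rw [(show Commute y x from hcentral x hx hx2 y hy).mul_mul_mul_comm, hx2, hy2, one_mul]⟩
      inv_mem' := by
        rintro x ⟨hx, hx2⟩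
        exact ⟨inv_mem hx, by rw [← mul_inv_rev, hx2, inv_one]⟩ }
  have hW : ∀ x, x ∈ W ↔ x ∈ (S : Subgroup G) ∧ x * x = 1 := fun x => Iff.rfl
  have hCz : centralizer ({z} : Set G) = S := le_antisymm (hCS z hzS hz1)
    (fun f hf => mem_centralizer_singleton_iff.2 (hzc f hf))
  set zH : H := ⟨z, hSH hzS⟩ with hzH
  have hCH : centralizer ({zH} : Set H) = (S : Subgroup G).subgroupOf H := by
    ext x
    rw [mem_subgroupOf, ← hCz, mem_centralizer_singleton_iff, mem_centralizer_singleton_iff]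
    exact Subtype.ext_iff
  set k := ((S : Subgroup G).subgroupOf H).index with hk
  have hkW : k + 1 = Nat.card W := by
    have h1 := PSL2Spec.card_conj_class zH
    rw [hCH, ← hk, Nat.card_coe_set_eq, ← Set.ncard_image_of_injective _ H.subtype_injective] at h1
    rw [h1, show Nat.card W = (W : Set G).ncard from Nat.card_coe_set_eq _]
    have hset : (W : Set G) = insert 1 (H.subtype '' Set.range fun g : H => g * zH * g⁻¹) := by
      ext x
      constructor
      · rintro ⟨hx, hx2⟩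
        by_cases hx1 : x = 1
        · exact Or.inl hx1
        obtain ⟨g, hg, rfl⟩ := hfus x hx hx2 hx1
        exact Or.inr ⟨_, ⟨⟨g, hg⟩, rfl⟩, rfl⟩
      · rintro (rfl | ⟨_, ⟨g, rfl⟩, rfl⟩)
        · exact W.one_mem
        · refine ⟨(mem_normalizer_iff.1 g.2 z).1 hzS, ?_⟩
          show (g : G) * z * (g : G)⁻¹ * ((g : G) * z * (g : G)⁻¹) = 1
          rw [show (g : G) * z * (g : G)⁻¹ * ((g : G) * z * (g : G)⁻¹) = (g : G) * (z * z) * (g : G)⁻¹ by group, hz2,
            mul_one, mul_inv_cancel]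
    rw [hset, Set.ncard_insert_of_notMem _ (Set.toFinite _)]
    rintro ⟨_, ⟨g, rfl⟩, e⟩
    have e' : (g : G) * z * (g : G)⁻¹ = 1 := e
    rw [mul_inv_eq_one, mul_eq_left] at e'
    exact hz1 e'
  have hWp : IsPGroup 2 W := hSp.to_le fun x hx => hx.1
  obtain ⟨r, hr⟩ := IsPGroup.iff_card.1 hWp
  rcases Nat.lt_or_ge r 2 with hr1 | hr2
  · -- a unique involution
    exfalso
    have huniq : ∀ t ∈ (S : Subgroup G), t * t = 1 → t ≠ 1 → t = z := by
      intro t ht ht2 ht1
      by_contra hne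
      have h3 : 3 ≤ Nat.card W := by
        have hs : ({1, z, t} : Set G) ⊆ (W : Set G) := by
          rintro x (rfl | rfl | rfl)
          exacts [W.one_mem, ⟨hzS, hz2⟩, ⟨ht, ht2⟩]
        have h4 := Set.ncard_le_ncard hs (Set.toFinite _)
        rw [Set.ncard_insert_of_notMem (by simp [Ne.symm hz1, Ne.symm ht1]) (Set.toFinite _),
          Set.ncard_pair (Ne.symm hne)] at h4
        rwa [← Nat.card_coe_set_eq, SetLike.coe_sort_coe] at h4
      rw [hr] at h3
      have : 2 ^ r ≤ 2 := (Nat.pow_le_pow_right two_pos (show r ≤ 1 by omega)).trans (by norm_num)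
      omega
    have hno : ∀ N : Subgroup G, N.Normal → N.index ≠ 2 := fun N hN hi => by
      rcases hN.eq_bot_or_eq_top with rfl | rfl
      · rw [index_bot] at hi
        exact hG ⟨⟨fun a b => by
          haveI := isCyclic_of_prime_card (α := G) (p := 2) hi
          letI := IsCyclic.commGroup (α := G)
          exact mul_comm a b⟩⟩
      · rw [index_top] at hi; omega
    obtain ⟨e, he⟩ := IsPGroup.iff_card.1 hSp
    obtain ⟨e', rfl⟩ : ∃ e', e = e' + 1 := ⟨e - 1, by
      have : e ≠ 0 := fun e0 => hSne (Subgroup.card_eq_one.1 (by rw [he, e0, pow_zero]))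
      omega⟩
    obtain ⟨M₀, hM₀⟩ := Sylow.exists_subgroup_card_pow_prime (G := (S : Subgroup G)) 2 (n := e')
      (he ▸ pow_dvd_pow 2 (by omega))
    have hM₀i : M₀.index = 2 := by
      have h1 := M₀.card_mul_index
      rw [hM₀, he, pow_succ] at h1
      exact Nat.eq_of_mul_eq_mul_left (by positivity) h1
    haveI := Subgroup.normal_of_index_eq_two hM₀i
    set M := M₀.map (S : Subgroup G).subtype with hM
    have hMrel : M.relIndex (S : Subgroup G) = 2 := by
      rw [relIndex, hM, subgroupOf, comap_map_eq_self_of_injective (S : Subgroup G).subtype_injective, hM₀i]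
    obtain ⟨g, ⟨hgS, hgM⟩, hmin⟩ := Set.exists_min_image {x : G | x ∈ (S : Subgroup G) ∧ x ∉ M}
      (fun x => orderOf x) (Set.toFinite _) (by
        by_contra hcon
        rw [Set.not_nonempty_iff_eq_empty, Set.eq_empty_iff_forall_notMem] at hcon
        have : (S : Subgroup G) ≤ M := fun x hx => by_contra fun hxM => hcon x ⟨hx, hxM⟩
        rw [relIndex_eq_one.2 this] at hMrel
        omega)
    obtain ⟨c, hc⟩ := PSL2Spec.exists_conj_mem_of_minimal S hno M hMrel hgS hgM fun x h1 h2 => hmin x ⟨h1, h2⟩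
    have hMS : M ≤ S := map_subtype_le _
    have hcS : c * g * c⁻¹ ∈ (S : Subgroup G) := hMS hc
    have hg1 : g ≠ 1 := fun e => hgM (e ▸ M.one_mem)
    have hg4 := h.pow_four hSp hgS
    obtain ⟨i, hi, hiz⟩ : ∃ i, g ^ i ≠ 1 ∧ g ^ i * g ^ i = 1 := by
      by_cases h22 : g * g = 1
      · exact ⟨1, by simpa using hg1, by simpa using h22⟩
      · refine ⟨2, by simpa [pow_two] using h22, ?_⟩
        rw [← pow_add]; exact hg4
    have e1 := huniq _ (pow_mem hgS i) hiz hi
    have e2 := huniq _ (pow_mem hcS i)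
      (by rw [conj_pow, show c * g ^ i * c⁻¹ * (c * g ^ i * c⁻¹) = c * (g ^ i * g ^ i) * c⁻¹ by group, hiz, mul_one,
        mul_inv_cancel])
      (by rw [conj_pow]; intro e'; rw [mul_inv_eq_one, mul_eq_left] at e'; exact hi e')
    rw [conj_pow, e1] at e2
    have hcC : c ∈ (S : Subgroup G) := hCS z hzS hz1 (mem_centralizer_singleton_iff.2 (mul_inv_eq_iff_eq_mul.1 e2))
    apply hgM
    obtain ⟨w, hw, hwe⟩ := hc
    refine ⟨⟨c, hcC⟩⁻¹ * w * ⟨c, hcC⟩, ?_, ?_⟩
    · simpa using (inferInstance : M₀.Normal).conj_mem w hw (⟨c, hcC⟩⁻¹)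
    · show c⁻¹ * (w : G) * c = g
      rw [show (w : G) = c * g * c⁻¹ from hwe]; group
  -- three involutions
  obtain ⟨j, hSc⟩ := IsPGroup.iff_card.1 hSp
  have hHc : Nat.card H = k * Nat.card (S : Subgroup G) := by
    have h1 := ((S : Subgroup G).subgroupOf H).card_mul_index
    rw [Nat.card_congr (subgroupOfEquivOfLe hSH).toEquiv] at h1
    rw [← h1, mul_comm]
  rw [hr] at hkW
  have hkodd : Odd k := ⟨2 ^ (r - 1) - 1, by
    have : 2 ^ r = 2 * 2 ^ (r - 1) := by rw [← pow_succ', Nat.sub_add_cancel (by omega)]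
    have : 1 ≤ 2 ^ (r - 1) := Nat.one_le_two_pow
    omega⟩
  have hk15 : k ∣ 15 := h.dvd_fifteen hSp hSne le_rfl (Dvd.intro _ hHc.symm) hkodd
  have hk3 : k = 3 := by
    have h4 : 2 ^ r ≤ 16 := by have := Nat.le_of_dvd (by norm_num) hk15; omega
    have hr4 : r ≤ 4 := (Nat.pow_le_pow_iff_right (a := 2) one_lt_two).1 (h4.trans (by norm_num))
    have hd : k = 3 ∨ k = 15 := by
      interval_cases r <;> norm_num at hkW <;>
        first | omega | (rw [show k = 7 by omega] at hk15; norm_num at hk15)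
    refine hd.resolve_right fun hk' => ?_
    set S' := (S : Subgroup G).subgroupOf H
    haveI : S'.Normal :=
      ⟨fun x hx g => mem_subgroupOf.2 ((mem_normalizer_iff.1 g.2 (x : G)).1 (mem_subgroupOf.1 hx))⟩
    have hq : Spec5 (H ⧸ S') :=
      (h.of_injective H.subtype H.subtype_injective).of_surjective _ (QuotientGroup.mk'_surjective S')
    have h15 : Nat.card (H ⧸ S') = 15 := by rw [← Subgroup.index_eq_card]; exact hk ▸ hk'
    haveI : Fact (Nat.Prime 5) := ⟨by norm_num⟩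
    obtain ⟨P⟩ := (inferInstance : Nonempty (Sylow 5 (H ⧸ S')))
    have hPc : Nat.card (P : Subgroup (H ⧸ S')) = 5 := by
      rw [P.card_eq_multiplicity, h15, show (15 : ℕ) = 5 * 3 from rfl, Nat.factorization_mul (by norm_num) (by norm_num)]
      simp [Nat.prime_three.factorization, (by norm_num : Nat.Prime 5).factorization]
    have h1 : Nat.card (Sylow 5 (H ⧸ S')) = 1 := by
      have hd := Sylow.card_dvd_index P
      have hi : (P : Subgroup (H ⧸ S')).index = 3 := by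
        have := (P : Subgroup (H ⧸ S')).card_mul_index
        rw [hPc, h15] at this; omega
      rw [hi] at hd
      rcases (Nat.dvd_prime Nat.prime_three).1 hd with e | e
      · exact e
      · have := card_sylow_modEq_one 5 (H ⧸ S')
        rw [e] at this
        exact absurd this (by decide)
    haveI := (Nat.card_eq_one_iff_unique.1 h1).1
    haveI : (P : Subgroup (H ⧸ S')).Normal := Sylow.normal_of_subsingleton P
    obtain ⟨y, hy⟩ := exists_prime_orderOf_dvd_card' (G := H ⧸ S') 3 (by rw [h15]; norm_num)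
    have hfree := Cfsg.Agent.FGS2.Order7920.free_dvd (zpowers y) (P : Subgroup (H ⧸ S'))
      (fun x _ => by rw [Subgroup.normalizer_eq_top (P : Subgroup (H ⧸ S'))]; trivial) (fun s hs hs1 x hx hx1 hsx =>
        hq.comm_false hsx.eq hs1 hx1 (by
          have h3 : orderOf s ∣ 3 := hy ▸ orderOf_dvd_of_mem_zpowers hs
          have h5 : orderOf x ∣ 5 := hPc ▸ (orderOf_mk x hx ▸ orderOf_dvd_natCard _)
          exact Nat.Coprime.coprime_dvd_left h3 (Nat.Coprime.coprime_dvd_right h5 (by norm_num))))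
    rw [Nat.card_zpowers, hy, hPc] at hfree
    norm_num at hfree
  rw [hk3] at hHc hkW
  -- intersections with conjugates
  have hinter : ∀ v : G, v * v = 1 → v ∉ H → ∀ w, w ∈ H → v * w * v ∈ H → ∀ i, orderOf w = 2 ^ i → w = 1 := by
    intro v hv hvH w hw hw' i hi
    by_contra hw1
    have hp : ∀ w : G, orderOf w = 2 ^ i → w ∈ H → w ∈ (S : Subgroup G) := fun w hi hw => by
      have hwp : IsPGroup 2 (zpowers w) := IsPGroup.of_card (n := i) (by rw [Nat.card_zpowers, hi])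
      have : w ∈ zpowers w ⊓ normalizer ((S : Subgroup G) : Set G) := ⟨mem_zpowers w, hw⟩
      exact ((hwp.inf_normalizer_sylow S).le this).2
    have hvi : v⁻¹ = v := inv_eq_of_mul_eq_one_right hv
    have hwS : w ∈ (S : Subgroup G) := hp w hi hw
    have hwS' : v * w * v ∈ (S : Subgroup G) := hp _ (by
      have := conj_ord v w
      rw [hvi] at this
      rw [this, hi]) hw'
    have hne : v • S ≠ S := fun e => hvH (Sylow.smul_eq_iff_mem_normalizer.1 e)
    have : w ∈ ((v • S : Sylow 2 G) : Subgroup G) ⊓ S := ⟨by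
      rw [Sylow.coe_subgroup_smul]
      refine ⟨v * w * v, hwS', ?_⟩
      show v * (v * w * v) * v⁻¹ = w
      rw [hvi, show v * (v * w * v) * v = (v * v) * w * (v * v) by group, hv, one_mul, mul_one], hwS⟩
    rw [hTI _ _ hne, Subgroup.mem_bot] at this
    exact hw1 this
  have hKcard : ∀ v : G, v * v = 1 → v ∉ H →
      ∀ K : Subgroup G, (∀ w, w ∈ K → w ∈ H ∧ v * w * v ∈ H) → Nat.card K ∣ 3 := by
    intro v hv hvH K hK
    have hdvd : Nat.card K ∣ 3 * 2 ^ j := hSc ▸ hHc ▸ Subgroup.card_dvd_of_le (fun w hw => (hK w hw).1)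
    refine (Nat.Coprime.pow_right j ?_).dvd_of_dvd_mul_right hdvd
    rw [Nat.coprime_comm, Nat.Prime.coprime_iff_not_dvd Nat.prime_two]
    intro h2K
    obtain ⟨w, hw⟩ := exists_prime_orderOf_dvd_card' (G := K) 2 h2K
    have h1 := hinter v hv hvH w (hK w w.2).1 (hK w w.2).2 1 (by rw [orderOf_coe, hw, pow_one])
    rw [← orderOf_coe, h1, orderOf_one] at hw
    omega
  haveI := Fintype.ofFinite (G ⧸ H)
  let I := {v : G // v * v = 1 ∧ v ≠ 1}
  have hI : Nat.card I = 3 * H.index := by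
    have h1 : Nat.card I = Nat.card (Set.range fun g : G => g * z * g⁻¹) := Nat.card_congr
      (Equiv.subtypeEquivRight fun v => ⟨fun hv => isConj_iff.1 (hclass v hv.1 hv.2), by
        rintro ⟨g, rfl⟩
        refine ⟨?_, fun e => ?_⟩
        · rw [show g * z * g⁻¹ * (g * z * g⁻¹) = g * (z * z) * g⁻¹ by group, hz2, mul_one, mul_inv_cancel]
        · simp only [mul_inv_eq_one, mul_eq_left] at e; exact hz1 e⟩)
    rw [h1, ← PSL2Spec.card_conj_class, hCz, ← Subgroup.relIndex_mul_index hSH, relIndex, ← hk, hk3]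
  let fib : G ⧸ H → Type _ := fun o => {v : I // ((v.1 : G) : G ⧸ H) = o}
  have hfib : ∀ o, Nat.card (fib o) ≤ 3 := by
    intro o
    by_cases hne : Nonempty (fib o)
    swap
    · haveI := not_nonempty_iff.1 hne
      simp
    obtain ⟨⟨⟨v, hv, hv1⟩, hvo⟩⟩ := hne
    by_cases hvH : v ∈ H
    · let f : fib o → (W : Subgroup G) := fun x => ⟨x.1.1, hmem2 _ x.1.2.1 S (by
        have h1 := x.2.trans hvo.symm
        have h2 := QuotientGroup.eq.1 h1.symm
        show x.1.1 ∈ H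
        have h3 := H.mul_mem hvH h2
        rwa [mul_inv_cancel_left] at h3), x.1.2.1⟩
      let f' : fib o → {w : W // w ≠ 1} := fun x => ⟨f x, fun e => x.1.2.2 (congrArg Subtype.val e)⟩
      have hf : Function.Injective f' := fun x y e => Subtype.ext (Subtype.ext
        (congrArg (fun w : {w : W // w ≠ 1} => ((w.1 : W) : G)) e))
      refine (Nat.card_le_card_of_injective f' hf).trans ?_
      haveI := Fintype.ofFinite W
      rw [Nat.card_eq_fintype_card, Fintype.card_subtype_compl, Fintype.card_subtype_eq, ← Nat.card_eq_fintype_card]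
      omega
    · let K : Subgroup G := H ⊓ H.comap (MulAut.conj v).toMonoidHom
      have hvi : v⁻¹ = v := inv_eq_of_mul_eq_one_right hv
      let f : fib o → K := fun x => ⟨v⁻¹ * x.1.1, by
        refine ⟨QuotientGroup.eq.1 (hvo.trans x.2.symm), ?_⟩
        show v * (v⁻¹ * x.1.1) * v⁻¹ ∈ H
        have h2 := H.inv_mem (QuotientGroup.eq.1 (hvo.trans x.2.symm))
        rw [mul_inv_rev, inv_inv, inv_eq_of_mul_eq_one_right x.1.2.1] at h2
        rwa [hvi, ← mul_assoc, hv, one_mul]⟩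
      have hf : Function.Injective f := fun x y e =>
        Subtype.ext (Subtype.ext (mul_left_cancel (congrArg Subtype.val e)))
      exact (Nat.card_le_card_of_injective f hf).trans (Nat.le_of_dvd (by norm_num)
        (hKcard v hv hvH K (fun w hw => ⟨hw.1, by simpa [hvi] using hw.2⟩)))
  have hsum : ∑ o, Nat.card (fib o) = 3 * H.index := by
    rw [← hI, ← Nat.card_sigma]
    exact Nat.card_congr (Equiv.sigmaFiberEquiv (fun v : I => ((v.1 : G) : G ⧸ H)))
  have hfull : ∀ o, Nat.card (fib o) = 3 := by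
    intro o
    by_contra hne
    have hlt : ∑ o, Nat.card (fib o) < ∑ _o : G ⧸ H, 3 :=
      Finset.sum_lt_sum (fun i _ => hfib i) ⟨o, Finset.mem_univ _, lt_of_le_of_ne (hfib o) hne⟩
    rw [hsum, Finset.sum_const, Finset.card_univ, smul_eq_mul, ← Nat.card_eq_fintype_card,
      ← Subgroup.index_eq_card] at hlt
    omega
  -- every coset outside `H` gives an element of order 3 of `H` inverted by an involution in the coset
  have hcoset : ∀ g : G, g ∉ H → ∃ v : G, v * v = 1 ∧ v ∉ H ∧ ((v : G ⧸ H) = (g : G ⧸ H)) ∧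
      ∃ x ∈ H, orderOf x = 3 ∧ v * x * v = x⁻¹ := by
    intro g hg
    haveI : Nonempty (fib (g : G ⧸ H)) := Nat.card_pos_iff.1 (by rw [hfull]; norm_num) |>.1
    obtain ⟨v⟩ := (inferInstance : Nonempty (fib (g : G ⧸ H)))
    have hnt : Nontrivial (fib (g : G ⧸ H)) := Finite.one_lt_card_iff_nontrivial.1 (by rw [hfull]; norm_num)
    obtain ⟨w, hw⟩ := exists_ne v
    have hvH : (v.1.1 : G) ∉ H := fun hv => hg (by
      have := H.mul_mem hv (QuotientGroup.eq.1 v.2)
      rwa [mul_inv_cancel_left] at this)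
    have hvi : (v.1.1 : G)⁻¹ = v.1.1 := inv_eq_of_mul_eq_one_right v.1.2.1
    set x := (v.1.1 : G)⁻¹ * w.1.1 with hx
    have hxH : x ∈ H := QuotientGroup.eq.1 (v.2.trans w.2.symm)
    have hxinv : (v.1.1 : G) * x * v.1.1 = x⁻¹ := by
      rw [hx, mul_inv_rev, inv_inv, inv_eq_of_mul_eq_one_right w.1.2.1, mul_inv_cancel_left]
    refine ⟨v.1.1, v.1.2.1, hvH, v.2, x, hxH, ?_, hxinv⟩
    have hxK : zpowers x ≤ H ⊓ H.comap (MulAut.conj (v.1.1 : G)).toMonoidHom := by
      rw [zpowers_le]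
      refine ⟨hxH, ?_⟩
      show (v.1.1 : G) * x * (v.1.1 : G)⁻¹ ∈ H
      rw [hvi, hxinv]; exact H.inv_mem hxH
    have h3 := hKcard v.1.1 v.1.2.1 hvH (zpowers x) (fun y hy => ⟨(hxK hy).1, by
      have := (hxK hy).2
      simpa [hvi] using this⟩)
    rw [Nat.card_zpowers] at h3
    refine ((Nat.dvd_prime Nat.prime_three).1 h3).resolve_left fun e => hw ?_
    rw [orderOf_eq_one_iff, hx, inv_mul_eq_one] at e
    exact (Subtype.ext (Subtype.ext e)).symm
  obtain ⟨g₀, hg₀⟩ : ∃ g, g ∉ H := by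
    by_contra hcon
    push Not at hcon
    exact hHtop ((eq_top_iff' H).2 hcon)
  obtain ⟨v₀, hv₀, hv₀H, -, x₀, hx₀H, hx₀o, hx₀inv⟩ := hcoset g₀ hg₀
  -- `H = S⟨x₀⟩`
  have hdecomp : ∀ y ∈ H, orderOf y = 3 → ∃ a ∈ (S : Subgroup G), y = a * x₀ * a⁻¹ ∨ y = a * x₀⁻¹ * a⁻¹ := by
    intro y hy hyo
    have hfac3 : (Nat.card H).factorization 3 = 1 := by
      rw [hHc, hSc, Nat.factorization_mul (by norm_num) (by positivity)]
      simp [Nat.prime_three.factorization_self, Nat.prime_two.factorization_pow]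
    let P : Sylow 3 H := Sylow.ofCard (zpowers ⟨x₀, hx₀H⟩) (by rw [Nat.card_zpowers, orderOf_mk, hx₀o, hfac3, pow_one])
    obtain ⟨P₂, hP₂⟩ := (IsPGroup.of_card (G := zpowers (⟨y, hy⟩ : H)) (n := 1)
      (by rw [Nat.card_zpowers, orderOf_mk, hyo, pow_one])).exists_le_sylow
    obtain ⟨c, hc⟩ := MulAction.exists_smul_eq H P P₂
    have hmem : (⟨y, hy⟩ : H) ∈ ((c • P : Sylow 3 H) : Subgroup H) := hc.symm ▸ hP₂ (mem_zpowers _)
    rw [Sylow.coe_subgroup_smul] at hmem
    obtain ⟨w, hw, hwy⟩ := hmem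
    obtain ⟨i, hi⟩ := (hw : w ∈ zpowers (⟨x₀, hx₀H⟩ : H))
    have hy' : y = (c : G) * x₀ ^ i * (c : G)⁻¹ := by
      have e1 := congrArg Subtype.val hwy
      rw [← hi] at e1
      exact e1.symm
    -- split `c` along `S⟨x₀⟩`
    have hc' : ∃ a ∈ (S : Subgroup G), ∃ l : ℕ, (c : G) = a * x₀ ^ l := by
      have hinj : Function.Injective (fun p : ↥(S : Subgroup G) × Fin 3 =>
          (⟨(p.1 : G) * x₀ ^ (p.2 : ℕ), mul_mem (hSH p.1.2) (pow_mem hx₀H _)⟩ : H)) := by
        rintro ⟨a, i⟩ ⟨a', i'⟩ e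
        have e1 : (a : G) * x₀ ^ (i : ℕ) = (a' : G) * x₀ ^ (i' : ℕ) := congrArg Subtype.val e
        have e2 : (a' : G)⁻¹ * a = x₀ ^ (i' : ℕ) * (x₀ ^ (i : ℕ))⁻¹ := by
          rw [eq_mul_inv_iff_mul_eq, mul_assoc, e1, inv_mul_cancel_left]
        have hm : (a' : G)⁻¹ * a ∈ zpowers x₀ := by
          rw [e2]
          exact mul_mem (Subgroup.npow_mem_zpowers _ _) (inv_mem (Subgroup.npow_mem_zpowers _ _))
        have hone : (a' : G)⁻¹ * a = 1 := by
          have d1 : orderOf ((a' : G)⁻¹ * a) ∣ 3 := hx₀o ▸ orderOf_dvd_of_mem_zpowers hm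
          have d2 : orderOf ((a' : G)⁻¹ * a) ∣ 2 ^ j :=
            hSc ▸ (orderOf_mk _ (mul_mem (inv_mem a'.2) a.2) ▸ orderOf_dvd_natCard _)
          exact orderOf_eq_one_iff.1 (Nat.eq_one_of_dvd_coprimes (Nat.Coprime.pow_right j (by norm_num)) d1 d2)
        have ea : a' = a := Subtype.ext (inv_mul_eq_one.1 hone)
        subst ea
        have e3 := pow_eq_pow_iff_modEq.1 (mul_left_cancel e1)
        rw [hx₀o] at e3
        exact Prod.ext rfl (Fin.ext (Nat.ModEq.eq_of_lt_of_lt e3 i.2 i'.2))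
      have hbij := (Nat.bijective_iff_injective_and_card _).2 ⟨hinj, by
        rw [Nat.card_prod, Nat.card_eq_fintype_card (α := Fin 3), Fintype.card_fin, hHc, mul_comm]⟩
      obtain ⟨⟨a, l⟩, hal⟩ := hbij.2 c
      exact ⟨a, a.2, l, (congrArg Subtype.val hal).symm⟩
    obtain ⟨a, ha, l, hcl⟩ := hc'
    have hy'' : y = a * x₀ ^ i * a⁻¹ := by
      rw [hy', hcl]
      have : x₀ ^ l * x₀ ^ i * (x₀ ^ l)⁻¹ = x₀ ^ i := by
        rw [← zpow_natCast, (Commute.zpow_zpow (Commute.refl x₀) l i).eq, mul_inv_cancel_right]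
      calc a * x₀ ^ l * x₀ ^ i * (a * x₀ ^ l)⁻¹ = a * (x₀ ^ l * x₀ ^ i * (x₀ ^ l)⁻¹) * a⁻¹ := by group
        _ = a * x₀ ^ i * a⁻¹ := by rw [this]
    refine ⟨a, ha, ?_⟩
    have h33 : x₀ ^ (3 : ℤ) = 1 := by
      rw [show (3 : ℤ) = ((3 : ℕ) : ℤ) from rfl, zpow_natCast, ← hx₀o, pow_orderOf_eq_one]
    obtain ⟨e', he⟩ : ∃ e', i = 3 * e' ∨ i = 3 * e' + 1 ∨ i = 3 * e' + -1 := ⟨(i + 1) / 3, by omega⟩
    rcases he with rfl | rfl | rfl
    · exfalso
      rw [hy'', zpow_mul, h33, one_zpow, mul_one, mul_inv_cancel, orderOf_one] at hyo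
      omega
    · exact Or.inl (by rw [hy'', zpow_add, zpow_mul, h33, one_zpow, one_mul, zpow_one])
    · exact Or.inr (by rw [hy'', zpow_add, zpow_mul, h33, one_zpow, one_mul, zpow_neg_one])
  -- no element of `H` inverts `x₀`
  have hnoinv : ∀ y ∈ H, y * x₀ * y⁻¹ ≠ x₀⁻¹ := by
    intro y hy e
    set S' := (S : Subgroup G).subgroupOf H
    haveI : S'.Normal :=
      ⟨fun x hx g => mem_subgroupOf.2 ((mem_normalizer_iff.1 g.2 (x : G)).1 (mem_subgroupOf.1 hx))⟩
    haveI : IsCyclic (H ⧸ S') := isCyclic_of_prime_card (p := 3) (by rw [← Subgroup.index_eq_card]; exact hk ▸ hk3)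
    letI := IsCyclic.commGroup (α := H ⧸ S')
    let π := QuotientGroup.mk' S'
    have e1 : π (⟨y, hy⟩ * ⟨x₀, hx₀H⟩ * ⟨y, hy⟩⁻¹) = π (⟨x₀, hx₀H⟩⁻¹) := congrArg π (Subtype.ext e)
    rw [map_mul, map_mul, map_inv, map_inv, mul_comm (π ⟨y, hy⟩), mul_inv_cancel_right, eq_inv_iff_mul_eq_one,
      ← map_mul] at e1
    have h1 : x₀ * x₀ ∈ (S : Subgroup G) := mem_subgroupOf.1 ((QuotientGroup.eq_one_iff _).1 e1)
    obtain ⟨i, hi⟩ := mem_pgroup_order hSp h1
    rw [← pow_two, orderOf_pow' x₀ two_ne_zero, hx₀o] at hi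
    norm_num at hi
    rcases Nat.eq_zero_or_pos i with rfl | hi0
    · simp at hi
    · have := dvd_pow_self 2 hi0.ne'
      rw [← hi] at this
      norm_num at this
  -- `C(x₀) ≤ H`
  obtain ⟨P3, hP3, -, -, hP3c⟩ := h.real_cent (r := 3) (by norm_num) hx₀o hv₀ hx₀inv
  have hx1 : x₀ ≠ 1 := fun e => by rw [e, orderOf_one] at hx₀o; omega
  have hv₀i : v₀⁻¹ = v₀ := inv_eq_of_mul_eq_one_right hv₀
  -- a coset fixed by `x₀` contains an involution inverting `x₀`
  have hfix : ∀ g : G, g ∉ H → g⁻¹ * x₀ * g ∈ H → ∃ v : G, v * v = 1 ∧ v ∉ H ∧ g⁻¹ * v ∈ H ∧ v * x₀ * v = x₀⁻¹ := by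
    intro g hg hgx
    obtain ⟨v, hv, hvH, hvo, x, hxH, hxo, hxv⟩ := hcoset g hg
    have hvi : v⁻¹ = v := inv_eq_of_mul_eq_one_right hv
    have hgv : g⁻¹ * v ∈ H := by
      have := H.inv_mem (QuotientGroup.eq.1 hvo)
      rwa [mul_inv_rev, inv_inv] at this
    refine ⟨v, hv, hvH, hgv, ?_⟩
    have hx0K : x₀ ∈ H ⊓ H.comap (MulAut.conj v).toMonoidHom := by
      refine ⟨hx₀H, ?_⟩
      show v * x₀ * v⁻¹ ∈ H
      have := H.mul_mem (H.mul_mem (H.inv_mem hgv) hgx) hgv
      rwa [show (g⁻¹ * v)⁻¹ * (g⁻¹ * x₀ * g) * (g⁻¹ * v) = v⁻¹ * x₀ * v by group, hvi,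
        show v * x₀ * v = v * x₀ * v⁻¹ by rw [hvi]] at this
    have hxK : x ∈ H ⊓ H.comap (MulAut.conj v).toMonoidHom := by
      refine ⟨hxH, ?_⟩
      show v * x * v⁻¹ ∈ H
      rw [hvi, hxv]; exact H.inv_mem hxH
    have hd := hKcard v hv hvH (H ⊓ H.comap (MulAut.conj v).toMonoidHom)
      (fun w hw => ⟨hw.1, by have := hw.2; simpa [hvi] using this⟩)
    have hK : H ⊓ H.comap (MulAut.conj v).toMonoidHom = zpowers x := (Subgroup.eq_of_le_of_card_ge
      (zpowers_le.2 hxK) (by rw [Nat.card_zpowers, hxo]; exact Nat.le_of_dvd (by norm_num) hd)).symm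
    rw [hK] at hx0K
    obtain ⟨i, hi⟩ := hx0K
    simp only at hi
    rw [← hi]
    have hci := conj_zpow (a := v) (b := x) (i := i)
    rw [hvi, hxv] at hci
    rw [← hci, inv_zpow]
  have hCH : centralizer ({x₀} : Set G) ≤ H := by
    intro c hc
    by_contra hcH
    have hc' := mem_centralizer_singleton_iff.1 hc
    obtain ⟨v, hv, -, hvc, hvx⟩ := hfix c hcH (by rw [mul_assoc, ← hc', inv_mul_cancel_left]; exact hx₀H)
    apply hnoinv (c⁻¹ * v) hvc
    calc c⁻¹ * v * x₀ * (c⁻¹ * v)⁻¹ = c⁻¹ * (v * x₀ * v⁻¹) * c := by group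
      _ = (c⁻¹ * x₀ * c)⁻¹ := by rw [inv_eq_of_mul_eq_one_right hv, hvx]; group
      _ = x₀⁻¹ := by rw [mul_assoc, ← hc', inv_mul_cancel_left]
  have hC3 : Nat.card (centralizer ({x₀} : Set G)) = 3 := by
    obtain ⟨i, hi⟩ := IsPGroup.iff_card.1 (h.cent_isPGroup (r := 3) ⟨1, by rw [hx₀o, pow_one]⟩ hx1)
    have hd := Subgroup.card_dvd_of_le hCH
    rw [hi, hHc, hSc] at hd
    have hd3 : 3 ^ i ∣ 3 ^ 1 := by
      rw [pow_one]
      exact (Nat.Coprime.pow i j (by norm_num : Nat.Coprime 3 2)).dvd_of_dvd_mul_right hd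
    have hi1 : i ≤ 1 := (Nat.pow_dvd_pow_iff_le_right (by norm_num : 1 < 3)).1 hd3
    have h1 : 3 ∣ Nat.card (centralizer ({x₀} : Set G)) := hx₀o ▸
      (orderOf_mk x₀ (mem_centralizer_singleton_iff.2 rfl) ▸ orderOf_dvd_natCard _)
    have := Nat.le_of_dvd Nat.card_pos h1
    rw [hi] at this ⊢
    rcases (show i = 0 ∨ i = 1 by omega) with e | e
    · rw [e, pow_zero] at this; omega
    · rw [e, pow_one]
  -- the unique fixed coset outside `H`
  have huniq : ∀ v : G, v * v = 1 → v * x₀ * v = x₀⁻¹ → v₀⁻¹ * v ∈ H := by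
    intro v hv hvx
    apply hCH
    rw [mem_centralizer_singleton_iff, hv₀i]
    calc v₀ * v * x₀ = v₀ * (v * x₀ * v) * v⁻¹ := by group
      _ = v₀ * (v₀ * x₀ * v₀) * v⁻¹ := by rw [hvx, hx₀inv]
      _ = (v₀ * v₀) * x₀ * (v₀ * v⁻¹) := by group
      _ = x₀ * (v₀ * v) := by rw [hv₀, inv_eq_of_mul_eq_one_right hv]; group
  -- the index
  have hidx : H.index = 2 ^ j + 1 := by
    let o : G ⧸ H := ((1 : G) : G ⧸ H)
    let Φ : ↥(S : Subgroup G) → {q : G ⧸ H // q ≠ o} := fun a => ⟨(((a : G) * v₀ : G) : G ⧸ H), fun e => hv₀H (by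
      have := QuotientGroup.eq.1 e
      rw [mul_one] at this
      have h2 := H.mul_mem (H.inv_mem (hSH a.2)) (H.inv_mem this)
      simpa using h2)⟩
    have hΦ : Function.Bijective Φ := by
      constructor
      · intro a a' e
        have e1 := QuotientGroup.eq.1 (congrArg Subtype.val e)
        rw [mul_inv_rev, hv₀i, mul_assoc, ← mul_assoc (a : G)⁻¹] at e1
        set w := (a : G)⁻¹ * (a' : G) with hw
        have hwS : w ∈ (S : Subgroup G) := mul_mem (inv_mem a.2) a'.2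
        obtain ⟨i, hi⟩ := mem_pgroup_order hSp hwS
        have := hinter v₀ hv₀ hv₀H w (hSH hwS) (by rwa [mul_assoc]) i hi
        exact Subtype.ext (inv_mul_eq_one.1 this)
      · rintro ⟨q, hq⟩
        obtain ⟨g, rfl⟩ := QuotientGroup.mk_surjective q
        have hg : g ∉ H := fun hg => hq (QuotientGroup.eq.2 (by simpa using H.inv_mem hg))
        obtain ⟨v, hv, hvH, hvg, x, hxH, hxo, hxv⟩ := hcoset g hg
        obtain ⟨a, ha, hax⟩ := hdecomp x hxH hxo
        refine ⟨⟨a, ha⟩, Subtype.ext ?_⟩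
        show ((a * v₀ : G) : G ⧸ H) = (g : G ⧸ H)
        rw [← hvg, QuotientGroup.eq]
        have hvi : v⁻¹ = v := inv_eq_of_mul_eq_one_right hv
        have hg' : (a⁻¹ * v) ∉ H := fun e => hvH (by simpa using H.mul_mem (hSH ha) e)
        have hfx : (a⁻¹ * v)⁻¹ * x₀ * (a⁻¹ * v) ∈ H := by
          rcases hax with e | e
          · rw [show (a⁻¹ * v)⁻¹ * x₀ * (a⁻¹ * v) = v⁻¹ * (a * x₀ * a⁻¹) * v by group, ← e, hvi, hxv]
            exact H.inv_mem hxH
          · rw [show (a⁻¹ * v)⁻¹ * x₀ * (a⁻¹ * v) = (v⁻¹ * (a * x₀⁻¹ * a⁻¹) * v)⁻¹ by group, ← e, hvi, hxv, inv_inv]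
            exact hxH
        obtain ⟨w, hw, -, hwv, hwx⟩ := hfix _ hg' hfx
        have h1 := H.mul_mem (huniq w hw hwx) (H.inv_mem hwv)
        rwa [show v₀⁻¹ * w * ((a⁻¹ * v)⁻¹ * w)⁻¹ = (a * v₀)⁻¹ * v by group] at h1
    have h1 : Nat.card {q : G ⧸ H // q ≠ o} = H.index - 1 := by
      rw [Nat.card_eq_fintype_card, Fintype.card_subtype_compl, Fintype.card_subtype_eq, ← Nat.card_eq_fintype_card,
        Subgroup.index_eq_card]
    have h2 := Nat.card_eq_of_bijective Φ hΦ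
    rw [hSc, h1] at h2
    have : H.index ≠ 0 := Subgroup.index_ne_zero_of_finite
    omega
  have hcard : Nat.card G = 3 * 2 ^ j * (2 ^ j + 1) := by
    rw [← Subgroup.card_mul_index H, hHc, hSc, hidx]
  have h3n : ¬ 3 ∣ 2 ^ j + 1 := by
    intro h3
    have hfac : (Nat.card G).factorization 3 = 1 := by
      have h4 := P3.card_eq_multiplicity
      rw [hP3, hC3] at h4
      exact (Nat.pow_right_injective (by norm_num : 2 ≤ 3) (show (3 : ℕ) ^ 1 = 3 ^ _ by rw [pow_one]; exact h4)).symm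
    have h9 : 3 ^ 2 ∣ Nat.card G := by
      rw [hcard, show (3 : ℕ) ^ 2 = 3 * 3 from rfl, mul_assoc 3]
      exact Nat.mul_dvd_mul_left 3 (h3.mul_left _)
    rw [Nat.prime_three.pow_dvd_iff_le_factorization Nat.card_pos.ne', hfac] at h9
    omega
  have h5 : ∀ d, d.Prime → d ∣ 2 ^ j + 1 → d = 5 := by
    intro d hd hdd
    rcases h.prime_cases hd (hdd.trans ⟨3 * 2 ^ j, by rw [hcard]; ring⟩) with e | e | e
    · exfalso
      subst e
      rcases Nat.eq_zero_or_pos j with e | e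
      · rw [e, pow_zero, Subgroup.card_eq_one] at hSc
        exact hSne hSc
      · have := dvd_pow_self 2 e.ne'
        omega
    · exact absurd (e ▸ hdd) h3n
    · exact e
  obtain ⟨l, hl⟩ : ∃ l, 2 ^ j + 1 = 5 ^ l := ⟨_, Nat.eq_prime_pow_of_unique_prime_dvd (by positivity) (fun {d} => h5 d)⟩
  have hj2 : 2 ^ j = 4 := by
    have h4j : 2 ^ r ∣ 2 ^ j := hr ▸ hSc ▸ Subgroup.card_dvd_of_le (fun x hx => hx.1)
    have hr' : r = 2 := by
      have : 2 ^ r = 4 := by omega
      exact Nat.pow_right_injective le_rfl (this.trans (by norm_num : 4 = 2 ^ 2))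
    subst hr'
    have hj2 := (Nat.pow_dvd_pow_iff_le_right one_lt_two).1 h4j
    by_contra hne
    obtain ⟨i, rfl⟩ : ∃ i, j = i + 3 := ⟨j - 3, by
      have : j ≠ 2 := fun e => hne (by rw [e]; norm_num)
      omega⟩
    have h8 : 8 ∣ 2 ^ (i + 3) := ⟨2 ^ i, by rw [pow_add]; ring⟩
    obtain ⟨l', hl'⟩ := Nat.even_or_odd' l
    rcases hl' with rfl | rfl
    · rw [pow_mul] at hl
      have h24 : 24 ∣ 25 ^ l' - 1 := by simpa using Nat.sub_dvd_pow_sub_pow 25 1 l'
      have h25 : (5 : ℕ) ^ 2 = 25 := by norm_num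
      rw [h25] at hl
      have : 3 ∣ 2 ^ (i + 3) := by omega
      exact absurd (Nat.prime_three.dvd_of_dvd_pow this) (by norm_num)
    · rw [pow_succ (5 : ℕ), pow_mul] at hl
      have h24 : 24 ∣ 25 ^ l' - 1 := by simpa using Nat.sub_dvd_pow_sub_pow 25 1 l'
      have h25 : (5 : ℕ) ^ 2 = 25 := by norm_num
      rw [h25] at hl
      have : 1 ≤ 25 ^ l' := Nat.one_le_pow _ _ (by norm_num)
      omega
  rw [hcard, hj2]

end Spec5

end Cfsg.Agent.SmallOrder.Spec5
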