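import Cfsg.Agent.SmallOrder.Spec5.Local
import Cfsg.Agent.SmallOrder.Spec5.Maximal
import Cfsg.Agent.SmallOrder.Spec5.TI

/-!
# The generic case: `D` is the unique large elementary abelian subgroup of a Sylow subgroup of its normaliser
-/

set_option autoImplicit false
set_option linter.unusedSectionVars false

namespace Cfsg.Agent.SmallOrder.Spec5

open Subgroup

variable {G : Type*} [Group G] [Finite G]

theorem conj_pgroup {p : ℕ} {P : Subgroup G} (hP : IsPGroup p P) (g : G) :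
    IsPGroup p (P.map (MulAut.conj g).toMonoidHom) := hP.map _

theorem mem_map_conj {P : Subgroup G} {g x : G} :
    x ∈ P.map (MulAut.conj g).toMonoidHom ↔ g⁻¹ * x * g ∈ P := by
  constructor
  · rintro ⟨z, hz, rfl⟩
    simpa [mul_assoc] using hz
  · intro hx
    exact ⟨_, hx, by simp [mul_assoc]⟩

/-- Two involutions with product of even order centralise a common involution. -/
theorem exists_common_invol {t u : G} (ht : t * t = 1) (hu : u * u = 1) (heven : ¬ Odd (orderOf (t * u))) :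
    ∃ w : G, w * w = 1 ∧ w ≠ 1 ∧ t * w = w * t ∧ u * w = w * u := by
  obtain ⟨i, hi⟩ : 2 ∣ orderOf (t * u) := even_iff_two_dvd.1 (Nat.not_odd_iff_even.1 heven)
  have hi0 : i ≠ 0 := fun e => by rw [e, mul_zero] at hi; exact (orderOf_pos (t * u)).ne' hi
  set w := (t * u) ^ i with hw
  have hw2 : orderOf w = 2 := by
    rw [hw, orderOf_pow' _ hi0, hi, Nat.gcd_eq_right (dvd_mul_left i 2), Nat.mul_div_cancel _ (by omega)]
  have hww : w * w = 1 := by rw [← pow_two, ← hw2, pow_orderOf_eq_one]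
  have hinv : ∀ v : G, v * v = 1 → v * (t * u) * v = (t * u)⁻¹ → v * w = w * v := by
    intro v hv hvz
    have hvi : v⁻¹ = v := inv_eq_of_mul_eq_one_right hv
    have := conj_pow (a := v) (b := t * u) (i := i)
    rw [hvi, hvz, inv_pow, ← hw, inv_eq_of_mul_eq_one_right hww] at this
    calc v * w = v * w * v * v := by rw [mul_assoc (v * w) v v, hv, mul_one]
      _ = w * v := by rw [← this]
  refine ⟨w, hww, fun e => by rw [e, orderOf_one] at hw2; omega, hinv t ht ?_, hinv u hu ?_⟩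
  · rw [mul_inv_rev, inv_eq_of_mul_eq_one_right ht, inv_eq_of_mul_eq_one_right hu, ← mul_assoc t t, ht, one_mul]
  · rw [mul_inv_rev, inv_eq_of_mul_eq_one_right ht, inv_eq_of_mul_eq_one_right hu, mul_assoc, mul_assoc, hu, mul_one]

/-- The data of a maximal intersection. -/
structure Conf (D : Subgroup G) : Prop where
  ne : D ≠ ⊥
  loc : Local (D.subgroupOf (normalizer (D : Set G)))

theorem exists_conf (hTI : ¬ ∀ P Q : Sylow 2 G, P ≠ Q → (P : Subgroup G) ⊓ Q = ⊥) : ∃ D : Subgroup G, Conf D := by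
  obtain ⟨D, hne, hp, hT⟩ := exists_maximal hTI
  refine ⟨D, hne, ⟨⟨fun x hx g => mem_subgroupOf.2 ((mem_normalizer_iff.1 g.2 (x : G)).1 (mem_subgroupOf.1 hx))⟩,
    hp.comap_of_injective _ (normalizer (D : Set G)).subtype_injective, fun e => hne ?_,
    fun T => (hT T).1, fun T => (hT T).2.1, fun T => (hT T).2.2.1, fun T => (hT T).2.2.2⟩⟩
  refine le_bot_iff.1 fun x hx => ?_
  have h1 : (⟨x, le_normalizer hx⟩ : normalizer (D : Set G)) ∈ D.subgroupOf (normalizer (D : Set G)) := mem_subgroupOf.2 hx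
  rw [e, Subgroup.mem_bot] at h1
  exact Subgroup.mem_bot.2 (congrArg Subtype.val h1)

namespace Conf

variable {D : Subgroup G} (h : Spec5 G) (c : Conf D)
include h c

theorem spec : Spec5 (normalizer (D : Set G)) := h.of_injective _ (normalizer (D : Set G)).subtype_injective

theorem sq_one {f : G} (hf : f ∈ D) : f * f = 1 :=
  congrArg Subtype.val (c.loc.sq_one (c.spec h) ⟨f, le_normalizer hf⟩ (mem_subgroupOf.2 hf))

theorem comm {a b : G} (ha : a ∈ D) (hb : b ∈ D) : a * b = b * a :=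
  congrArg Subtype.val (c.loc.comm (c.spec h) (a := ⟨a, le_normalizer ha⟩) (b := ⟨b, le_normalizer hb⟩)
    (mem_subgroupOf.2 ha) (mem_subgroupOf.2 hb))

theorem isP : IsPGroup 2 D := IsPGroup.of_equiv c.loc.isP (subgroupOfEquivOfLe le_normalizer)

theorem card_eq : Nat.card (D.subgroupOf (normalizer (D : Set G))) = Nat.card D :=
  Nat.card_congr (subgroupOfEquivOfLe le_normalizer).toEquiv

/-- `2`-elements of `C(f)`, `f ∈ D#`. -/
theorem le_cent {f : G} (hf : f ∈ D) : D ≤ centralizer ({f} : Set G) := fun _ hx =>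
  mem_centralizer_singleton_iff.2 (c.comm h hx hf)

theorem cent_isP {f : G} (hf : f * f = 1) (hf1 : f ≠ 1) : IsPGroup 2 (centralizer ({f} : Set G)) := by
  haveI : Fact (Nat.Prime 2) := ⟨Nat.prime_two⟩
  exact h.cent_isPGroup ⟨1, by rw [orderOf_eq_prime (by rw [pow_two, hf]) hf1, pow_one]⟩ hf1

/-- `q` bounds an elementary subgroup: uniqueness. -/
theorem unique_elem (hsmall : ∀ T : Sylow 2 (normalizer (D : Set G)),
      (D.subgroupOf (normalizer (D : Set G))).relIndex T *
        (D.subgroupOf (normalizer (D : Set G))).relIndex T < Nat.card D)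
    {P : Subgroup G} (hP : IsPGroup 2 P) (hPN : P ≤ normalizer (D : Set G)) {E : Subgroup G} (hEP : E ≤ P)
    (hE : ∀ x ∈ E, ∀ z ∈ E, x * z = z * x) (hE2 : ∀ x ∈ E, x * x = 1) (hEc : Nat.card E = Nat.card D) : E = D := by
  set N := normalizer (D : Set G) with hN
  have hEN : E ≤ N := hEP.trans hPN
  refine Subgroup.eq_of_le_of_card_ge (fun a ha => ?_) hEc.ge
  by_contra haD
  obtain ⟨T, hT⟩ := (hP.comap_of_injective N.subtype N.subtype_injective).exists_le_sylow
  obtain ⟨q, hq2, hqq, hq⟩ := c.loc.exists_root (c.spec h)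
  have haD' : (⟨a, hEN ha⟩ : N) ∉ D.subgroupOf N := fun e => haD (mem_subgroupOf.1 e)
  obtain ⟨h1, h2, h3⟩ := c.loc.elem_bound (c.spec h) T (A := E.subgroupOf N)
    (fun x hx => hT (mem_comap.2 (hEP (mem_subgroupOf.1 hx)))) (a := ⟨a, hEN ha⟩) (mem_subgroupOf.2 ha) haD'
    (fun x hx z hz => Subtype.ext (hE _ (mem_subgroupOf.1 hx) _ (mem_subgroupOf.1 hz)))
  rw [Nat.card_congr (subgroupOfEquivOfLe hEN).toEquiv, hEc] at h2
  have h4 := Subgroup.card_le_of_le h1
  rw [hq _ haD' (by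
    have e : (⟨a, hEN ha⟩ : N) * ⟨a, hEN ha⟩ = 1 := Subtype.ext (hE2 a ha)
    rw [e]; exact one_mem _)] at h4
  have h5 := hsmall T
  have h6 := Nat.mul_le_mul h4 h3
  rw [c.card_eq h] at hqq
  rw [← h2, ← hqq] at h6
  rw [← hqq] at h5
  nlinarith

/-- The generic case is impossible in a simple group. -/
theorem gen_false [IsSimpleGroup G] (hG : ¬ IsMulCommutative G)
    (hsmall : ∀ T : Sylow 2 (normalizer (D : Set G)),
      (D.subgroupOf (normalizer (D : Set G))).relIndex T *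
        (D.subgroupOf (normalizer (D : Set G))).relIndex T < Nat.card D) : False := by
  haveI : Fact (Nat.Prime 2) := ⟨Nat.prime_two⟩
  set N := normalizer (D : Set G) with hN
  -- 2-groups containing `D` lie in `N`
  have hover : ∀ P : Subgroup G, IsPGroup 2 P → D ≤ P → P ≤ N := by
    intro P hP hDP
    by_contra hPN
    obtain ⟨x, hxP, hxn, hxI⟩ := exists_mem_normalizer_notMem hP (D := P ⊓ N) inf_le_left
      (fun e => hPN (e ▸ inf_le_right))
    have hxN : x ∉ N := fun e => hxI ⟨hxP, e⟩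
    apply hxN
    have hmap : D.map (MulAut.conj x).toMonoidHom = D := by
      refine c.unique_elem h hsmall (hP.to_le inf_le_left) inf_le_right ?_ ?_ ?_ ?_
      · rintro _ ⟨d, hd, rfl⟩
        exact (mem_normalizer_iff.1 hxn d).1 ⟨hDP hd, le_normalizer hd⟩
      · rintro _ ⟨a, ha, rfl⟩ _ ⟨b, hb, rfl⟩
        rw [← map_mul, ← map_mul, c.comm h ha hb]
      · rintro _ ⟨a, ha, rfl⟩
        rw [← map_mul, c.sq_one h ha, map_one]
      · exact Subgroup.card_map_of_injective (MulEquiv.injective _)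
    rw [hN, mem_normalizer_iff]
    intro d
    constructor
    · intro hd
      have : x * d * x⁻¹ ∈ D.map (MulAut.conj x).toMonoidHom := ⟨d, hd, rfl⟩
      rwa [hmap] at this
    · intro hd
      rw [← hmap, mem_map_conj] at hd
      rwa [show x⁻¹ * (x * d * x⁻¹) * x = d by group] at hd
  -- `D` is TI
  have hCN : ∀ f ∈ D, f ≠ 1 → centralizer ({f} : Set G) ≤ N := fun f hf hf1 =>
    hover _ (c.cent_isP h (c.sq_one h hf) hf1) (c.le_cent h hf)
  have hTI : ∀ f ∈ D, f ≠ 1 → ∀ g : G, g * f * g⁻¹ ∈ D → g ∈ N := by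
    intro f hf hf1 g hg
    have hg1 : g * f * g⁻¹ ≠ 1 := fun e => hf1 (by simpa using e)
    have hEle : D.map (MulAut.conj g).toMonoidHom ≤ centralizer ({g * f * g⁻¹} : Set G) := by
      rintro _ ⟨d, hd, rfl⟩
      exact mem_centralizer_singleton_iff.2 ((conj_comm_iff g d f).2 (c.comm h hd hf))
    have hmap := c.unique_elem h hsmall (c.cent_isP h (c.sq_one h hg) hg1) (hCN _ hg hg1) hEle
      (by rintro _ ⟨a, ha, rfl⟩ _ ⟨b, hb, rfl⟩; rw [← map_mul, ← map_mul, c.comm h ha hb])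
      (by rintro _ ⟨a, ha, rfl⟩; rw [← map_mul, c.sq_one h ha, map_one])
      (Subgroup.card_map_of_injective (MulEquiv.injective _))
    rw [hN, mem_normalizer_iff]
    intro d
    constructor
    · intro hd
      have : g * d * g⁻¹ ∈ D.map (MulAut.conj g).toMonoidHom := ⟨d, hd, rfl⟩
      rwa [hmap] at this
    · intro hd
      rw [← hmap, mem_map_conj] at hd
      rwa [show g⁻¹ * (g * d * g⁻¹) * g = d by group] at hd
  obtain ⟨q, hq2, hqq, hq⟩ := c.loc.exists_root (c.spec h)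
  rw [c.card_eq h] at hqq
  -- involutions of `N ∖ D` are not conjugate into `D`
  have hfus : ∀ u ∈ N, u * u = 1 → u ∉ D → ∀ g : G, g * u * g⁻¹ ∉ D := by
    intro u huN hu huD g hg
    have hu1 : u ≠ 1 := fun e => huD (e ▸ D.one_mem)
    have hg1 : g * u * g⁻¹ ≠ 1 := fun e => hu1 (by simpa using e)
    set u' : N := ⟨u, huN⟩ with hu'
    set C := D.subgroupOf N ⊓ centralizer ({u'} : Set N) with hC
    have hCc : Nat.card C = q := hq u' (fun e => huD (mem_subgroupOf.1 e)) (by
      rw [show u' * u' = 1 from Subtype.ext hu]; exact one_mem _)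
    let ι : N →* G := (MulAut.conj g).toMonoidHom.comp N.subtype
    have hι : Function.Injective ι := fun a b e => N.subtype_injective ((MulEquiv.injective (MulAut.conj g)) e)
    have hKN : C.map ι ≤ N := by
      rintro _ ⟨f, hf, rfl⟩
      refine hCN _ hg hg1 (mem_centralizer_singleton_iff.2 ?_)
      exact (conj_comm_iff g (f : G) u).2 (congrArg Subtype.val (mem_centralizer_singleton_iff.1 hf.2))
    have hKp : IsPGroup 2 (C.map ι) := (c.loc.isP.to_le inf_le_left).map _
    obtain ⟨T, hT⟩ := (hKp.comap_of_injective N.subtype N.subtype_injective).exists_le_sylow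
    have hKD : D.subgroupOf N ⊓ (C.map ι).subgroupOf N = ⊥ := by
      refine le_bot_iff.1 fun x hx => ?_
      obtain ⟨f, hf, hfx⟩ := mem_subgroupOf.1 hx.2
      rw [Subgroup.mem_bot]
      by_contra hx1
      have hfx' : g * (f : G) * g⁻¹ = (x : G) := hfx
      have hf1 : (f : G) ≠ 1 := fun e => hx1 (Subtype.ext (by rw [← hfx', e]; simp))
      have hgN := hTI f (mem_subgroupOf.1 hf.1) hf1 g (by rw [hfx']; exact mem_subgroupOf.1 hx.1)
      apply huD
      exact (mem_normalizer_iff.1 hgN u).2 hg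
    have h1 : (D.subgroupOf N).relIndex ((C.map ι).subgroupOf N) ≤ (D.subgroupOf N).relIndex T :=
      relIndex_le_of_le_right hT (by rw [relIndex]; exact Subgroup.index_ne_zero_of_finite)
    rw [← inf_relIndex_right, hKD, relIndex_bot_left, Nat.card_congr (subgroupOfEquivOfLe hKN).toEquiv,
      Subgroup.card_map_of_injective hι, hCc] at h1
    have h5 := hsmall T
    rw [← hqq] at h5
    nlinarith [Nat.mul_le_mul h1 h1]
  -- centralisers of involutions of `N`
  obtain ⟨T₀⟩ := (inferInstance : Nonempty (Sylow 2 N))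
  obtain ⟨R₀, hR₀⟩ := (T₀.2.map N.subtype).exists_le_sylow
  have hDR₀ : D ≤ (R₀ : Subgroup G) := fun d hd =>
    hR₀ ⟨⟨d, le_normalizer hd⟩, c.loc.le T₀ (mem_subgroupOf.2 hd), rfl⟩
  have hR₀N : (R₀ : Subgroup G) ≤ N := hover _ R₀.2 hDR₀
  have hinvN : ∀ w ∈ N, w * w = 1 → w ≠ 1 → centralizer ({w} : Set G) ≤ N := by
    intro w hw hw2 hw1
    by_cases hwD : w ∈ D
    · exact hCN w hwD hw1
    set w' : N := ⟨w, hw⟩
    set C := D.subgroupOf N ⊓ centralizer ({w'} : Set N) with hC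
    have hCc : Nat.card C = q := hq w' (fun e => hwD (mem_subgroupOf.1 e)) (by
      rw [show w' * w' = 1 from Subtype.ext hw2]; exact one_mem _)
    obtain ⟨f, hf, hf1⟩ : ∃ f ∈ C, f ≠ 1 := by
      by_contra hcon
      push Not at hcon
      have : C = ⊥ := le_bot_iff.1 fun x hx => Subgroup.mem_bot.2 (hcon x hx)
      rw [this, Subgroup.card_bot] at hCc
      omega
    have hfD : (f : G) ∈ D := mem_subgroupOf.1 hf.1
    have hf1' : (f : G) ≠ 1 := fun e => hf1 (Subtype.ext e)
    obtain ⟨R, hR⟩ := (c.cent_isP h hw2 hw1).exists_le_sylow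
    obtain ⟨g, hg⟩ := MulAction.exists_smul_eq G R₀ R
    have hfR : (f : G) ∈ (R : Subgroup G) :=
      hR (mem_centralizer_singleton_iff.2 (congrArg Subtype.val (mem_centralizer_singleton_iff.1 hf.2)))
    rw [← hg, Sylow.coe_subgroup_smul] at hfR
    obtain ⟨f₀, hf₀, hf₀e⟩ := hfR
    replace hf₀e : g * f₀ * g⁻¹ = (f : G) := hf₀e
    have hf₀D : f₀ ∈ D := by
      by_contra hf₀D
      refine hfus f₀ (hR₀N hf₀) ?_ hf₀D g (by rw [hf₀e]; exact hfD)
      have := c.sq_one h hfD
      rw [← hf₀e, show g * f₀ * g⁻¹ * (g * f₀ * g⁻¹) = g * (f₀ * f₀) * g⁻¹ by group, conj_eq_one_iff] at this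
      exact this
    have hgN := hTI f₀ hf₀D (fun e => hf1' (by rw [← hf₀e, e]; simp)) g (by rw [hf₀e]; exact hfD)
    intro x hx
    have hxR := hR hx
    rw [← hg, Sylow.coe_subgroup_smul] at hxR
    obtain ⟨x₀, hx₀, rfl⟩ := hxR
    exact mul_mem (mul_mem hgN (hR₀N hx₀)) (inv_mem hgN)
  -- conclusion
  obtain ⟨u, -, huD, hu2⟩ := c.loc.exists_invol (c.spec h) T₀
  obtain ⟨y, s, -, hs, -, v, hv, hsv⟩ := c.loc.inverted (c.spec h) huD hu2
  have hsD : (s : G) ∉ D := fun e => huD (by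
    have h1 := (D.subgroupOf N).mul_mem ((D.subgroupOf N).inv_mem hv) (mem_subgroupOf.2 e)
    rwa [hsv, inv_mul_cancel_left] at h1)
  have hs' : (s : G) * (s : G) = 1 := congrArg Subtype.val hs
  have hs1 : (s : G) ≠ 1 := fun e => hsD (e ▸ D.one_mem)
  obtain ⟨f, hf, hf1⟩ : ∃ f ∈ D, f ≠ 1 := by
    by_contra hcon
    push Not at hcon
    exact c.ne (le_bot_iff.1 fun x hx => Subgroup.mem_bot.2 (hcon x hx))
  have hall : normalClosure ({f} : Set G) ≤ N := by
    rw [normalClosure, closure_le]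
    intro x hx
    obtain ⟨y', hy', hxy⟩ := Group.mem_conjugatesOfSet_iff.1 hx
    rw [Set.mem_singleton_iff.1 hy'] at hxy
    obtain ⟨g, rfl⟩ := isConj_iff.1 hxy
    have hf' : g * f * g⁻¹ * (g * f * g⁻¹) = 1 := by
      rw [show g * f * g⁻¹ * (g * f * g⁻¹) = g * (f * f) * g⁻¹ by group, c.sq_one h hf, mul_one, mul_inv_cancel]
    by_cases hodd : Odd (orderOf ((s : G) * (g * f * g⁻¹)))
    · exfalso
      obtain ⟨b, hb⟩ := isConj_iff.1 (isConj_of_odd_orderOf_mul hs' hf' hodd)
      refine hfus (s : G) s.2 hs' hsD (g⁻¹ * b) ?_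
      rw [show g⁻¹ * b * (s : G) * (g⁻¹ * b)⁻¹ = g⁻¹ * (b * (s : G) * b⁻¹) * g by group, hb,
        show g⁻¹ * (g * f * g⁻¹) * g = f by group]
      exact hf
    · obtain ⟨w, hw2, hw1, hsw, hfw⟩ := exists_common_invol hs' hf' hodd
      have hwN : w ∈ N := hinvN s s.2 hs' hs1 (mem_centralizer_singleton_iff.2 hsw.symm)
      exact hinvN w hwN hw2 hw1 (mem_centralizer_singleton_iff.2 hfw)
  haveI : Nontrivial G := IsSimpleGroup.toNontrivial
  rcases (Subgroup.normalClosure_normal (s := ({f} : Set G))).eq_bot_or_eq_top with e | e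
  · have h1 := Subgroup.subset_normalClosure (Set.mem_singleton f)
    rw [e] at h1
    exact hf1 (Subgroup.mem_bot.1 h1)
  · rw [e, top_le_iff] at hall
    exact c.ne (h.two_ne_top hG D (c.isP h) (Subgroup.normalizer_eq_top_iff.1 hall))

end Conf

end Cfsg.Agent.SmallOrder.Spec5
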