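import Cfsg.Agent.SmallOrder.Spec5.Gen

/-!
# The case `|D| = 16`, `[T : D] = 4`
-/

set_option autoImplicit false
set_option linter.unusedSectionVars false
set_option maxHeartbeats 1000000

namespace Cfsg.Agent.SmallOrder.Spec5

open Subgroup

variable {G : Type*} [Group G] [Finite G]

theorem pow_factorization_of_not_sq {r n : ℕ} (hr : r.Prime) (hn : n ≠ 0) (h1 : r ∣ n) (h2 : ¬ r ^ 2 ∣ n) :
    r ^ n.factorization r = r := by
  have h3 : 1 ≤ n.factorization r := (hr.pow_dvd_iff_le_factorization hn).1 (by rwa [pow_one])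
  have h4 : ¬ 2 ≤ n.factorization r := fun h => h2 ((hr.pow_dvd_iff_le_factorization hn).2 h)
  rw [show n.factorization r = 1 by omega, pow_one]

namespace Local

variable {D : Subgroup G} (h : Spec5 G) (hL : Local D) (h16 : Nat.card D = 16)
  (hr : ∀ T : Sylow 2 G, D.relIndex T = 4)
include h hL h16 hr

theorem cent_four {u : G} (huD : u ∉ D) (hu2 : u * u ∈ D) :
    Nat.card (D ⊓ centralizer ({u} : Set G) : Subgroup G) = 4 := by
  have h1 := hL.cent_card h huD hu2
  rw [h16] at h1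
  exact Nat.pow_left_injective two_ne_zero (h1.trans (by norm_num))

/-- At most one further elementary abelian subgroup of order 16. -/
theorem second_elem (T : Sylow 2 G) {A B : Subgroup G} (hAT : A ≤ T) (hBT : B ≤ T)
    (hA : ∀ x ∈ A, ∀ z ∈ A, x * z = z * x) (hA2 : ∀ x ∈ A, x * x = 1) (hAc : Nat.card A = 16) (hAD : A ≠ D)
    (hB2 : ∀ x ∈ B, x * x = 1) (hBc : Nat.card B = 16) (hBD : B ≠ D) : B = A := by
  haveI := hL.normal
  obtain ⟨a₀, ha₀, ha₀D⟩ : ∃ a ∈ A, a ∉ D := by
    by_contra hcon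
    push Not at hcon
    exact hAD (Subgroup.eq_of_le_of_card_ge hcon (by rw [hAc, h16]))
  have key : ∀ a ∈ A, a ∉ D → A ⊓ D = D ⊓ centralizer ({a} : Set G) ∧ D.relIndex A = 4 := by
    intro a ha haD
    obtain ⟨h1, h2, h3⟩ := hL.elem_bound h T hAT ha haD hA
    have h4 := Subgroup.card_le_of_le h1
    rw [hL.cent_four h h16 hr haD (by rw [hA2 a ha]; exact one_mem _)] at h4
    rw [hr T] at h3
    rw [hAc] at h2
    have h5 := Nat.mul_le_mul h4 h3
    have h6 : Nat.card (A ⊓ D : Subgroup G) = 4 ∧ D.relIndex A = 4 := by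
      generalize Nat.card (A ⊓ D : Subgroup G) = x at *
      generalize D.relIndex A = z at *
      interval_cases x <;> omega
    exact ⟨Subgroup.eq_of_le_of_card_ge h1 (by
      rw [h6.1, hL.cent_four h h16 hr haD (by rw [hA2 a ha]; exact one_mem _)]), h6.2⟩
  set π := QuotientGroup.mk' D with hπ
  have hcardmap : ∀ K : Subgroup G, Nat.card (K.map π) = D.relIndex K := fun K => by
    conv_rhs => rw [← QuotientGroup.ker_mk' D, ← hπ]
    rw [Subgroup.relIndex_ker]
  have hmap : A.map π = (T : Subgroup G).map π :=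
    Subgroup.eq_of_le_of_card_ge (map_mono hAT) (by rw [hcardmap, hcardmap, hr T, (key a₀ ha₀ ha₀D).2])
  have hinv : ∀ u ∈ (T : Subgroup G), u * u = 1 → u ∉ D → u ∈ A := by
    intro u hu hu2 huD
    obtain ⟨a, ha, hau⟩ : π u ∈ A.map π := hmap.symm ▸ ⟨u, hu, rfl⟩
    have hf : a⁻¹ * u ∈ D := QuotientGroup.eq.1 hau
    have haD : a ∉ D := fun e => huD (by simpa using D.mul_mem e hf)
    have hfc : a⁻¹ * u * a = a * (a⁻¹ * u) := by
      have h1 := hL.sq_one h _ hf
      have hai : a⁻¹ = a := inv_eq_of_mul_eq_one_right (hA2 a ha)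
      have hui : u⁻¹ = u := inv_eq_of_mul_eq_one_right hu2
      rw [mul_eq_one_iff_eq_inv, mul_inv_rev, inv_inv, hai, hui] at h1
      rw [hai, ← mul_assoc a a, hA2 a ha, one_mul, h1, mul_assoc u, hA2 a ha, mul_one]
    have h2 : a⁻¹ * u ∈ A ⊓ D := by
      rw [(key a ha haD).1]
      exact ⟨hf, mem_centralizer_singleton_iff.2 hfc⟩
    simpa using A.mul_mem ha h2.1
  have hBA : B ≤ A := by
    obtain ⟨b, hb, hbD⟩ : ∃ b ∈ B, b ∉ D := by
      by_contra hcon
      push Not at hcon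
      exact hBD (Subgroup.eq_of_le_of_card_ge hcon (by rw [hBc, h16]))
    intro x hx
    by_cases hxD : x ∈ D
    · have h1 := hinv _ (hBT (B.mul_mem hb hx)) (hB2 _ (B.mul_mem hb hx))
        (fun e => hbD (by simpa using D.mul_mem e (D.inv_mem hxD)))
      simpa using A.mul_mem (A.inv_mem (hinv b (hBT hb) (hB2 b hb) hbD)) h1
    · exact hinv x (hBT hx) (hB2 x hx) hxD
  exact Subgroup.eq_of_le_of_card_ge hBA (by rw [hAc, hBc])

/-- The order and the real elements. -/
theorem quot_data : Nat.card G = 960 ∧ ∀ r : ℕ, r = 3 ∨ r = 5 →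
    ∃ y s : G, orderOf y = r ∧ s * s = 1 ∧ s * y * s = y⁻¹ := by
  haveI := hL.normal
  haveI : Fact (Nat.Prime 2) := ⟨Nat.prime_two⟩
  obtain ⟨T⟩ := (inferInstance : Nonempty (Sylow 2 G))
  have h5 : Nat.card (Sylow 2 G) = 5 := by
    rcases hL.index_cases h T with e | ⟨-, e⟩
    · rw [hr T] at e; omega
    · exact e
  set π := QuotientGroup.mk' D with hπ
  have hπs : Function.Surjective π := QuotientGroup.mk'_surjective D
  have hq : Spec5 (G ⧸ D) := h.of_surjective π hπs
  set Tb := (T : Subgroup G).map π with hTb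
  have hTbc : Nat.card Tb = 4 := by
    rw [hTb, ← hr T]
    conv_rhs => rw [← QuotientGroup.ker_mk' D, ← hπ]
    rw [Subgroup.relIndex_ker]
  have hTb2 : ∀ x ∈ Tb, x * x = 1 := by
    rintro _ ⟨x, hx, rfl⟩
    rw [← map_mul]
    exact (QuotientGroup.eq_one_iff _).2 (hL.sq_mem h T hx)
  -- `|G / D| = 4 d`
  obtain ⟨d, hd⟩ : ∃ d, d = (T : Subgroup G).index := ⟨_, rfl⟩
  have hTc : Nat.card (T : Subgroup G) = 64 := by
    have h1 := relIndex_mul_relIndex ⊥ D (T : Subgroup G) bot_le (hL.le T)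
    rw [relIndex_bot_left, relIndex_bot_left, h16, hr T] at h1
    omega
  have hGc : Nat.card G = 64 * d := by rw [hd, ← hTc, (T : Subgroup G).card_mul_index]
  have hMc : Nat.card (G ⧸ D) = 4 * d := by
    have h1 := D.card_mul_index
    rw [h16, hGc, Subgroup.index_eq_card] at h1
    omega
  have hdodd : Odd d := by
    rw [hd, Nat.odd_iff, ← Nat.two_dvd_ne_zero]
    exact T.not_dvd_index
  have hd15 : d ∣ 15 := h.dvd_fifteen hL.isP hL.ne (H := ⊤) (fun x _ => by rw [normalizer_eq_top D]; trivial)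
    (by rw [Subgroup.card_top, hGc]; exact dvd_mul_left d 64) hdodd
  have h5d : 5 ∣ d := by rw [← h5, hd]; exact T.card_dvd_index
  have hd15' : d = 5 ∨ d = 15 := by
    have := Nat.le_of_dvd (by norm_num) hd15
    interval_cases d <;> omega
  -- two involutions of `T / D` cannot both normalise a group of prime order
  have hfour : ∀ r, r.Prime → r ≠ 2 → ∀ Q : Subgroup (G ⧸ D), Nat.card Q = r →
      (∀ x ∈ Tb, x ∈ normalizer (Q : Set (G ⧸ D))) → False := by
    intro r hrp hr2 Q hQ hN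
    haveI := Fact.mk hrp
    have hQp : IsPGroup r Q := IsPGroup.of_card (n := 1) (by rw [hQ, pow_one])
    haveI : Nontrivial Q := Finite.one_lt_card_iff_nontrivial.1 (hQ ▸ hrp.one_lt)
    obtain ⟨⟨z, hz⟩, hz1⟩ := exists_ne (1 : Q)
    have hz1' : z ≠ 1 := fun e => hz1 (Subtype.ext e)
    obtain ⟨a, b, ha, hb, ha1, hb1, hab⟩ : ∃ a b, a ∈ Tb ∧ b ∈ Tb ∧ a ≠ 1 ∧ b ≠ 1 ∧ a ≠ b := by
      classical
      haveI : Fintype Tb := Fintype.ofFinite _
      have h3 : 2 < Fintype.card Tb := by rw [← Nat.card_eq_fintype_card, hTbc]; norm_num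
      obtain ⟨⟨a, ha⟩, -, ha1⟩ := Finset.exists_mem_ne (s := (Finset.univ : Finset Tb)) (by simpa using by omega) 1
      have h2 : 1 < ((Finset.univ : Finset Tb).erase ⟨a, ha⟩).card := by
        rw [Finset.card_erase_of_mem (Finset.mem_univ _), Finset.card_univ]; omega
      obtain ⟨⟨b, hb⟩, hbm, hb1⟩ := Finset.exists_mem_ne h2 1
      exact ⟨a, b, ha, hb, fun e => ha1 (Subtype.ext e), fun e => hb1 (Subtype.ext e),
        fun e => (Finset.mem_erase.1 hbm).1 (Subtype.ext e.symm)⟩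
    have hinv : ∀ x ∈ Tb, x ≠ 1 → x * z * x = z⁻¹ := fun x hx hx1 =>
      hq.inverts hr2 hQp (hTb2 x hx) hx1 (fun w hw => by
        have := (mem_normalizer_iff.1 (hN x hx) w).1 hw
        rwa [inv_eq_of_mul_eq_one_right (hTb2 x hx)] at this) z hz
    have e1 := hinv a ha ha1
    have e2 := hinv b hb hb1
    obtain ⟨k, hk⟩ := mem_pgroup_order hQp hz
    refine hq.comm_false (x := a * b) (y := z) ?_ ?_ hz1' ?_
    · calc a * b * z = a * (b * z * b) * b⁻¹ * (b * b)⁻¹ * (b * b) := by group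
        _ = a * z⁻¹ * b⁻¹ := by rw [e2]; group
        _ = (a * z * a)⁻¹ * (a * b⁻¹) * (a * a)⁻¹ * (a * a) := by
            rw [mul_inv_rev, mul_inv_rev, inv_eq_of_mul_eq_one_right (hTb2 a ha)]
            rw [show a * (z⁻¹ * a) * (a * b⁻¹) = a * z⁻¹ * (a * a) * b⁻¹ by group, hTb2 a ha]
            group
        _ = z * (a * b) := by rw [e1, inv_inv, hTb2 a ha, inv_eq_of_mul_eq_one_right (hTb2 b hb)]; group
    · intro e
      exact hab ((eq_inv_of_mul_eq_one_left e).trans (inv_eq_of_mul_eq_one_right (hTb2 b hb)))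
    · rw [hk, orderOf_eq_prime (by rw [pow_two]; exact hTb2 _ (mul_mem ha hb)) (fun e =>
        hab ((eq_inv_of_mul_eq_one_left e).trans (inv_eq_of_mul_eq_one_right (hTb2 b hb))))]
      exact ((Nat.coprime_primes Nat.prime_two hrp).2 (Ne.symm hr2)).pow_right k
  have hsyl : ∀ r, r = 3 ∨ r = 5 → r ∣ d → ∀ Q : Sylow r (G ⧸ D), Nat.card (Q : Subgroup (G ⧸ D)) = r := by
    intro r hr' hrd Q
    haveI : Fact r.Prime := ⟨by rcases hr' with rfl | rfl <;> norm_num⟩
    rw [Q.card_eq_multiplicity, hMc]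
    rcases hd15' with rfl | rfl <;> rcases hr' with rfl | rfl <;> norm_num at hrd <;>
      exact pow_factorization_of_not_sq (by norm_num) (by norm_num) (by norm_num) (by norm_num)
  have hd' : d = 15 := by
    refine hd15'.resolve_left fun e => ?_
    haveI : Fact (Nat.Prime 5) := ⟨by norm_num⟩
    obtain ⟨Q⟩ := (inferInstance : Nonempty (Sylow 5 (G ⧸ D)))
    have hQc := hsyl 5 (Or.inr rfl) (by rw [e]) Q
    have hidx : (Q : Subgroup (G ⧸ D)).index = 4 := by
      have := (Q : Subgroup (G ⧸ D)).card_mul_index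
      rw [hQc, hMc, e] at this; omega
    have hdv := Q.card_dvd_index
    rw [hidx] at hdv
    have h1 := card_sylow_modEq_one 5 (G ⧸ D)
    have hn : Nat.card (Sylow 5 (G ⧸ D)) = 1 := by
      have := Nat.le_of_dvd (by norm_num) hdv
      have : Nat.card (Sylow 5 (G ⧸ D)) % 5 = 1 := h1
      omega
    haveI := (Nat.card_eq_one_iff_unique.1 hn).1
    haveI : (Q : Subgroup (G ⧸ D)).Normal := Sylow.normal_of_subsingleton Q
    exact hfour 5 (by norm_num) (by norm_num) _ hQc (fun x _ => by rw [normalizer_eq_top]; trivial)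
  subst hd'
  refine ⟨by omega, fun r hr' => ?_⟩
  have hrp : r.Prime := by rcases hr' with rfl | rfl <;> norm_num
  have hr2 : r ≠ 2 := by rcases hr' with rfl | rfl <;> norm_num
  haveI := Fact.mk hrp
  obtain ⟨Q⟩ := (inferInstance : Nonempty (Sylow r (G ⧸ D)))
  have hQc := hsyl r hr' (by rcases hr' with rfl | rfl <;> norm_num) Q
  set K := normalizer ((Q : Subgroup (G ⧸ D)) : Set (G ⧸ D)) with hK
  have heven : 2 ∣ Nat.card K := by
    have h1 : Nat.card (Sylow r (G ⧸ D)) * Nat.card K = 60 := by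
      have h0 : Nat.card (Sylow r (G ⧸ D)) = K.index := Sylow.card_eq_index_normalizer Q
      rw [h0, Subgroup.index_mul_card, hMc]
    have h2 : Nat.card (Sylow r (G ⧸ D)) % r = 1 % r := card_sylow_modEq_one r (G ⧸ D)
    have hdv := Q.card_dvd_index
    have hidx : (Q : Subgroup (G ⧸ D)).index = 60 / r := by
      have := (Q : Subgroup (G ⧸ D)).card_mul_index
      rw [hQc, hMc] at this
      rcases hr' with rfl | rfl <;> omega
    rw [hidx] at hdv
    by_contra hodd
    generalize hn : Nat.card (Sylow r (G ⧸ D)) = n at *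
    generalize hk : Nat.card K = k at *
    rcases hr' with rfl | rfl
    · have := Nat.le_of_dvd (by norm_num) hdv
      have hn4 : n = 4 := by interval_cases n <;> omega
      have hk15 : k = 15 := by subst hn4; omega
      -- a group of order 15 has an element of order 15
      haveI : Fact (Nat.Prime 5) := ⟨by norm_num⟩
      obtain ⟨y, hy⟩ := exists_prime_orderOf_dvd_card' (G := K) 5 (by rw [hk, hk15]; norm_num)
      have hfree := Cfsg.Agent.FGS2.Order7920.free_dvd ((zpowers y).map K.subtype) (Q : Subgroup (G ⧸ D))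
        (map_subtype_le _) (fun s hs hs1 x hx hx1 hsx => hq.comm_false hsx.eq hs1 hx1 (by
          have d3 : orderOf x ∣ 3 := by
            have := orderOf_dvd_natCard (⟨x, hx⟩ : (Q : Subgroup (G ⧸ D)))
            rwa [orderOf_mk, hQc] at this
          have d5 : orderOf s ∣ 5 := by
            obtain ⟨w, hw, rfl⟩ := hs
            rw [← hy, Subgroup.coe_subtype, orderOf_coe]
            exact orderOf_dvd_of_mem_zpowers hw
          exact Nat.Coprime.coprime_dvd_left d5 (Nat.Coprime.coprime_dvd_right d3 (by norm_num))))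
      rw [Subgroup.card_map_of_injective K.subtype_injective, Nat.card_zpowers, hy, hQc] at hfree
      norm_num at hfree
    · have := Nat.le_of_dvd (by norm_num) hdv
      interval_cases n <;> omega
  obtain ⟨w, hw⟩ := exists_prime_orderOf_dvd_card' (G := K) 2 heven
  haveI : Nontrivial (Q : Subgroup (G ⧸ D)) := Finite.one_lt_card_iff_nontrivial.1 (by rw [hQc]; exact hrp.one_lt)
  obtain ⟨⟨z, hz⟩, hz1⟩ := exists_ne (1 : (Q : Subgroup (G ⧸ D)))
  have hz1' : z ≠ 1 := fun e => hz1 (Subtype.ext e)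
  have hzo : orderOf z = r := ((Nat.dvd_prime hrp).1 (hQc ▸ (orderOf_mk z hz ▸ orderOf_dvd_natCard _))).resolve_left
    (fun e => hz1' (orderOf_eq_one_iff.1 e))
  have hw2 : (w : G ⧸ D) * (w : G ⧸ D) = 1 :=
    congrArg Subtype.val ((pow_two w).symm.trans (hw ▸ pow_orderOf_eq_one w))
  have hwi : (w : G ⧸ D)⁻¹ = (w : G ⧸ D) := inv_eq_of_mul_eq_one_right hw2
  have hw1 : (w : G ⧸ D) ≠ 1 := fun e => by
    rw [show w = 1 from Subtype.ext e, orderOf_one] at hw; omega
  have hwz : (w : G ⧸ D) * z * w = z⁻¹ := hq.inverts hr2 Q.2 hw2 hw1 (fun v hv => by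
    have := (mem_normalizer_iff.1 w.2 v).1 hv
    rwa [hwi] at this) z hz
  obtain ⟨y, hy⟩ := hπs z
  obtain ⟨u, hu⟩ := hπs (w : G ⧸ D)
  have hyo : orderOf y = r := by
    obtain ⟨m, hm⟩ : r ∣ orderOf y := by rw [← hzo, ← hy]; exact orderOf_map_dvd π y
    have := h y
    have := orderOf_pos y
    rcases m with _ | _ | m
    · omega
    · simpa using hm
    · rcases hr' with rfl | rfl <;> nlinarith
  have hodd : Odd (orderOf y) := by rw [hyo]; exact hrp.odd_of_ne_two hr2
  obtain ⟨s, hs, hsy, -⟩ := h.exists_inverting hL.isP (y := y) (u := u)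
    (fun e => hz1' (by rw [← hy, e, map_one])) hodd (by rw [normalizer_eq_top D]; trivial)
    (by rw [normalizer_eq_top D]; trivial)
    ((QuotientGroup.eq_one_iff (N := D) _).1 (by show π (u * u) = 1; rw [map_mul, hu, hw2]))
    ((QuotientGroup.eq_one_iff (N := D) _).1 (by
      show π (y * (u * y * u⁻¹)) = 1
      rw [map_mul, map_mul, map_mul, map_inv, hu, hy, hwi, hwz, mul_inv_cancel]))
  exact ⟨y, s, hyo, hs, hsy⟩

end Local

namespace Conf

variable {D : Subgroup G} (h : Spec5 G) (c : Conf D)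
include h c

/-- `|D| = 16`, `[T : D] = 4` is impossible in a simple group. -/
theorem k_two_false [IsSimpleGroup G] (hG : ¬ IsMulCommutative G) (h16 : Nat.card D = 16)
    (hr : ∀ T : Sylow 2 (normalizer (D : Set G)), (D.subgroupOf (normalizer (D : Set G))).relIndex T = 4) : False := by
  haveI : Fact (Nat.Prime 2) := ⟨Nat.prime_two⟩
  haveI : Fact (Nat.Prime 3) := ⟨Nat.prime_three⟩
  haveI : Fact (Nat.Prime 5) := ⟨by norm_num⟩
  set N := normalizer (D : Set G) with hN
  have hs := c.spec h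
  have h16' : Nat.card (D.subgroupOf N) = 16 := (c.card_eq h).trans h16
  obtain ⟨hNc, hreal⟩ := c.loc.quot_data hs h16' hr
  obtain ⟨T⟩ := (inferInstance : Nonempty (Sylow 2 N))
  set U := (T : Subgroup N).map N.subtype with hU
  have hUN : U ≤ N := map_subtype_le _
  have hUp : IsPGroup 2 U := T.2.map _
  have hTc : Nat.card (T : Subgroup N) = 64 := by
    have h1 := relIndex_mul_relIndex ⊥ (D.subgroupOf N) (T : Subgroup N) bot_le (c.loc.le T)
    rw [relIndex_bot_left, relIndex_bot_left, h16', hr T] at h1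
    omega
  have hUc : Nat.card U = 64 := by rw [hU, Subgroup.card_map_of_injective N.subtype_injective, hTc]
  have hDU : D ≤ U := fun d hd => ⟨⟨d, le_normalizer hd⟩, c.loc.le T (mem_subgroupOf.2 hd), rfl⟩
  -- at most one other elementary abelian subgroup of order 16
  have hsecond : ∀ g₁ g₂ : G, g₁ ∈ normalizer (U : Set G) → g₂ ∈ normalizer (U : Set G) → g₁ ∉ N → g₂ ∉ N →
      D.map (MulAut.conj g₁).toMonoidHom = D.map (MulAut.conj g₂).toMonoidHom := by
    intro g₁ g₂ hg₁ hg₂ hg₁N hg₂N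
    have hle : ∀ g ∈ normalizer (U : Set G), D.map (MulAut.conj g).toMonoidHom ≤ U := by
      rintro g hg _ ⟨d, hd, rfl⟩
      exact (mem_normalizer_iff.1 hg d).1 (hDU hd)
    have hne : ∀ g, g ∉ N → D.map (MulAut.conj g).toMonoidHom ≠ D := by
      intro g hgN e
      refine hgN (mem_normalizer_iff.2 fun d => ⟨fun hd => ?_, fun hd => ?_⟩)
      · have : g * d * g⁻¹ ∈ D.map (MulAut.conj g).toMonoidHom := ⟨d, hd, rfl⟩
        rwa [e] at this
      · rw [← e, mem_map_conj] at hd
        rwa [show g⁻¹ * (g * d * g⁻¹) * g = d by group] at hd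
    set A := D.map (MulAut.conj g₁).toMonoidHom
    set B := D.map (MulAut.conj g₂).toMonoidHom
    have hAN := (hle g₁ hg₁).trans hUN
    have hBN := (hle g₂ hg₂).trans hUN
    have hT : ∀ g ∈ normalizer (U : Set G), (D.map (MulAut.conj g).toMonoidHom).subgroupOf N ≤ T := by
      intro g hg x hx
      obtain ⟨w, hw, hwx⟩ := hle g hg (mem_subgroupOf.1 hx)
      rwa [← N.subtype_injective hwx]
    have hcd : ∀ g : G, Nat.card (D.map (MulAut.conj g).toMonoidHom) = 16 := fun g => by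
      rw [Subgroup.card_map_of_injective (MulEquiv.injective _), h16]
    have hne' : ∀ g, g ∉ N → D.map (MulAut.conj g).toMonoidHom ≤ N →
        (D.map (MulAut.conj g).toMonoidHom).subgroupOf N ≠ D.subgroupOf N := fun g hgN hle e =>
      hne g hgN (by
        have := congrArg (Subgroup.map N.subtype) e
        rwa [subgroupOf_map_subtype, subgroupOf_map_subtype, inf_of_le_left hle,
          inf_of_le_left le_normalizer] at this)
    have e := c.loc.second_elem hs h16' hr T (hT g₁ hg₁) (hT g₂ hg₂)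
      (fun x hx z hz => Subtype.ext (by
        obtain ⟨a, ha, e1⟩ := mem_subgroupOf.1 hx
        obtain ⟨b, hb, e2⟩ := mem_subgroupOf.1 hz
        rw [Subgroup.coe_mul, Subgroup.coe_mul, ← e1, ← e2, ← map_mul, ← map_mul, c.comm h ha hb]))
      (fun x hx => Subtype.ext (by
        obtain ⟨a, ha, e1⟩ := mem_subgroupOf.1 hx
        rw [Subgroup.coe_mul, ← e1, ← map_mul, c.sq_one h ha, map_one, OneMemClass.coe_one]))
      (by rw [Nat.card_congr (subgroupOfEquivOfLe hAN).toEquiv]; exact hcd g₁) (hne' g₁ hg₁N hAN)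
      (fun x hx => Subtype.ext (by
        obtain ⟨a, ha, e1⟩ := mem_subgroupOf.1 hx
        rw [Subgroup.coe_mul, ← e1, ← map_mul, c.sq_one h ha, map_one, OneMemClass.coe_one]))
      (by rw [Nat.card_congr (subgroupOfEquivOfLe hBN).toEquiv]; exact hcd g₂) (hne' g₂ hg₂N hBN)
    have := congrArg (Subgroup.map N.subtype) e
    rw [subgroupOf_map_subtype, subgroupOf_map_subtype, inf_of_le_left hAN, inf_of_le_left hBN] at this
    exact this.symm
  -- a product of two elements outside `N` is inside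
  have hprod : ∀ g₁ g₂ : G, g₁ ∈ normalizer (U : Set G) → g₂ ∈ normalizer (U : Set G) → g₁ ∉ N → g₂ ∉ N →
      g₁⁻¹ * g₂ ∈ N := by
    intro g₁ g₂ h1 h2 h3 h4
    have e := hsecond g₁ g₂ h1 h2 h3 h4
    refine mem_normalizer_iff.2 fun d => ⟨fun hd => ?_, fun hd => ?_⟩
    · have : g₂ * d * g₂⁻¹ ∈ D.map (MulAut.conj g₁).toMonoidHom := e.symm ▸ ⟨d, hd, rfl⟩
      rw [mem_map_conj] at this
      rwa [show g₁⁻¹ * (g₂ * d * g₂⁻¹) * g₁ = g₁⁻¹ * g₂ * d * (g₁⁻¹ * g₂)⁻¹ by group] at this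
    · have : g₁ * (g₁⁻¹ * g₂ * d * (g₁⁻¹ * g₂)⁻¹) * g₁⁻¹ ∈ D.map (MulAut.conj g₂).toMonoidHom := e ▸ ⟨_, hd, rfl⟩
      rw [mem_map_conj] at this
      rwa [show g₂⁻¹ * (g₁ * (g₁⁻¹ * g₂ * d * (g₁⁻¹ * g₂)⁻¹) * g₁⁻¹) * g₂ = d by group] at this
  -- an element of order 3 normalising `U`
  set K := normalizer ((T : Subgroup N) : Set N) with hK
  have hKc : Nat.card K = 192 := by
    have h5 : Nat.card (Sylow 2 N) = 5 := by
      rcases c.loc.index_cases hs T with e | ⟨-, e⟩
      · rw [hr T] at e; omega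
      · exact e
    have h1 := Subgroup.index_mul_card K
    have h0 : Nat.card (Sylow 2 N) = K.index := Sylow.card_eq_index_normalizer T
    rw [← h0, h5, hNc] at h1
    omega
  have hKU : ∀ x : N, x ∈ K ↔ (x : G) ∈ normalizer (U : Set G) := by
    intro x
    rw [hK, mem_normalizer_iff, mem_normalizer_iff]
    constructor
    · intro hx z
      constructor
      · rintro ⟨w, hw, rfl⟩
        exact ⟨x * w * x⁻¹, (hx w).1 hw, rfl⟩
      · rintro ⟨w, hw, e⟩
        refine ⟨x⁻¹ * w * x, (hx _).2 ?_, ?_⟩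
        · rw [show x * (x⁻¹ * w * x) * x⁻¹ = w by group]; exact hw
        · show (x : G)⁻¹ * N.subtype w * x = z
          rw [e]; group
    · intro hx z
      have h1 := hx (z : G)
      constructor
      · intro hz
        obtain ⟨w, hw, e⟩ := h1.1 ⟨z, hz, rfl⟩
        rwa [show x * z * x⁻¹ = w from N.subtype_injective e.symm]
      · intro hz
        obtain ⟨w, hw, e⟩ := h1.2 ⟨x * z * x⁻¹, hz, rfl⟩
        rwa [show z = w from N.subtype_injective e.symm]
  have hUmax : normalizer (U : Set G) ≤ N := by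
    by_contra hnle
    obtain ⟨g, hg, hgN⟩ := SetLike.not_le_iff_exists.1 hnle
    obtain ⟨P⟩ := (inferInstance : Nonempty (Sylow 3 K))
    have hPc : Nat.card (P : Subgroup K) = 3 := by
      rw [P.card_eq_multiplicity, hKc]
      exact pow_factorization_of_not_sq (by norm_num) (by norm_num) (by norm_num) (by norm_num)
    haveI : IsCyclic (P : Subgroup K) := isCyclic_of_prime_card hPc
    obtain ⟨y₀, hy₀⟩ := IsCyclic.exists_ofOrder_eq_natCard (α := (P : Subgroup K))
    rw [hPc] at hy₀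
    set y : G := (((y₀ : K) : N) : G) with hy
    have hyo : orderOf y = 3 := by rw [hy, orderOf_coe, orderOf_coe, orderOf_coe, hy₀]
    have hyU : y ∈ normalizer (U : Set G) := (hKU _).1 (y₀ : K).2
    have hyN : y ∈ N := ((y₀ : K) : N).2
    -- `g y g⁻¹ ∈ N`
    have hgyN : g * y * g⁻¹ ∈ N := by
      by_contra hcon
      have hgy : g * y⁻¹ ∉ N := fun e => hgN (by simpa using N.mul_mem e hyN)
      have := hprod (g * y⁻¹) g (mul_mem hg (inv_mem hyU)) hg hgy hgN
      have h2 := hprod (g * y * g⁻¹) g (mul_mem (mul_mem hg hyU) (inv_mem hg)) hg hcon hgN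
      have hg2 := hprod g⁻¹ g (inv_mem hg) hg (fun e => hgN (by simpa using N.inv_mem e)) hgN
      rw [inv_inv] at hg2
      exact hgN (by
        have e3 : (g * y * g⁻¹)⁻¹ * g = g * y⁻¹ * g⁻¹ * g := by group
        rw [e3, mul_assoc (g * y⁻¹), inv_mul_cancel, mul_one] at h2
        exact absurd h2 hgy)
    obtain ⟨P₂, hP₂⟩ := (IsPGroup.of_card (p := 3) (n := 1) (by
      rw [Nat.card_zpowers, ← orderOf_coe, ← orderOf_coe, pow_one]
      show orderOf (g * y * g⁻¹) = 3
      rw [conj_ord, hyo]) :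
      IsPGroup 3 (zpowers (⟨⟨g * y * g⁻¹, hgyN⟩, (hKU _).2 (mul_mem (mul_mem hg hyU) (inv_mem hg))⟩ : K))).exists_le_sylow
    obtain ⟨k, hk⟩ := MulAction.exists_smul_eq K P P₂
    have hmem := hP₂ (mem_zpowers _)
    rw [← hk, Sylow.coe_subgroup_smul] at hmem
    obtain ⟨z, hz, hze⟩ := hmem
    set kk : G := ((k : N) : G) with hkk
    have hkU : kk ∈ normalizer (U : Set G) := (hKU _).1 k.2
    have hkN : kk ∈ N := (k : N).2
    have hze' : kk * ((z : N) : G) * kk⁻¹ = g * y * g⁻¹ := congrArg (fun w : K => ((w : N) : G)) hze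
    obtain ⟨g₁, hg₁⟩ : ∃ x, x = kk⁻¹ * g := ⟨_, rfl⟩
    have hg₁N : g₁ ∉ N := fun e => hgN (by simpa [hg₁] using N.mul_mem hkN e)
    have hg₁U : g₁ ∈ normalizer (U : Set G) := hg₁ ▸ mul_mem (inv_mem hkU) hg
    have hg₁y : g₁ * y * g₁⁻¹ = ((z : N) : G) := by
      rw [hg₁, show kk⁻¹ * g * y * (kk⁻¹ * g)⁻¹ = kk⁻¹ * (g * y * g⁻¹) * kk by group, ← hze']; group
    have hg₁2 : g₁ * g₁ ∈ N := by
      have := hprod g₁⁻¹ g₁ (inv_mem hg₁U) hg₁U (fun e => hg₁N (by simpa using N.inv_mem e)) hg₁N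
      rwa [inv_inv] at this
    have hzy : ((z : N) : G) = y ∨ ((z : N) : G) = y⁻¹ := by
      have hzo : orderOf (⟨z, hz⟩ : (P : Subgroup K)) = 3 := by
        rw [← orderOf_coe, ← orderOf_coe, ← orderOf_coe]
        show orderOf ((z : N) : G) = 3
        rw [← hg₁y, conj_ord, hyo]
      obtain ⟨i, hi⟩ := mem_powers_of_prime_card (p := 3) hPc (g := y₀) (g' := ⟨z, hz⟩)
        (fun e => by rw [e, orderOf_one] at hy₀; omega)
      simp only at hi
      rw [← pow_mod_orderOf, hy₀] at hi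
      have h3 : i % 3 < 3 := Nat.mod_lt _ (by norm_num)
      have hcast : ((z : N) : G) = y ^ (i % 3) := by
        rw [hy]
        have := congrArg (fun w : (P : Subgroup K) => (((w : K) : N) : G)) hi
        simpa using this.symm
      interval_cases e : i % 3
      · exfalso
        rw [← orderOf_coe, ← orderOf_coe, ← orderOf_coe] at hzo
        simp only at hzo
        rw [hcast, pow_zero, orderOf_one] at hzo
        omega
      · exact Or.inl (by simpa using hcast)
      · refine Or.inr (hcast.trans (eq_inv_of_mul_eq_one_left ?_))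
        rw [← pow_succ, show 2 + 1 = orderOf y by rw [hyo], pow_orderOf_eq_one]
    have hy1 : y ≠ 1 := fun e => by rw [e, orderOf_one] at hyo; omega
    have hC3 : IsPGroup 3 (centralizer ({y} : Set G)) := h.cent_isPGroup ⟨1, by rw [hyo, pow_one]⟩ hy1
    -- an odd power outside `N` inverting `y`
    rcases hzy with e | e
    · rw [e, mul_inv_eq_iff_eq_mul] at hg₁y
      obtain ⟨i, hi⟩ := mem_pgroup_order hC3 (mem_centralizer_singleton_iff.2 hg₁y : g₁ ∈ _)
      obtain ⟨j, hj⟩ : Odd (orderOf g₁) := hi ▸ (by decide : Odd 3).pow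
      apply hg₁N
      have e1 : (g₁ * g₁) ^ (j + 1) = g₁ := by
        rw [← pow_two, ← pow_mul, show 2 * (j + 1) = orderOf g₁ + 1 by omega, pow_succ, pow_orderOf_eq_one, one_mul]
      rw [← e1]; exact pow_mem hg₁2 _
    · rw [e] at hg₁y
      have hyy : g₁ * g₁ ∈ centralizer ({y} : Set G) := by
        rw [mem_centralizer_singleton_iff, ← mul_inv_eq_iff_eq_mul]
        calc g₁ * g₁ * y * (g₁ * g₁)⁻¹ = g₁ * (g₁ * y * g₁⁻¹) * g₁⁻¹ := by group
          _ = (g₁ * y * g₁⁻¹)⁻¹ := by rw [hg₁y, ← conj_inv, hg₁y]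
          _ = y := by rw [hg₁y, inv_inv]
      obtain ⟨i, hi⟩ := mem_pgroup_order hC3 hyy
      obtain ⟨j, hj⟩ : Odd (orderOf (g₁ * g₁)) := hi ▸ (by decide : Odd 3).pow
      set g₂ := (g₁ * g₁) ^ j * g₁ with hg₂
      have hg₂N : g₂ ∉ N := fun e' => hg₁N (by
        have := N.mul_mem (N.inv_mem (pow_mem hg₁2 j)) e'
        rwa [hg₂, inv_mul_cancel_left] at this)
      have hg₂U : g₂ ∈ normalizer (U : Set G) := mul_mem (pow_mem (mul_mem hg₁U hg₁U) j) hg₁U
      have hcom : g₁ * (g₁ * g₁) ^ j = (g₁ * g₁) ^ j * g₁ :=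
        ((Commute.refl g₁).mul_right (Commute.refl g₁)).pow_right j
      have hg₂2 : g₂ * g₂ = 1 := by
        have e2 : g₂ = g₁ ^ (2 * j + 1) := by rw [hg₂, pow_succ, pow_mul, pow_two]
        rw [e2, ← (Commute.refl g₁).mul_pow, ← hj, pow_orderOf_eq_one]
      have hg₂y : g₂ * y * g₂ = y⁻¹ := by
        have hc := mem_centralizer_singleton_iff.1 (pow_mem hyy j)
        calc g₂ * y * g₂ = (g₁ * g₁) ^ j * (g₁ * y * g₁⁻¹) * ((g₁ * g₁) ^ j)⁻¹ * (g₂ * g₂) := by rw [hg₂]; group
          _ = y⁻¹ := by rw [hg₁y, hg₂2, mul_one, (show Commute ((g₁ * g₁) ^ j) y from hc).inv_right.eq,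
              mul_inv_cancel_right]
      have hsup : IsPGroup 2 (zpowers g₂ ⊔ U : Subgroup G) :=
        IsPGroup.to_sup_of_normal_right' (IsPGroup.of_card (n := 1) (by
          rw [Nat.card_zpowers, orderOf_eq_prime (by rw [pow_two, hg₂2]) (fun e' => hg₂N (by rw [e']; exact one_mem _)), pow_one]))
          hUp (zpowers_le.2 hg₂U)
      have hexp := sq_eq_one U hUp y g₂ 3 (by decide) (hyo ▸ pow_orderOf_eq_one y) hg₂2 hg₂y hyU hg₂U
        (h.fpf hUp hy1 (by rw [hyo]; decide))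
        (fun f hf => h.pow_four hsup (mul_mem (mem_sup_left (mem_zpowers g₂)) (mem_sup_right hf)))
        (fun f hf => h.pow_four hUp hf)
      obtain ⟨u, hu, huD, hu2⟩ := c.loc.exists_invol hs T
      have h4 := c.loc.cent_four hs h16' hr huD hu2
      rw [inf_of_le_left, h16'] at h4
      · omega
      intro f hf
      rw [mem_centralizer_singleton_iff]
      apply Subtype.ext
      have hfU : ((f : N) : G) ∈ U := ⟨f, c.loc.le T hf, rfl⟩
      have huU : ((u : N) : G) ∈ U := ⟨u, hu, rfl⟩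
      have h1 := hexp _ (mul_mem hfU huU)
      rw [mul_eq_one_iff_eq_inv, mul_inv_rev, inv_eq_of_mul_eq_one_right (hexp _ hfU),
        inv_eq_of_mul_eq_one_right (hexp _ huU)] at h1
      exact h1
  -- `U` is a Sylow subgroup of `G`
  have hG2 : (Nat.card G).factorization 2 = 6 := by
    obtain ⟨R, hR⟩ := hUp.exists_le_sylow
    have hRU : (R : Subgroup G) = U := by
      by_contra hne
      obtain ⟨x, hxR, hxn, hxU⟩ := exists_mem_normalizer_notMem R.2 hR (fun e => hne e.symm)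
      have hle : (R : Subgroup G).subgroupOf N = T :=
        T.3 (R.2.comap_of_injective _ N.subtype_injective) (fun z hz => mem_subgroupOf.2 (hR ⟨z, hz, rfl⟩))
      exact hxU ⟨⟨x, hUmax hxn⟩, by rw [← hle]; exact mem_subgroupOf.2 hxR, rfl⟩
    have h1 := R.card_eq_multiplicity
    rw [hRU, hUc] at h1
    exact (Nat.pow_right_injective le_rfl (show (2 : ℕ) ^ 6 = 2 ^ _ by rw [← h1])).symm
  have hGc : Nat.card G = 2 ^ 6 * 3 ^ (Nat.card G).factorization 3 * 5 ^ (Nat.card G).factorization 5 := by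
    refine Nat.eq_of_factorization_eq Nat.card_pos.ne' (by positivity) fun p => ?_
    rw [Nat.factorization_mul (by positivity) (by positivity), Nat.factorization_mul (by positivity) (by positivity),
      Nat.prime_two.factorization_pow, Nat.prime_three.factorization_pow, (by norm_num : Nat.Prime 5).factorization_pow]
    simp only [Finsupp.add_apply, Finsupp.single_apply]
    by_cases hp : p.Prime ∧ p ∣ Nat.card G
    · rcases h.prime_cases hp.1 hp.2 with rfl | rfl | rfl <;> simp [hG2]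
    · have h0 : (Nat.card G).factorization p = 0 := by
        rcases not_and_or.1 hp with hp' | hp'
        · exact Nat.factorization_eq_zero_of_not_prime _ hp'
        · exact Nat.factorization_eq_zero_of_not_dvd hp'
      rw [h0]
      have h2 : 2 ≠ p := fun e => by subst e; rw [hG2] at h0; omega
      rw [if_neg h2]
      by_cases h3 : 3 = p
      · subst h3; simp [h0]
      by_cases h5 : 5 = p
      · subst h5; simp [h0]
      simp [h3, h5]
  obtain ⟨y3, s3, hy3, hs3, hsy3⟩ := hreal 3 (Or.inl rfl)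
  obtain ⟨y5, s5, hy5, hs5, hsy5⟩ := hreal 5 (Or.inr rfl)
  obtain ⟨i, j, N₃, hi, hj, hie, hdiv3, hN3, hc3⟩ := h.real_count (r := 3) (by norm_num) (x := (y3 : G)) (s := (s3 : G))
    (by rw [orderOf_coe, hy3]) (congrArg Subtype.val hs3) (congrArg Subtype.val hsy3)
  obtain ⟨l, k, N₅, hl, hk, hle, hdiv5, hN5, hc5⟩ := h.real_count (r := 5) (by norm_num) (x := (y5 : G)) (s := (s5 : G))
    (by rw [orderOf_coe, hy5]) (congrArg Subtype.val hs5) (congrArg Subtype.val hsy5)
  rw [← hie, ← hle] at hGc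
  have h26 : ∀ a : ℕ, 2 ^ a ∣ Nat.card G → a ≤ 6 := fun a ha => by
    rw [← hG2]; exact (Nat.prime_two.pow_dvd_iff_le_factorization Nat.card_pos.ne').1 ha
  have hj6 : j ≤ 6 := h26 j ⟨N₃ * 3 ^ i, by rw [← hN3]; ring⟩
  have hk6 : k ≤ 6 := h26 k ⟨N₅ * 5 ^ l, by rw [← hN5]; ring⟩
  have e3 : N₃ = 2 ^ (6 - j) * 5 ^ l := by
    have h1 : N₃ * (3 ^ i * 2 ^ j) = (2 ^ (6 - j) * 5 ^ l) * (3 ^ i * 2 ^ j) := by
      rw [hN3, hGc, show 2 ^ 6 = 2 ^ (6 - j) * 2 ^ j by rw [← pow_add, Nat.sub_add_cancel hj6]]; ring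
    exact Nat.eq_of_mul_eq_mul_right (by positivity) h1
  have e5 : N₅ = 2 ^ (6 - k) * 3 ^ i := by
    have h1 : N₅ * (5 ^ l * 2 ^ k) = (2 ^ (6 - k) * 3 ^ i) * (5 ^ l * 2 ^ k) := by
      rw [hN5, hGc, show 2 ^ 6 = 2 ^ (6 - k) * 2 ^ k by rw [← pow_add, Nat.sub_add_cancel hk6]]; ring
    exact Nat.eq_of_mul_eq_mul_right (by positivity) h1
  obtain ⟨rfl, rfl⟩ := enumeration hi hl hj hk hj6 hk6 hdiv3 hdiv5 (e3 ▸ hc3) (e5 ▸ hc5)
  have hNtop : N = ⊤ := Subgroup.eq_top_of_card_eq N (by rw [hNc, hGc]; norm_num)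
  exact c.ne (h.two_ne_top hG D (c.isP h) (Subgroup.normalizer_eq_top_iff.1 hNtop))

end Conf

end Cfsg.Agent.SmallOrder.Spec5
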