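import Cfsg.Agent.SmallOrder.Spec5.Basic

/-!
# The structure of a group with Sylow 2-subgroups meeting in a normal 2-subgroup, element orders at most five
-/

set_option autoImplicit false
set_option linter.unusedSectionVars false

namespace Cfsg.Agent.SmallOrder.Spec5

open Subgroup

/-- Sylow 2-subgroups meet pairwise exactly in the non-trivial normal subgroup `D`. -/
structure Local {H : Type*} [Group H] (D : Subgroup H) : Prop where
  normal : D.Normal
  isP : IsPGroup 2 D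
  ne : D ≠ ⊥
  le : ∀ T : Sylow 2 H, D ≤ T
  neT : ∀ T : Sylow 2 H, D ≠ T
  inter : ∀ T T' : Sylow 2 H, T' ≠ T → (T : Subgroup H) ⊓ T' ≤ D
  two : ∀ T : Sylow 2 H, ∃ T' : Sylow 2 H, T' ≠ T

variable {H : Type*} [Group H] [Finite H] {D : Subgroup H}

namespace Local

variable (h : Spec5 H) (hL : Local D)
include h hL

theorem core (P : Subgroup H) [P.Normal] (hP : IsPGroup 2 P) : P ≤ D := by
  obtain ⟨T⟩ := (inferInstance : Nonempty (Sylow 2 H))
  obtain ⟨T', hT'⟩ := hL.two T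
  exact (le_inf (hP.le_sylow_of_normal T) (hP.le_sylow_of_normal T')).trans (hL.inter T T' hT')

theorem inverted {u : H} (huD : u ∉ D) (hu2 : u * u ∈ D) :
    ∃ y s : H, (orderOf y = 3 ∨ orderOf y = 5) ∧ s * s = 1 ∧ s * y * s = y⁻¹ ∧ ∃ v ∈ D, s = v * u := by
  haveI := hL.normal
  obtain ⟨y, -, s, -, r⟩ := h.exists_inverted hL.isP (H := ⊤) le_top (fun x _ => by
    rw [normalizer_eq_top D]; trivial) (fun P _ hP hn => by
      haveI : P.Normal := ⟨fun z hz x => hn x (mem_top x) z hz⟩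
      exact hL.core h P hP) (mem_top u) huD hu2
  exact ⟨y, s, r⟩

theorem pow_four' {x : H} (T : Sylow 2 H) (hx : x ∈ (T : Subgroup H)) : x ^ 4 = 1 := h.pow_four T.2 hx

theorem exists_invol (T : Sylow 2 H) : ∃ u ∈ (T : Subgroup H), u ∉ D ∧ u * u ∈ D := by
  obtain ⟨x, hx, hxD⟩ : ∃ x ∈ (T : Subgroup H), x ∉ D := by
    by_contra hcon
    push Not at hcon
    exact hL.neT T (le_antisymm (hL.le T) hcon)
  by_cases h2 : x * x ∈ D
  · exact ⟨x, hx, hxD, h2⟩
  · refine ⟨x * x, mul_mem hx hx, h2, ?_⟩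
    rw [show x * x * (x * x) = x ^ 4 by simp [pow_succ, mul_assoc], hL.pow_four' h T hx]
    exact D.one_mem

theorem sq_one : ∀ f ∈ D, f * f = 1 := by
  haveI : Fact (Nat.Prime 2) := ⟨Nat.prime_two⟩
  haveI := hL.normal
  obtain ⟨T⟩ := (inferInstance : Nonempty (Sylow 2 H))
  obtain ⟨u, -, huD, hu2⟩ := hL.exists_invol h T
  obtain ⟨y, s, hy, hs, hsy, v, hv, hsv⟩ := hL.inverted h huD hu2
  have hsD : s ∉ D := fun e => huD (by simpa [hsv] using D.mul_mem (D.inv_mem hv) e)
  have hsp : IsPGroup 2 (zpowers s) := IsPGroup.of_card (n := 1) (by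
    rw [Nat.card_zpowers, orderOf_eq_prime (by rw [pow_two, hs]) (fun e : s = 1 => hsD (e ▸ D.one_mem)), pow_one])
  obtain ⟨T', hT'⟩ := hsp.exists_le_sylow
  have hodd : Odd (orderOf y) := by rcases hy with e | e <;> rw [e] <;> decide
  exact sq_eq_one D hL.isP y s (orderOf y) hodd (pow_orderOf_eq_one y) hs hsy (by rw [normalizer_eq_top D]; trivial)
    (by rw [normalizer_eq_top D]; trivial)
    (fun f hf e => h.fpf hL.isP (fun e1 => by rw [e1, orderOf_one] at hy; omega) hodd f hf e)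
    (fun f hf => hL.pow_four' h T' (mul_mem (hT' (mem_zpowers s)) (hL.le T' hf)))
    (fun f hf => hL.pow_four' h T' (hL.le T' hf))

theorem comm {a b : H} (ha : a ∈ D) (hb : b ∈ D) : a * b = b * a := by
  have h1 := hL.sq_one h _ (D.mul_mem ha hb)
  rw [mul_eq_one_iff_eq_inv, mul_inv_rev, inv_eq_of_mul_eq_one_right (hL.sq_one h a ha),
    inv_eq_of_mul_eq_one_right (hL.sq_one h b hb)] at h1
  exact h1

/-- `[f, u]` as an endomorphism of `D`. -/
theorem exists_psi (c : H) : ∃ ψ : D →* D, ∀ f : D, (ψ f : H) = c * f * c⁻¹ * f := by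
  haveI := hL.normal
  refine ⟨{ toFun := fun f => ⟨c * f * c⁻¹ * f, D.mul_mem (hL.normal.conj_mem f f.2 c) f.2⟩
            map_one' := Subtype.ext (by simp)
            map_mul' := fun a b => Subtype.ext ?_ }, fun f => rfl⟩
  show c * ((a : H) * b) * c⁻¹ * ((a : H) * b) = c * a * c⁻¹ * a * (c * b * c⁻¹ * b)
  calc c * ((a : H) * b) * c⁻¹ * ((a : H) * b) = c * a * c⁻¹ * ((c * b * c⁻¹) * a) * b := by group
    _ = c * a * c⁻¹ * ((a : H) * (c * b * c⁻¹)) * b := by rw [hL.comm h (hL.normal.conj_mem b b.2 c) a.2]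
    _ = _ := by group

theorem psi_ker {c : H} {ψ : D →* D} (hψ : ∀ f : D, (ψ f : H) = c * f * c⁻¹ * f) :
    ψ.ker.map D.subtype = D ⊓ centralizer ({c} : Set H) := by
  ext x
  have key : ∀ f : D, ψ f = 1 ↔ (f : H) * c = c * f := fun f => by
    rw [← Subtype.coe_inj, hψ, OneMemClass.coe_one, mul_eq_one_iff_eq_inv,
      inv_eq_of_mul_eq_one_right (hL.sq_one h _ f.2), mul_inv_eq_iff_eq_mul, eq_comm]
  constructor
  · rintro ⟨f, hf, rfl⟩
    exact ⟨f.2, mem_centralizer_singleton_iff.2 ((key f).1 hf)⟩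
  · rintro ⟨hx, hxc⟩
    exact ⟨⟨x, hx⟩, (key ⟨x, hx⟩).2 (mem_centralizer_singleton_iff.1 hxc), rfl⟩

theorem cent_card {u : H} (huD : u ∉ D) (hu2 : u * u ∈ D) :
    Nat.card (D ⊓ centralizer ({u} : Set H) : Subgroup H) ^ 2 = Nat.card D := by
  haveI := hL.normal
  obtain ⟨y, s, hy, hs, hsy, v, hv, hsv⟩ := hL.inverted h huD hu2
  have hC : (D ⊓ centralizer ({u} : Set H) : Subgroup H) = D ⊓ centralizer ({s} : Set H) := by
    ext f
    simp only [Subgroup.mem_inf, mem_centralizer_singleton_iff, and_congr_right_iff]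
    intro hf
    rw [hsv]
    constructor <;> intro e
    · rw [← mul_assoc, hL.comm h hf hv, mul_assoc, e, mul_assoc]
    · rw [← mul_assoc, hL.comm h hf hv, mul_assoc, mul_assoc] at e
      exact mul_left_cancel e
  rw [hC, pow_two]
  set C := D ⊓ centralizer ({s} : Set H) with hCdef
  have hsi : s⁻¹ = s := inv_eq_of_mul_eq_one_right hs
  have hodd : Odd (orderOf y) := by rcases hy with e | e <;> rw [e] <;> decide
  refine le_antisymm ?_ ?_
  · obtain ⟨r, hr⟩ := hodd
    set m := r + 1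
    have hm : y ^ m * y ^ m = y := by
      rw [← pow_add, show m + m = orderOf y + 1 by omega, pow_succ, pow_orderOf_eq_one, one_mul]
    have hsm : s * y ^ m * s = (y ^ m)⁻¹ := by
      have := conj_pow (a := s) (b := y) (i := m)
      rw [hsi, hsy, inv_pow] at this
      exact this.symm
    have e : (y ^ m)⁻¹ * s * y ^ m = s * y := by
      rw [← hsm, show s * y ^ m * s * s * y ^ m = s * y ^ m * (s * s) * y ^ m by group, hs, mul_one, mul_assoc, hm]
    let f : C × C → D := fun p =>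
      ⟨(p.1 : H) * ((y ^ m)⁻¹ * (p.2 : H) * y ^ m), D.mul_mem p.1.2.1 (by
        have := hL.normal.conj_mem (p.2 : H) p.2.2.1 (y ^ m)⁻¹
        rwa [inv_inv] at this)⟩
    rw [← Nat.card_prod]
    refine Nat.card_le_card_of_injective f ?_
    rintro ⟨a, b⟩ ⟨a', b'⟩ e'
    have e1 : (a : H) * ((y ^ m)⁻¹ * (b : H) * y ^ m) = (a' : H) * ((y ^ m)⁻¹ * (b' : H) * y ^ m) :=
      congrArg Subtype.val e'
    set w := (a' : H)⁻¹ * a with hw
    have hwb : w = (y ^ m)⁻¹ * ((b' : H) * (b : H)⁻¹) * y ^ m := by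
      rw [hw, inv_mul_eq_iff_eq_mul, show (a : H) = (a : H) * ((y ^ m)⁻¹ * (b : H) * y ^ m) *
        ((y ^ m)⁻¹ * (b : H) * y ^ m)⁻¹ by group, e1]
      group
    have hwC : w ∈ C := C.mul_mem (C.inv_mem a'.2) a.2
    have hbC : (b' : H) * (b : H)⁻¹ ∈ C := C.mul_mem b'.2 (C.inv_mem b.2)
    have hwsy : w * (s * y) = (s * y) * w := by
      rw [← e, hwb]
      have hb := mem_centralizer_singleton_iff.1 hbC.2
      calc (y ^ m)⁻¹ * ((b' : H) * (b : H)⁻¹) * y ^ m * ((y ^ m)⁻¹ * s * y ^ m)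
          = (y ^ m)⁻¹ * ((b' : H) * (b : H)⁻¹ * s) * y ^ m := by group
        _ = (y ^ m)⁻¹ * (s * ((b' : H) * (b : H)⁻¹)) * y ^ m := by rw [hb]
        _ = _ := by group
    have hwy : w * y = y * w := by
      have hws := mem_centralizer_singleton_iff.1 hwC.2
      calc w * y = s * (s * w) * y := by rw [← mul_assoc s s, hs, one_mul]
        _ = s * (w * (s * y)) := by rw [← hws]; group
        _ = (s * s) * y * w := by rw [hwsy]; group
        _ = y * w := by rw [hs, one_mul]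
    have hw1 : w = 1 := h.fpf hL.isP (fun e1 => by rw [e1, orderOf_one] at hy; omega) ⟨r, hr⟩ w hwC.1 hwy
    have ha : a' = a := Subtype.ext (inv_mul_eq_one.1 hw1)
    have hb : b' = b := by
      rw [hwb] at hw1
      have : (b' : H) * (b : H)⁻¹ = 1 := by
        calc (b' : H) * (b : H)⁻¹ = y ^ m * ((y ^ m)⁻¹ * ((b' : H) * (b : H)⁻¹) * y ^ m) * (y ^ m)⁻¹ := by group
          _ = 1 := by rw [hw1, mul_one, mul_inv_cancel]
      exact Subtype.ext (mul_inv_eq_one.1 this)
    rw [ha, hb]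
  · obtain ⟨ψ, hψ⟩ := hL.exists_psi h s
    have h1 : Nat.card ψ.ker * Nat.card ψ.range = Nat.card D := by
      rw [← Subgroup.index_ker, ψ.ker.card_mul_index]
    have h2 : Nat.card ψ.ker = Nat.card C := by
      rw [← Subgroup.card_map_of_injective D.subtype_injective, hL.psi_ker h hψ]
    have h3 : Nat.card ψ.range ≤ Nat.card C := by
      rw [← Subgroup.card_map_of_injective D.subtype_injective]
      refine Subgroup.card_le_of_le ?_
      rintro _ ⟨_, ⟨f, rfl⟩, rfl⟩
      refine ⟨(ψ f).2, mem_centralizer_singleton_iff.2 ?_⟩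
      show (ψ f : H) * s = s * (ψ f : H)
      rw [hψ, hsi]
      calc s * f * s * f * s = s * ((f : H) * (s * f * s)) := by group
        _ = s * (s * f * s * f) := by
          have hfs : s * (f : H) * s ∈ D := by
            have := hL.normal.conj_mem f f.2 s
            rwa [hsi] at this
          rw [hL.comm h f.2 hfs]
    rw [← h1, h2]
    exact Nat.mul_le_mul_left _ h3

/-- The square root of `|D|`. -/
theorem exists_root : ∃ q, 2 ≤ q ∧ q * q = Nat.card D ∧
    ∀ u, u ∉ D → u * u ∈ D → Nat.card (D ⊓ centralizer ({u} : Set H) : Subgroup H) = q := by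
  obtain ⟨T⟩ := (inferInstance : Nonempty (Sylow 2 H))
  obtain ⟨u, -, huD, hu2⟩ := hL.exists_invol h T
  have h1 := hL.cent_card h huD hu2
  refine ⟨Nat.card (D ⊓ centralizer ({u} : Set H) : Subgroup H), ?_, by rw [← h1, pow_two], fun w hwD hw2 => ?_⟩
  · by_contra hlt
    have h2 : Nat.card (D ⊓ centralizer ({u} : Set H) : Subgroup H) = 1 := by
      have := Nat.card_pos (α := (D ⊓ centralizer ({u} : Set H) : Subgroup H)); omega
    rw [h2, one_pow] at h1
    exact hL.ne (Subgroup.card_eq_one.1 h1.symm)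
  · exact Nat.pow_left_injective two_ne_zero ((hL.cent_card h hwD hw2).trans h1.symm)

theorem index_cases (T : Sylow 2 H) : D.relIndex T = 2 ∨ (D.relIndex T = 4 ∧ Nat.card (Sylow 2 H) = 5) := by
  haveI : Fact (Nat.Prime 2) := ⟨Nat.prime_two⟩
  haveI := hL.normal
  have hmod := sylow_mod D T hL.le (fun Q hQ => hL.inter T Q hQ)
  have hodd : Odd (Nat.card (Sylow 2 H)) := Nat.odd_iff.2 (card_sylow_modEq_one 2 H)
  have h15 := h.dvd_fifteen hL.isP hL.ne (H := ⊤) (fun x _ => by rw [normalizer_eq_top D]; trivial)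
    (d := Nat.card (Sylow 2 H)) (by rw [Subgroup.card_top]; exact T.card_dvd_index.trans (Subgroup.index_dvd_card _)) hodd
  have hne1 : D.relIndex T ≠ 1 := fun e => hL.neT T (le_antisymm (hL.le T) (relIndex_eq_one.1 e))
  obtain ⟨T', hT'⟩ := hL.two T
  have h2 : 2 ≤ Nat.card (Sylow 2 H) := by
    haveI : Nontrivial (Sylow 2 H) := ⟨⟨T', T, hT'⟩⟩
    exact Finite.one_lt_card
  obtain ⟨i, hi⟩ : ∃ i, D.relIndex T = 2 ^ i := by
    obtain ⟨j, hj⟩ := IsPGroup.iff_card.1 T.2
    obtain ⟨i, -, hi⟩ := (Nat.dvd_prime_pow Nat.prime_two).1 (hj ▸ (D.relIndex_dvd_card (T : Subgroup H)))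
    exact ⟨i, hi⟩
  have hn : Nat.card (Sylow 2 H) = 3 ∨ Nat.card (Sylow 2 H) = 5 ∨ Nat.card (Sylow 2 H) = 15 := by
    have := Nat.le_of_dvd (by norm_num) h15
    generalize Nat.card (Sylow 2 H) = n at *
    interval_cases n <;> simp_all (config := { decide := true })
  rw [hi] at hmod hne1 ⊢
  have hi3 : i ≤ 3 := by
    by_contra hi4
    have h16 : 2 ^ 4 ≤ 2 ^ i := Nat.pow_le_pow_right two_pos (by omega)
    have := Nat.le_of_dvd (by omega) hmod
    omega
  rcases hn with e | e | e <;> rw [e] at hmod ⊢ <;> interval_cases i <;> simp_all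

theorem sq_mem (T : Sylow 2 H) {c : H} (hc : c ∈ (T : Subgroup H)) : c * c ∈ D := by
  haveI := hL.normal
  by_contra huD
  set u := c * c with hu
  have hu2 : u * u = 1 := by
    rw [hu, show c * c * (c * c) = c ^ 4 by simp [pow_succ, mul_assoc], hL.pow_four' h T hc]
  obtain ⟨ψ, hψ⟩ := hL.exists_psi h c
  obtain ⟨φ, hφ⟩ := hL.exists_psi h u
  have hui : u⁻¹ = u := inv_eq_of_mul_eq_one_right hu2
  have hψ2 : ∀ f, ψ (ψ f) = φ f := fun f => Subtype.ext (by
    rw [hψ, hψ, hφ, hu]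
    have hf := hL.sq_one h _ (hL.normal.conj_mem (f : H) f.2 c)
    calc c * (c * f * c⁻¹ * f) * c⁻¹ * (c * f * c⁻¹ * f)
        = c * c * f * (c * c)⁻¹ * ((c * f * c⁻¹) * (c * f * c⁻¹)) * f := by group
      _ = _ := by rw [hf, mul_one])
  have hcube : ∀ f, ψ (φ f) = 1 := fun f => Subtype.ext (by
    rw [hψ, hφ, OneMemClass.coe_one]
    have h4 := hL.pow_four' h T (mul_mem hc (hL.le T f.2))
    have h4c := hL.pow_four' h T hc
    have hcf : (c * (f : H)) ^ 4 =
        (c * f * c⁻¹) * (u * f * u⁻¹) * ((u * c) * f * (u * c)⁻¹) * c ^ 4 * f := by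
      simp only [hu, pow_succ, pow_zero, one_mul]; group
    rw [hcf, h4c, mul_one] at h4
    have m1 := hL.normal.conj_mem (f : H) f.2 c
    have m2 := hL.normal.conj_mem (f : H) f.2 u
    have m3 := hL.normal.conj_mem (f : H) f.2 (u * c)
    calc c * (u * f * u⁻¹ * f) * c⁻¹ * (u * f * u⁻¹ * f)
        = ((u * c) * f * (u * c)⁻¹) * (c * f * c⁻¹) * (u * f * u⁻¹) * f := by rw [hu]; group
      _ = (c * f * c⁻¹) * ((u * c) * f * (u * c)⁻¹) * (u * f * u⁻¹) * f := by rw [hL.comm h m3 m1]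
      _ = (c * f * c⁻¹) * (u * f * u⁻¹) * ((u * c) * f * (u * c)⁻¹) * f := by
          rw [mul_assoc (c * f * c⁻¹), hL.comm h m3 m2, ← mul_assoc]
      _ = 1 := h4)
  have hu2D : u * u ∈ D := hu2 ▸ D.one_mem
  have hker : ∀ g, φ g = 1 → ψ g = 1 := by
    have h1 : φ.range ≤ φ.ker := by
      rintro _ ⟨f, rfl⟩
      show φ (φ f) = 1
      rw [← hψ2 (φ f), hcube, map_one]
    have h2 : φ.range = φ.ker := by
      refine Subgroup.eq_of_le_of_card_ge h1 ?_
      have hc1 := hL.cent_card h huD hu2D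
      rw [← hL.psi_ker h hφ, Subgroup.card_map_of_injective D.subtype_injective] at hc1
      have hc2 : Nat.card φ.ker * Nat.card φ.range = Nat.card D := by
        rw [← Subgroup.index_ker, φ.ker.card_mul_index]
      rw [← hc2, pow_two] at hc1
      exact (Nat.eq_of_mul_eq_mul_left Nat.card_pos hc1).le
    intro g hg
    obtain ⟨f, rfl⟩ : g ∈ φ.range := h2 ▸ hg
    exact hcube f
  have hall : ∀ f, φ f = 1 := fun f => by
    have h1 : φ (ψ f) = 1 := by
      rw [← hψ2, hψ2 f]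
      exact hcube f
    rw [← hψ2]
    exact hker _ h1
  have hc1 := hL.cent_card h huD hu2D
  rw [← hL.psi_ker h hφ, Subgroup.card_map_of_injective D.subtype_injective,
    show φ.ker = ⊤ from (eq_top_iff' _).2 hall, Subgroup.card_top] at hc1
  have h1 : Nat.card D = 1 := by
    have := Nat.card_pos (α := D)
    nlinarith
  exact hL.ne (Subgroup.card_eq_one.1 h1)

/-- An elementary abelian subgroup of a Sylow subgroup, not inside `D`. -/
theorem elem_bound (T : Sylow 2 H) {A : Subgroup H} (hAT : A ≤ T) {a : H} (haA : a ∈ A) (haD : a ∉ D)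
    (hA : ∀ x ∈ A, ∀ z ∈ A, x * z = z * x) :
    A ⊓ D ≤ D ⊓ centralizer ({a} : Set H) ∧ Nat.card A = Nat.card (A ⊓ D : Subgroup H) * D.relIndex A ∧
      D.relIndex A ≤ D.relIndex T := by
  refine ⟨fun x hx => ⟨hx.2, mem_centralizer_singleton_iff.2 (hA x hx.1 a haA)⟩, ?_,
    relIndex_le_of_le_right hAT (by rw [relIndex]; exact Subgroup.index_ne_zero_of_finite)⟩
  rw [← inf_relIndex_right (H := D) (K := A), inf_comm D A, ← (A ⊓ D).relIndex_bot_left, ← A.relIndex_bot_left,
    relIndex_mul_relIndex _ _ _ bot_le inf_le_left]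

end Local

end Cfsg.Agent.SmallOrder.Spec5
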